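import Mathlib

set_option autoImplicit false

/-!
Helper library (helper52), piece FIX1 of CALL S3413: a `p`-subgroup `P` and a normal subgroup `N`
of order prime to `p`; for every prime `r` some Sylow `r`-subgroup of `N` is normalised by `P`.
-/

namespace Cfsg.Agent.Helper52

open Subgroup
open scoped Pointwise

/-- FIX1 -/
theorem cgm_exists_invariant_sylow {G : Type*} [Group G] [Finite G] (p : ℕ) [Fact p.Prime]
    (P : Subgroup G) (hP : IsPGroup p ↥P) (N : Subgroup G) [N.Normal] (hpN : ¬ p ∣ Nat.card ↥N)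
    (r : ℕ) [Fact r.Prime] :
    ∃ R : Subgroup G, R ≤ N ∧ Nat.card ↥R = r ^ (Nat.card ↥N).factorization r ∧
      ∀ x ∈ P, ∀ y ∈ R, x * y * x⁻¹ ∈ R := by
  let φ : ↥P →* MulAut ↥N := (MulAut.conjNormal (H := N)).comp P.subtype
  let _ : MulAction ↥P (Sylow r ↥N) := MulAction.compHom (Sylow r ↥N) φ
  have hcard : ¬ p ∣ Nat.card (Sylow r ↥N) := by
    intro hd
    obtain ⟨S0⟩ : Nonempty (Sylow r ↥N) := inferInstance
    have h1 : Nat.card (Sylow r ↥N) ∣ (S0 : Subgroup ↥N).index := Sylow.card_dvd_index S0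
    have h2 : (S0 : Subgroup ↥N).index ∣ Nat.card ↥N := Subgroup.index_dvd_card _
    exact hpN (hd.trans (h1.trans h2))
  obtain ⟨S, hS⟩ := hP.nonempty_fixed_point_of_prime_not_dvd_card (Sylow r ↥N) hcard
  refine ⟨(S : Subgroup ↥N).map N.subtype, ?_, ?_, ?_⟩
  · rintro _ ⟨n, -, rfl⟩
    exact n.2
  · rw [Nat.card_congr ((S : Subgroup ↥N).equivMapOfInjective N.subtype
      N.subtype_injective).symm.toEquiv]
    exact Sylow.card_eq_multiplicity S
  · rintro x hx _ ⟨n, hn, rfl⟩
    have hfix : (⟨x, hx⟩ : ↥P) • S = S := hS ⟨x, hx⟩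
    have hmem : (MulAut.conjNormal (H := N) x) n ∈ (S : Subgroup ↥N) := by
      have h3 : (MulAut.conjNormal (H := N) x) n ∈
          ((MulAut.conjNormal (H := N) x) • (S : Subgroup ↥N)) := by
        exact Subgroup.smul_mem_pointwise_smul n (MulAut.conjNormal (H := N) x) _ hn
      have h4 : ((MulAut.conjNormal (H := N) x) • (S : Subgroup ↥N)) = (S : Subgroup ↥N) := by
        have := congrArg (fun T : Sylow r ↥N => (T : Subgroup ↥N)) hfix
        exact this
      rw [h4] at h3
      exact h3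
    refine ⟨(MulAut.conjNormal (H := N) x) n, hmem, ?_⟩
    simp [MulAut.conjNormal_apply]

end Cfsg.Agent.Helper52
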