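import Cfsg.Agent.Helper40.DZDefs

set_option autoImplicit false

/-!
CALL S4538, piece A3a: Frobenius reciprocity for a permutation character.
-/

namespace Cfsg.Agent.Helper52.DZ

open Cfsg.Agent.Helper40.DZ Cfsg.Agent.Helper44.PSLn Matrix

universe u

variable {G : Type*} [Group G] [Finite G] {V : Type*} [AddCommGroup V] [Module ℂ V]
  [Module.Finite ℂ V]

/-- the sum of a class function against the permutation character on `G ⧸ H` -/
theorem sum_mul_fpc [Fintype G] (χ : G → ℂ) (hχ : ∀ g x : G, χ (x * g * x⁻¹) = χ g)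
    (H : Subgroup G) :
    ∑ g : G, χ g * Cfsg.fixedPointCharacter H g =
      (Nat.card (G ⧸ H) : ℂ) * ∑ᶠ h ∈ (H : Set G), χ h := by
  classical
  let _ : Fintype (G ⧸ H) := Fintype.ofFinite _
  have hfpc : ∀ g : G, Cfsg.fixedPointCharacter H g =
      ∑ q : G ⧸ H, if g • q = q then (1 : ℂ) else 0 := by
    intro g
    unfold Cfsg.fixedPointCharacter
    rw [Finset.sum_boole, Nat.card_eq_fintype_card, ← Fintype.card_subtype]
    rfl
  have hfin : ∑ᶠ h ∈ (H : Set G), χ h = ∑ g : G, if g ∈ H then χ g else 0 := by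
    rw [finsum_mem_def, finsum_eq_sum_of_fintype]
    apply Finset.sum_congr rfl
    intro g _
    by_cases hg : g ∈ H
    · rw [Set.indicator_of_mem (by exact hg), if_pos hg]
    · rw [Set.indicator_of_notMem (by exact hg), if_neg hg]
  have hq : ∀ q : G ⧸ H, ∑ g : G, (if g • q = q then χ g else 0) =
      ∑ᶠ h ∈ (H : Set G), χ h := by
    intro q
    induction q using QuotientGroup.induction_on with | _ x => ?_
    have hmem : ∀ g : G, g • (x : G ⧸ H) = (x : G ⧸ H) ↔ x⁻¹ * g * x ∈ H := by
      intro g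
      change ((g * x : G) : G ⧸ H) = (x : G ⧸ H) ↔ _
      rw [QuotientGroup.eq]
      constructor
      · intro h
        have : x⁻¹ * g * x = ((g * x)⁻¹ * x)⁻¹ := by group
        rw [this]; exact H.inv_mem h
      · intro h
        have : (g * x)⁻¹ * x = (x⁻¹ * g * x)⁻¹ := by group
        rw [this]; exact H.inv_mem h
    rw [hfin]
    rw [← Equiv.sum_comp (MulAut.conj x).toEquiv]
    apply Finset.sum_congr rfl
    intro g _
    have h1 : (MulAut.conj x).toEquiv g = x * g * x⁻¹ := rfl
    rw [h1, hχ]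
    have h2 : x⁻¹ * (x * g * x⁻¹) * x = g := by group
    have h3 : (x * g * x⁻¹) • (x : G ⧸ H) = (x : G ⧸ H) ↔ g ∈ H := by
      rw [hmem, h2]
    by_cases hg : g ∈ H
    · rw [if_pos (h3.mpr hg), if_pos hg]
    · rw [if_neg (fun h => hg (h3.mp h)), if_neg hg]
  calc ∑ g : G, χ g * Cfsg.fixedPointCharacter H g
      = ∑ g : G, ∑ q : G ⧸ H, (if g • q = q then χ g else 0) := by
        apply Finset.sum_congr rfl
        intro g _
        rw [hfpc, Finset.mul_sum]
        apply Finset.sum_congr rfl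
        intro q _
        split_ifs <;> simp
    _ = ∑ q : G ⧸ H, ∑ g : G, (if g • q = q then χ g else 0) := Finset.sum_comm
    _ = ∑ q : G ⧸ H, ∑ᶠ h ∈ (H : Set G), χ h := by
        apply Finset.sum_congr rfl
        intro q _
        exact hq q
    _ = (Nat.card (G ⧸ H) : ℂ) * ∑ᶠ h ∈ (H : Set G), χ h := by
        rw [Finset.sum_const, Finset.card_univ, Nat.card_eq_fintype_card, nsmul_eq_mul]

/-- the dimension of the fixed space of `H` is the average of the character over `H` -/
theorem fix_dim_sum (ρ : Representation ℂ G V) (H : Subgroup G) :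
    (Nat.card H : ℂ) * (Module.finrank ℂ (fixS ρ (H : Set G)) : ℂ) =
      ∑ᶠ h ∈ (H : Set G), ρ.character h := by
  classical
  let _ : Fintype G := Fintype.ofFinite G
  have hfin : ∀ {M : Type _} [AddCommMonoid M] (f : G → M),
      ∑ᶠ h ∈ (H : Set G), f h = ∑ g : G, if g ∈ H then f g else 0 := by
    intro M _ f
    rw [finsum_mem_def, finsum_eq_sum_of_fintype]
    apply Finset.sum_congr rfl
    intro g _
    by_cases hg : g ∈ H
    · rw [Set.indicator_of_mem (by exact hg), if_pos hg]
    · rw [Set.indicator_of_notMem (by exact hg), if_neg hg]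
  set S : V →ₗ[ℂ] V := ∑ g : G, if g ∈ H then ρ g else 0 with hS
  have hcardH : (Nat.card H : ℂ) ≠ 0 := by exact_mod_cast Nat.card_pos.ne'
  have hSfix : ∀ k ∈ H, ∀ v : V, ρ k (S v) = S v := by
    intro k hk v
    have h1 : ρ k (S v) = ∑ g : G, if g ∈ H then ρ (k * g) v else 0 := by
      rw [hS, LinearMap.sum_apply, map_sum]
      apply Finset.sum_congr rfl
      intro g _
      by_cases hg : g ∈ H
      · rw [if_pos hg, if_pos hg, map_mul]; rfl
      · rw [if_neg hg, if_neg hg, LinearMap.zero_apply, map_zero]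
    rw [h1, hS, LinearMap.sum_apply, ← Equiv.sum_comp (Equiv.mulLeft k)
      (fun g => (if g ∈ H then ρ g else 0 : V →ₗ[ℂ] V) v)]
    apply Finset.sum_congr rfl
    intro g _
    have h2 : (Equiv.mulLeft k) g = k * g := rfl
    rw [h2]
    by_cases hg : g ∈ H
    · rw [if_pos hg, if_pos (H.mul_mem hk hg)]
    · have hkg : k * g ∉ H := fun h => hg (by
        have := H.mul_mem (H.inv_mem hk) h
        rwa [inv_mul_cancel_left] at this)
      rw [if_neg hg, if_neg hkg, LinearMap.zero_apply]
  have hSid : ∀ v ∈ fixS ρ (H : Set G), S v = (Nat.card H : ℂ) • v := by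
    intro v hv
    rw [hS, LinearMap.sum_apply]
    have h1 : ∀ g : G, (if g ∈ H then ρ g else 0 : V →ₗ[ℂ] V) v = if g ∈ H then v else 0 := by
      intro g
      by_cases hg : g ∈ H
      · rw [if_pos hg, if_pos hg]; exact hv g hg
      · rw [if_neg hg, if_neg hg, LinearMap.zero_apply]
    simp only [h1]
    rw [Finset.sum_ite, Finset.sum_const_zero, add_zero, Finset.sum_const,
      Nat.card_eq_fintype_card, Fintype.card_subtype, ← Nat.cast_smul_eq_nsmul ℂ]
  have hproj : LinearMap.IsProj (fixS ρ (H : Set G)) ((Nat.card H : ℂ)⁻¹ • S) := by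
    refine ⟨fun v => ?_, fun v hv => ?_⟩
    · intro k hk
      rw [LinearMap.smul_apply, map_smul, hSfix k hk]
    · rw [LinearMap.smul_apply, hSid v hv, smul_smul, inv_mul_cancel₀ hcardH, one_smul]
  have htr := hproj.trace
  rw [map_smul, smul_eq_mul] at htr
  have htrS : LinearMap.trace ℂ V S = ∑ g : G, if g ∈ H then ρ.character g else 0 := by
    rw [hS, map_sum]
    apply Finset.sum_congr rfl
    intro g _
    by_cases hg : g ∈ H
    · rw [if_pos hg, if_pos hg]; rfl
    · rw [if_neg hg, if_neg hg, map_zero]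
  rw [hfin, ← htrS, ← htr, ← mul_assoc, mul_inv_cancel₀ hcardH, one_mul]

/-- A3a with the dimension formula A0 as a hypothesis -/
theorem A3a_core [Fintype G] (ρ : Representation ℂ G V) (H : Subgroup G)
    (hA0 : (Nat.card H : ℂ) * (Module.finrank ℂ (fixS ρ (H : Set G)) : ℂ) =
      ∑ᶠ h ∈ (H : Set G), ρ.character h) :
    Cfsg.classInner ρ.character (Cfsg.fixedPointCharacter H) =
      (Module.finrank ℂ (fixS ρ (H : Set G)) : ℂ) := by
  unfold Cfsg.classInner
  have hconj : ∀ g : G, (starRingEnd ℂ) (Cfsg.fixedPointCharacter H g) =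
      Cfsg.fixedPointCharacter H g := by
    intro g
    unfold Cfsg.fixedPointCharacter
    exact Complex.conj_natCast _
  simp only [hconj]
  rw [sum_mul_fpc ρ.character (fun g x => ρ.char_conj g x) H, ← hA0]
  have hcard : (Nat.card G : ℂ) = (Nat.card (G ⧸ H) : ℂ) * (Nat.card H : ℂ) := by
    rw [← Nat.cast_mul, ← Subgroup.index_eq_card, mul_comm, Subgroup.card_mul_index]
  have hG : (Nat.card G : ℂ) ≠ 0 := by exact_mod_cast Nat.card_pos.ne'
  rw [hcard]
  have hH : (Nat.card H : ℂ) ≠ 0 := by exact_mod_cast Nat.card_pos.ne'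
  have hQ : (Nat.card (G ⧸ H) : ℂ) ≠ 0 := by
    intro h0
    rw [hcard, h0, zero_mul] at hG
    exact hG rfl
  field_simp

/-- A3a: Frobenius reciprocity for a permutation character. -/
theorem A3a [Fintype G] (ρ : Representation ℂ G V) (H : Subgroup G) :
    Cfsg.classInner ρ.character (Cfsg.fixedPointCharacter H) =
      (Module.finrank ℂ (fixS ρ (H : Set G)) : ℂ) :=
  A3a_core ρ H (fix_dim_sum ρ H)

end Cfsg.Agent.Helper52.DZ
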