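import Cfsg.Agent.Helper40.DZDefs

set_option autoImplicit false

/-!
CALL S4538, piece LA7a: a subgroup of `SL_n(F)` fixing every vector is trivial.
-/

namespace Cfsg.Agent.Helper52.DZ

open Cfsg.Agent.Helper40.DZ Cfsg.Agent.Helper44.PSLn Matrix

universe u

variable {n : ℕ} {F : Type u} [Field F]

local notation "SLn" => Matrix.SpecialLinearGroup (Fin n) F

variable [Fintype F]

/-- LA7a: a subgroup fixing every vector is trivial. -/
theorem LA7a (D : Subgroup SLn) (h : fixVec D = ⊤) : D = ⊥ := by
  rw [Subgroup.eq_bot_iff_forall]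
  intro d hd
  apply Matrix.SpecialLinearGroup.ext
  intro i j
  have hmem : (Pi.single j (1 : F) : Fin n → F) ∈ fixVec D := by
    rw [h]; exact Submodule.mem_top
  have h1 := hmem d hd
  have h2 := congrFun h1 i
  rw [Matrix.mulVec_single_one] at h2
  rw [Matrix.SpecialLinearGroup.coe_one, Matrix.one_apply]
  simp only [Matrix.col_apply, Pi.single_apply] at h2
  rw [h2]

end Cfsg.Agent.Helper52.DZ
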