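import Cfsg.Agent.Helper40.DZDefs

set_option autoImplicit false

/-!
CALL S4538, piece Q3: the parabolic subgroup of the composition `(1, …, 1)` is the Borel subgroup,
and every standard parabolic subgroup contains the Borel subgroup.
-/

namespace Cfsg.Agent.Helper52.DZ

open Cfsg.Agent.Helper40.DZ Cfsg.Agent.Helper44.PSLn Matrix

universe u

variable {n : ℕ} {F : Type u} [Field F]

local notation "SLn" => Matrix.SpecialLinearGroup (Fin n) F

/-- the block label is monotone in the position -/
theorem compLabel_mono (μ : Fin n → ℕ) {i j : Fin n} (hij : i ≤ j) :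
    Cfsg.compLabel μ i ≤ Cfsg.compLabel μ j := by
  unfold Cfsg.compLabel
  apply Finset.card_le_card
  intro k hk
  rw [Finset.mem_filter] at hk ⊢
  exact ⟨hk.1, hk.2.trans hij⟩

/-- the block label for the composition `(1, …, 1)` -/
theorem compLabel_one (i : Fin n) : Cfsg.compLabel (fun _ : Fin n => 1) i = i.val := by
  unfold Cfsg.compLabel
  have h1 : ∀ j : Fin n, (∑ k ∈ Finset.univ.filter (fun k : Fin n => k ≤ j), 1) = j.val + 1 := by
    intro j
    rw [Finset.sum_const, smul_eq_mul, mul_one]
    have : Finset.univ.filter (fun k : Fin n => k ≤ j) = Finset.Iic j := by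
      ext k; simp
    rw [this, Fin.card_Iic]
  have h2 : Finset.univ.filter (fun j : Fin n =>
      (∑ k ∈ Finset.univ.filter (fun k : Fin n => k ≤ j), 1) ≤ i.val) = Finset.Iio i := by
    ext j
    rw [Finset.mem_filter, h1, Finset.mem_Iio]
    constructor
    · intro h; exact Fin.lt_def.mpr (by omega)
    · intro h; exact ⟨Finset.mem_univ _, by have := Fin.lt_def.mp h; omega⟩
  rw [h2, Fin.card_Iio]

variable [Fintype F]

/-- Q3a: the parabolic of the composition `(1, …, 1)` is the Borel subgroup. -/
theorem par_one :
    parSL n F (fun i => 1 + i.val - ((1 : Equiv.Perm (Fin n)) i).val) = borelSL n F := by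
  have hμ : (fun i : Fin n => 1 + i.val - ((1 : Equiv.Perm (Fin n)) i).val) = fun _ => 1 := by
    funext i
    simp
  rw [hμ]
  ext g
  unfold parSL borelSL
  rw [Subgroup.mem_comap, Subgroup.mem_comap]
  change (_ : Matrix (Fin n) (Fin n) F).BlockTriangular (Cfsg.compLabel fun _ => 1) ↔
    (_ : Matrix (Fin n) (Fin n) F).BlockTriangular id
  constructor
  · intro h i j hij
    apply h
    rw [compLabel_one, compLabel_one]
    exact hij
  · intro h i j hij
    apply h
    rw [compLabel_one, compLabel_one] at hij
    exact hij

/-- Q3b: every standard parabolic contains the Borel subgroup. -/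
theorem borel_le_par (μ : Fin n → ℕ) :
    Cfsg.upperTriangularGL n F ≤ Cfsg.parabolicGL n F μ := by
  intro g hg
  change (g : Matrix (Fin n) (Fin n) F).BlockTriangular (Cfsg.compLabel μ)
  have hg' : (g : Matrix (Fin n) (Fin n) F).BlockTriangular id := hg
  intro i j hij
  apply hg'
  by_contra hcon
  have hle : i ≤ j := not_lt.mp hcon
  have := compLabel_mono μ hle
  omega

end Cfsg.Agent.Helper52.DZ
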