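import Mathlib
import Cfsg.Prelude.Def_CaseTheorems
import Cfsg.Prelude.Def_OddOrderLocal

/-!
# PIECE E of CALL S3888 (Blackburn, rank at most 2): a pure commutator computation
-/

set_option autoImplicit false

namespace Cfsg.Agent.Helper52

/-- PIECE E of CALL S3888. -/
theorem bk_contra {R : Type*} [Group R] (N U W C M₁ : Subgroup R)
    (hNc : N ≤ Subgroup.center R) (hN3 : ∀ e ∈ N, e ^ 3 = 1)
    (hUN : ∀ u ∈ U, u ∉ N → u ^ 3 ≠ 1)
    (hWU : ∀ s : R, ∀ t ∈ W, s * t * s⁻¹ * t⁻¹ ∈ U)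
    (hUR : ∀ s : R, ∀ u ∈ U, s * u * s⁻¹ * u⁻¹ ∈ N)
    (hCW : ∀ c ∈ C, ∀ t ∈ W, c * t = t * c)
    (hM₁ : M₁ ≠ ⊤) (hcube : ∀ s : R, s ∉ M₁ → s ^ 3 ∈ C)
    (hW : ∃ s : R, ∃ t ∈ W, s * t * s⁻¹ * t⁻¹ ∉ N) : False := by
  -- an element outside `M₁` moving some `t ∈ W` outside `N`
  obtain ⟨s, hsM, t, ht, hvN⟩ : ∃ s : R, s ∉ M₁ ∧ ∃ t ∈ W, s * t * s⁻¹ * t⁻¹ ∉ N := by
    obtain ⟨a, t, ht, hat⟩ := hW
    obtain ⟨b, hb⟩ : ∃ b : R, b ∉ M₁ := by
      by_contra hcon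
      push Not at hcon
      exact hM₁ (eq_top_iff.mpr fun x _ => hcon x)
    by_cases haM : a ∈ M₁
    · by_cases hbQ : ∃ t' ∈ W, b * t' * b⁻¹ * t'⁻¹ ∉ N
      · exact ⟨b, hb, hbQ⟩
      · push Not at hbQ
        refine ⟨a * b, ?_, t, ht, ?_⟩
        · intro hab
          apply hb
          have : b = a⁻¹ * (a * b) := by group
          rw [this]
          exact M₁.mul_mem (M₁.inv_mem haM) hab
        · intro habN
          apply hat
          have hn2 := hbQ t ht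
          have h1 : a * (b * t * b⁻¹ * t⁻¹) * t * a⁻¹ * t⁻¹ = (a * b) * t * (a * b)⁻¹ * t⁻¹ := by
            group
          have h2 : a * (b * t * b⁻¹ * t⁻¹) = (b * t * b⁻¹ * t⁻¹) * a :=
            Subgroup.mem_center_iff.mp (hNc hn2) a
          have h3 : a * t * a⁻¹ * t⁻¹
              = (b * t * b⁻¹ * t⁻¹)⁻¹ * ((a * b) * t * (a * b)⁻¹ * t⁻¹) := by
            rw [← h1, h2]; group
          rw [h3]
          exact N.mul_mem (N.inv_mem hn2) habN
    · exact ⟨a, haM, t, ht, hat⟩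
  obtain ⟨v, hv⟩ : ∃ v : R, v = s * t * s⁻¹ * t⁻¹ := ⟨_, rfl⟩
  rw [← hv] at hvN
  have hvU : v ∈ U := by rw [hv]; exact hWU s t ht
  obtain ⟨e, he⟩ : ∃ e : R, e = s * v * s⁻¹ * v⁻¹ := ⟨_, rfl⟩
  have heN : e ∈ N := by rw [he]; exact hUR s v hvU
  have hec : ∀ g : R, g * e = e * g := Subgroup.mem_center_iff.mp (hNc heN)
  have hst : s * t * s⁻¹ = v * t := by rw [hv]; group
  have hsv : s * v * s⁻¹ = e * v := by rw [he]; group
  have hse : s * e * s⁻¹ = e := by rw [hec s]; group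
  have h3 : s ^ 3 * t * (s ^ 3)⁻¹ = e ^ 3 * v ^ 3 * t := by
    rw [pow_three' s, pow_three' e, pow_three' v]
    calc s * s * s * t * (s * s * s)⁻¹ = s * (s * (s * t * s⁻¹) * s⁻¹) * s⁻¹ := by group
      _ = s * (s * (v * t) * s⁻¹) * s⁻¹ := by rw [hst]
      _ = s * ((s * v * s⁻¹) * (s * t * s⁻¹)) * s⁻¹ := by group
      _ = s * ((e * v) * (v * t)) * s⁻¹ := by rw [hsv, hst]
      _ = (s * e * s⁻¹) * (s * v * s⁻¹) * (s * v * s⁻¹) * (s * t * s⁻¹) := by group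
      _ = e * (e * v) * (e * v) * (v * t) := by rw [hse, hsv, hst]
      _ = e * e * e * (v * v * v) * t := by
        have hve : v * e = e * v := hec v
        calc e * (e * v) * (e * v) * (v * t) = e * e * (v * e) * v * v * t := by group
          _ = e * e * (e * v) * v * v * t := by rw [hve]
          _ = e * e * e * (v * v * v) * t := by group
  have hcomm : s ^ 3 * t = t * s ^ 3 := hCW (s ^ 3) (hcube s hsM) t ht
  have h4 : s ^ 3 * t * (s ^ 3)⁻¹ = t := by rw [hcomm]; group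
  rw [h4, hN3 e heN, one_mul] at h3
  have h5 : v ^ 3 = 1 := by
    have : v ^ 3 * t = 1 * t := by rw [one_mul]; exact h3.symm
    exact mul_right_cancel this
  exact hUN v hvU hvN h5

end Cfsg.Agent.Helper52
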