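import Mathlib
import Cfsg.Prelude.Def_CaseTheorems
import Cfsg.Prelude.Def_OddOrderLocal

/-!
# PIECE G of CALL S3888 (Blackburn, rank at most 2): central commutator subgroup of index `p ^ 2`
-/

set_option autoImplicit false

namespace Cfsg.Agent.Helper52

/-- PIECE G of CALL S3888: a central commutator subgroup of index `p ^ 2` has order at most `p`. -/
theorem bk_comm_card {R : Type*} [Group R] [Finite R] {p : ℕ} [Fact p.Prime] (hR : IsPGroup p R)
    (hc : commutator R ≤ Subgroup.center R) (hidx : (commutator R).index = p ^ 2) :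
    Nat.card (commutator R) ≤ p := by
  have hp : p.Prime := Fact.out
  by_cases hD : commutator R = ⊥
  · rw [hD, Subgroup.card_bot]; exact hp.one_lt.le
  have hcen : ∀ r ∈ commutator R, ∀ g : R, g * r = r * g :=
    fun r hr g => Subgroup.mem_center_iff.mp (hc hr) g
  have hcomm_mem : ∀ x y : R, x * y * x⁻¹ * y⁻¹ ∈ commutator R := by
    intro x y
    rw [commutator_def]
    exact Subgroup.commutator_mem_commutator (Subgroup.mem_top x) (Subgroup.mem_top y)
  -- `p`-th powers lie in the commutator subgroup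
  have hpow : ∀ x : R, x ^ p ∈ commutator R := by
    intro x
    have hcardQ : Nat.card (R ⧸ commutator R) = p ^ 2 := by rw [← hidx]; rfl
    have hord : orderOf (QuotientGroup.mk' (commutator R) x) ∣ p ^ 2 := by
      rw [← hcardQ]; exact orderOf_dvd_natCard _
    obtain ⟨m, hm, hm'⟩ := (Nat.dvd_prime_pow hp).mp hord
    have hm2 : m ≠ 2 := by
      rintro rfl
      apply hD
      have hcyc : IsCyclic (R ⧸ commutator R) :=
        isCyclic_of_orderOf_eq_card _ (by rw [hm', hcardQ])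
      have hab : ∀ a b : R, a * b = b * a := fun a b =>
        (MonoidHom.isMulCommutative_of_isCyclic_of_ker_le_center
          (QuotientGroup.mk' (commutator R))
          (by rw [QuotientGroup.ker_mk']; exact hc)).is_comm.comm a b
      rw [eq_bot_iff, commutator_def, Subgroup.commutator_le]
      intro g₁ _ g₂ _
      rw [Subgroup.mem_bot, commutatorElement_eq_one_iff_mul_comm]
      exact hab g₁ g₂
    have hm1 : m ≤ 1 := by omega
    have h1 : (QuotientGroup.mk' (commutator R) x) ^ p = 1 := by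
      apply orderOf_dvd_iff_pow_eq_one.mp
      rw [hm']
      simpa using pow_dvd_pow p hm1
    rw [← map_pow, QuotientGroup.mk'_apply, QuotientGroup.eq_one_iff] at h1
    exact h1
  have hDtop : commutator R ≠ ⊤ := by
    intro h
    rw [h, Subgroup.index_top] at hidx
    have : 1 < p ^ 2 := Nat.one_lt_pow (by norm_num) hp.one_lt
    omega
  obtain ⟨a, ha⟩ : ∃ a : R, a ∉ commutator R := by
    by_contra hcon
    push Not at hcon
    exact hDtop (eq_top_iff.mpr fun x _ => hcon x)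
  have hA : commutator R ⊔ Subgroup.zpowers a ≠ ⊤ := by
    intro hAtop
    apply hD
    have hle : commutator R ⊔ Subgroup.zpowers a ≤ Subgroup.centralizer {a} := by
      rw [sup_le_iff]
      refine ⟨fun r hr => ?_, ?_⟩
      · rw [Subgroup.mem_centralizer_singleton_iff]
        exact (hcen r hr a).symm
      · rw [Subgroup.zpowers_le, Subgroup.mem_centralizer_singleton_iff]
    have hacen : a ∈ Subgroup.center R := by
      rw [Subgroup.mem_center_iff]
      intro g
      have hg : g ∈ Subgroup.centralizer {a} := hle (by rw [hAtop]; exact Subgroup.mem_top g)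
      exact Subgroup.mem_centralizer_singleton_iff.mp hg
    have hcentop : Subgroup.center R = ⊤ := by
      rw [eq_top_iff, ← hAtop, sup_le_iff]
      exact ⟨hc, (Subgroup.zpowers_le).mpr hacen⟩
    rw [eq_bot_iff, commutator_def, Subgroup.commutator_le]
    intro g₁ _ g₂ _
    rw [Subgroup.mem_bot, commutatorElement_eq_one_iff_mul_comm]
    have hg₂ : g₂ ∈ Subgroup.center R := by rw [hcentop]; exact Subgroup.mem_top g₂
    exact Subgroup.mem_center_iff.mp hg₂ g₁
  obtain ⟨b, hb⟩ : ∃ b : R, b ∉ commutator R ⊔ Subgroup.zpowers a := by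
    by_contra hcon
    push Not at hcon
    exact hA (eq_top_iff.mpr fun x _ => hcon x)
  -- a subgroup containing the commutator subgroup, `a` and `b` is everything
  have hgen : ∀ H : Subgroup R, commutator R ≤ H → a ∈ H → b ∈ H → H = ⊤ := by
    intro H hDH haH hbH
    have hAH : commutator R ⊔ Subgroup.zpowers a ≤ H :=
      sup_le hDH ((Subgroup.zpowers_le).mpr haH)
    obtain ⟨i, hi⟩ := Subgroup.card_dvd_of_le
      (le_sup_left : commutator R ≤ commutator R ⊔ Subgroup.zpowers a)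
    obtain ⟨j, hj⟩ := Subgroup.card_dvd_of_le hAH
    obtain ⟨k, hk⟩ := Subgroup.card_subgroup_dvd_card H
    have hDR : Nat.card (commutator R) * p ^ 2 = Nat.card R := by
      rw [← hidx]; exact Subgroup.card_mul_index _
    have hDpos : 0 < Nat.card (commutator R) := Nat.card_pos
    have hijk : i * j * k = p ^ 2 := by
      have : Nat.card (commutator R) * (i * j * k) = Nat.card (commutator R) * p ^ 2 := by
        rw [hDR, hk, hj, hi]; ring
      exact Nat.eq_of_mul_eq_mul_left hDpos this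
    have hi1 : i ≠ 1 := by
      rintro rfl
      rw [mul_one] at hi
      have : commutator R = commutator R ⊔ Subgroup.zpowers a :=
        Subgroup.eq_of_le_of_card_ge le_sup_left hi.le
      apply ha
      rw [this]
      exact Subgroup.mem_sup_right (Subgroup.mem_zpowers a)
    have hj1 : j ≠ 1 := by
      rintro rfl
      rw [mul_one] at hj
      have : commutator R ⊔ Subgroup.zpowers a = H := Subgroup.eq_of_le_of_card_ge hAH hj.le
      apply hb
      rw [this]
      exact hbH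
    have hge : ∀ d : ℕ, d ∣ p ^ 2 → d ≠ 1 → p ≤ d := by
      intro d hd hd1
      obtain ⟨m, -, rfl⟩ := (Nat.dvd_prime_pow hp).mp hd
      have hm0 : m ≠ 0 := by
        rintro rfl
        exact hd1 (pow_zero p)
      exact Nat.le_of_dvd (pow_pos hp.pos m) (dvd_pow_self p hm0)
    have hpi : p ≤ i := hge i ⟨j * k, by rw [← hijk, mul_assoc]⟩ hi1
    have hpj : p ≤ j := hge j ⟨i * k, by rw [← hijk]; ring⟩ hj1
    have hpp : p * p ≤ i * j := Nat.mul_le_mul hpi hpj
    have hk0 : k ≠ 0 := by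
      rintro rfl
      rw [mul_zero] at hijk
      exact (pow_pos hp.pos 2).ne hijk
    have hk2 : k < 2 := by
      by_contra hk2
      push Not at hk2
      have h1 : i * j * 2 ≤ i * j * k := Nat.mul_le_mul_left _ hk2
      have h2 : p * p * 2 ≤ i * j * 2 := Nat.mul_le_mul_right _ hpp
      have h3 : 0 < p * p := Nat.mul_pos hp.pos hp.pos
      rw [hijk, pow_two] at h1
      linarith
    have hk1 : k = 1 := by omega
    rw [hk1, mul_one] at hk
    exact (Subgroup.card_eq_iff_eq_top H).mp hk.symm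
  -- the two commutator maps are homomorphisms
  have hφ : ∀ y : R, ∃ φ : R →* R, ∀ x, φ x = x * y * x⁻¹ * y⁻¹ := by
    intro y
    refine ⟨{ toFun := fun x => x * y * x⁻¹ * y⁻¹, map_one' := by simp, map_mul' := ?_ },
      fun x => rfl⟩
    intro x₁ x₂
    show x₁ * x₂ * y * (x₁ * x₂)⁻¹ * y⁻¹ = x₁ * y * x₁⁻¹ * y⁻¹ * (x₂ * y * x₂⁻¹ * y⁻¹)
    have h1 := hcen _ (hcomm_mem x₂ y) x₁
    have h2 := hcen _ (hcomm_mem x₂ y) (x₁ * y * x₁⁻¹ * y⁻¹)
    calc x₁ * x₂ * y * (x₁ * x₂)⁻¹ * y⁻¹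
        = (x₁ * (x₂ * y * x₂⁻¹ * y⁻¹)) * x₁⁻¹ * (x₁ * y * x₁⁻¹ * y⁻¹) := by group
      _ = ((x₂ * y * x₂⁻¹ * y⁻¹) * x₁) * x₁⁻¹ * (x₁ * y * x₁⁻¹ * y⁻¹) := by rw [h1]
      _ = (x₂ * y * x₂⁻¹ * y⁻¹) * (x₁ * y * x₁⁻¹ * y⁻¹) := by group
      _ = x₁ * y * x₁⁻¹ * y⁻¹ * (x₂ * y * x₂⁻¹ * y⁻¹) := h2.symm
  have hψ : ∀ x : R, ∃ ψ : R →* R, ∀ y, ψ y = x * y * x⁻¹ * y⁻¹ := by
    intro x
    refine ⟨{ toFun := fun y => x * y * x⁻¹ * y⁻¹, map_one' := by simp, map_mul' := ?_ },
      fun y => rfl⟩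
    intro y₁ y₂
    show x * (y₁ * y₂) * x⁻¹ * (y₁ * y₂)⁻¹ = x * y₁ * x⁻¹ * y₁⁻¹ * (x * y₂ * x⁻¹ * y₂⁻¹)
    have h1 := hcen _ (hcomm_mem x y₂) y₁
    calc x * (y₁ * y₂) * x⁻¹ * (y₁ * y₂)⁻¹
        = (x * y₁ * x⁻¹ * y₁⁻¹) * (y₁ * (x * y₂ * x⁻¹ * y₂⁻¹)) * y₁⁻¹ := by group
      _ = (x * y₁ * x⁻¹ * y₁⁻¹) * ((x * y₂ * x⁻¹ * y₂⁻¹) * y₁) * y₁⁻¹ := by rw [h1]
      _ = x * y₁ * x⁻¹ * y₁⁻¹ * (x * y₂ * x⁻¹ * y₂⁻¹) := by group
  obtain ⟨c, hcdef⟩ : ∃ c : R, c = a * b * a⁻¹ * b⁻¹ := ⟨_, rfl⟩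
  have h1 : ∀ x : R, x * b * x⁻¹ * b⁻¹ ∈ Subgroup.zpowers c := by
    obtain ⟨φ, hφb⟩ := hφ b
    have hD' : commutator R ≤ (Subgroup.zpowers c).comap φ := by
      intro r hr
      rw [Subgroup.mem_comap, hφb]
      have : r * b * r⁻¹ * b⁻¹ = 1 := by rw [← hcen r hr b]; group
      rw [this]; exact Subgroup.one_mem _
    have ha' : a ∈ (Subgroup.zpowers c).comap φ := by
      rw [Subgroup.mem_comap, hφb, ← hcdef]; exact Subgroup.mem_zpowers c
    have hb' : b ∈ (Subgroup.zpowers c).comap φ := by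
      rw [Subgroup.mem_comap, hφb]
      have : b * b * b⁻¹ * b⁻¹ = 1 := by group
      rw [this]; exact Subgroup.one_mem _
    have htop := hgen _ hD' ha' hb'
    intro x
    have hx : x ∈ (Subgroup.zpowers c).comap φ := by rw [htop]; exact Subgroup.mem_top x
    rw [Subgroup.mem_comap, hφb] at hx
    exact hx
  have h2 : ∀ x : R, x * a * x⁻¹ * a⁻¹ ∈ Subgroup.zpowers c := by
    obtain ⟨φ, hφa⟩ := hφ a
    have hD' : commutator R ≤ (Subgroup.zpowers c).comap φ := by
      intro r hr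
      rw [Subgroup.mem_comap, hφa]
      have : r * a * r⁻¹ * a⁻¹ = 1 := by rw [← hcen r hr a]; group
      rw [this]; exact Subgroup.one_mem _
    have ha' : a ∈ (Subgroup.zpowers c).comap φ := by
      rw [Subgroup.mem_comap, hφa]
      have : a * a * a⁻¹ * a⁻¹ = 1 := by group
      rw [this]; exact Subgroup.one_mem _
    have hb' : b ∈ (Subgroup.zpowers c).comap φ := by
      rw [Subgroup.mem_comap, hφa]
      have : b * a * b⁻¹ * a⁻¹ = c⁻¹ := by rw [hcdef]; group
      rw [this]; exact Subgroup.inv_mem _ (Subgroup.mem_zpowers c)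
    have htop := hgen _ hD' ha' hb'
    intro x
    have hx : x ∈ (Subgroup.zpowers c).comap φ := by rw [htop]; exact Subgroup.mem_top x
    rw [Subgroup.mem_comap, hφa] at hx
    exact hx
  have h3 : ∀ x y : R, x * y * x⁻¹ * y⁻¹ ∈ Subgroup.zpowers c := by
    intro x
    obtain ⟨ψ, hψx⟩ := hψ x
    have hD' : commutator R ≤ (Subgroup.zpowers c).comap ψ := by
      intro r hr
      rw [Subgroup.mem_comap, hψx]
      have : x * r * x⁻¹ * r⁻¹ = 1 := by rw [hcen r hr x]; group
      rw [this]; exact Subgroup.one_mem _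
    have ha' : a ∈ (Subgroup.zpowers c).comap ψ := by
      rw [Subgroup.mem_comap, hψx]; exact h2 x
    have hb' : b ∈ (Subgroup.zpowers c).comap ψ := by
      rw [Subgroup.mem_comap, hψx]; exact h1 x
    have htop := hgen _ hD' ha' hb'
    intro y
    have hy : y ∈ (Subgroup.zpowers c).comap ψ := by rw [htop]; exact Subgroup.mem_top y
    rw [Subgroup.mem_comap, hψx] at hy
    exact hy
  have hDle : commutator R ≤ Subgroup.zpowers c := by
    rw [commutator_def, Subgroup.commutator_le]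
    intro g₁ _ g₂ _
    exact h3 g₁ g₂
  have hcp : c ^ p = 1 := by
    obtain ⟨φ, hφb⟩ := hφ b
    have e1 : φ (a ^ p) = c ^ p := by rw [map_pow, hφb, ← hcdef]
    have e2 : φ (a ^ p) = 1 := by
      rw [hφb, ← hcen _ (hpow a) b, mul_inv_cancel_right, mul_inv_cancel]
    rw [← e1, e2]
  have hord : orderOf c ≤ p := Nat.le_of_dvd hp.pos (orderOf_dvd_of_pow_eq_one hcp)
  calc Nat.card (commutator R) ≤ Nat.card (Subgroup.zpowers c) := Subgroup.card_le_of_le hDle
    _ = orderOf c := Nat.card_zpowers c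
    _ ≤ p := hord

end Cfsg.Agent.Helper52
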