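import Cfsg.Agent.Helper7.CGLAutDefs

set_option autoImplicit false

/-!
# CALL CGL piece A1 (helper52): `fix_of_close`, statement verbatim from
tools/calls/CGLSkel.lean.txt.
-/

namespace Cfsg.Agent.Helper52.CGLA1

open Cfsg.Agent.Helper7.CGL

/-- one closure step preserves "every vertex of the mask is fixed" -/
theorem step_inv (rows : List ℕ) (n : ℕ) (ρ : Equiv.Perm (Fin n))
    (hρ : ∀ i j : Fin n, relB rows (ρ i) (ρ j) = true ↔ relB rows i j = true)
    (s : ℕ × ℕ × ℕ) (m : ℕ) (hm : ∀ k : Fin n, m.testBit k = true → ρ k = k) :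
    ∀ k : Fin n, (stepM rows n s m).testBit k = true → ρ k = k := by
  unfold stepM
  cases hcond : (Nat.blt s.1 n && Nat.blt s.2.1 n && Nat.blt s.2.2 n && Nat.testBit m s.1 &&
      Nat.testBit m s.2.1 &&
      Nat.beq (Nat.land (rows.getD s.1 0) (rows.getD s.2.1 0)) (Nat.pow 2 s.2.2)) with
  | false => simpa using hm
  | true =>
    simp only [cond_true]
    simp only [Bool.and_eq_true] at hcond
    obtain ⟨⟨⟨⟨⟨h1, h2⟩, h3⟩, h4⟩, h5⟩, h6⟩ := hcond
    have hi : s.1 < n := by simpa [Nat.blt_eq] using h1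
    have hj : s.2.1 < n := by simpa [Nat.blt_eq] using h2
    have hland : rows.getD s.1 0 &&& rows.getD s.2.1 0 = 2 ^ s.2.2 := Nat.eq_of_beq_eq_true h6
    have hcommon : ∀ x : ℕ, relB rows s.1 x = true → relB rows s.2.1 x = true → s.2.2 = x := by
      intro x hx1 hx2
      have h : (rows.getD s.1 0 &&& rows.getD s.2.1 0).testBit x = true := by
        rw [Nat.testBit_and]
        unfold relB at hx1 hx2
        rw [hx1, hx2]
        rfl
      rw [hland, Nat.testBit_two_pow] at h
      simpa using h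
    have hti : relB rows s.1 s.2.2 = true ∧ relB rows s.2.1 s.2.2 = true := by
      have h : (rows.getD s.1 0 &&& rows.getD s.2.1 0).testBit s.2.2 = true := by
        rw [hland, Nat.testBit_two_pow]
        simp
      rw [Nat.testBit_and, Bool.and_eq_true] at h
      exact h
    intro k hk
    change (m ||| 2 ^ s.2.2).testBit k = true at hk
    rw [Nat.testBit_or, Bool.or_eq_true] at hk
    rcases hk with hk | hk
    · exact hm k hk
    · rw [Nat.testBit_two_pow] at hk
      have hkt : s.2.2 = (k : ℕ) := by simpa using hk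
      have hfi : ρ ⟨s.1, hi⟩ = ⟨s.1, hi⟩ := hm ⟨s.1, hi⟩ h4
      have hfj : ρ ⟨s.2.1, hj⟩ = ⟨s.2.1, hj⟩ := hm ⟨s.2.1, hj⟩ h5
      have r1 : relB rows (ρ ⟨s.1, hi⟩) (ρ k) = true :=
        (hρ ⟨s.1, hi⟩ k).mpr (by rw [← hkt]; exact hti.1)
      have r2 : relB rows (ρ ⟨s.2.1, hj⟩) (ρ k) = true :=
        (hρ ⟨s.2.1, hj⟩ k).mpr (by rw [← hkt]; exact hti.2)
      rw [hfi] at r1
      rw [hfj] at r2
      have h := hcommon (ρ k) r1 r2
      apply Fin.ext
      rw [← h, hkt]

/-- piece A1: an automorphism of the relation that fixes the vertices of `mask0` fixes all the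
vertices, if the closure of `mask0` is everything. -/
theorem fix_of_close (rows : List ℕ) (n : ℕ) (steps : List (ℕ × ℕ × ℕ)) (mask0 : ℕ)
    (ρ : Equiv.Perm (Fin n))
    (hρ : ∀ i j : Fin n, relB rows (ρ i) (ρ j) = true ↔ relB rows i j = true)
    (h0 : ∀ k : Fin n, mask0.testBit k = true → ρ k = k)
    (hc : closeM rows n steps mask0 = 2 ^ n - 1) : ρ = 1 := by
  have hinv : ∀ (steps : List (ℕ × ℕ × ℕ)) (m : ℕ),
      (∀ k : Fin n, m.testBit k = true → ρ k = k) →
      ∀ k : Fin n, (closeM rows n steps m).testBit k = true → ρ k = k := by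
    intro steps
    induction steps with
    | nil =>
      intro m hm
      simpa [closeM] using hm
    | cons s t ih =>
      intro m hm
      have h : closeM rows n (s :: t) m = closeM rows n t (stepM rows n s m) := by
        simp [closeM]
      rw [h]
      exact ih _ (step_inv rows n ρ hρ s m hm)
  have hall := hinv steps mask0 h0
  rw [hc] at hall
  ext k
  have h := hall k (by rw [Nat.testBit_two_pow_sub_one]; simp [k.2])
  rw [h]
  rfl

end Cfsg.Agent.Helper52.CGLA1
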