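import Cfsg.Agent.Helper7.CGLAutDefs

set_option autoImplicit false

/-!
# CALL CGL piece A2 (helper52): `frame_mem`, statement verbatim from
tools/calls/CGLSkel.lean.txt.
-/

namespace Cfsg.Agent.Helper52.CGLA2

open Cfsg.Agent.Helper7.CGL

theorem rows_lt (rows : List ℕ) (n : ℕ) (hrows : rowsOK rows n = true) (i : ℕ) (hi : i < n) :
    rows.getD i 0 < 2 ^ n := by
  unfold rowsOK at hrows
  rw [List.all_eq_true] at hrows
  have h := hrows i (List.mem_range.mpr hi)
  simpa [Nat.blt_eq] using h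

/-- a neighbour of a vertex below `n` is below `n` -/
theorem bit_lt (rows : List ℕ) (n : ℕ) (hrows : rowsOK rows n = true) (i : ℕ) (hi : i < n)
    (y : ℕ) (hy : relB rows i y = true) : y < n := by
  by_contra h
  push Not at h
  have h1 := rows_lt rows n hrows i hi
  have h2 : rows.getD i 0 < 2 ^ y := lt_of_lt_of_le h1 (Nat.pow_le_pow_right (by norm_num) h)
  have h3 := Nat.testBit_lt_two_pow h2
  unfold relB at hy
  rw [h3] at hy
  exact Bool.noConfusion hy

theorem ok2_iff (rows : List ℕ) (a b : ℕ) : ok2 rows a b = true ↔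
    relB rows a b = false ∧ ∃ k, relB rows a k = true ∧ relB rows b k = true := by
  unfold ok2
  rw [Bool.and_eq_true, Bool.not_eq_true', Bool.not_eq_true']
  refine and_congr Iff.rfl ?_
  constructor
  · intro h
    have hne : rows.getD a 0 &&& rows.getD b 0 ≠ 0 := by
      intro h0
      have h1 : Nat.beq (Nat.land (rows.getD a 0) (rows.getD b 0)) 0 = true := by
        show Nat.beq (rows.getD a 0 &&& rows.getD b 0) 0 = true
        rw [h0]
        rfl
      rw [h1] at h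
      exact Bool.noConfusion h
    obtain ⟨k, hk⟩ := Nat.exists_testBit_of_ne_zero hne
    rw [Nat.testBit_and, Bool.and_eq_true] at hk
    exact ⟨k, hk⟩
  · rintro ⟨k, hk1, hk2⟩
    cases hbeq : Nat.beq (Nat.land (rows.getD a 0) (rows.getD b 0)) 0 with
    | false => rfl
    | true =>
      have h0 : rows.getD a 0 &&& rows.getD b 0 = 0 := Nat.eq_of_beq_eq_true hbeq
      have h1 : (rows.getD a 0 &&& rows.getD b 0).testBit k = true := by
        rw [Nat.testBit_and]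
        unfold relB at hk1 hk2
        rw [hk1, hk2]
        rfl
      rw [h0, Nat.zero_testBit] at h1
      exact Bool.noConfusion h1

theorem ok3_iff (rows : List ℕ) (a b c : ℕ) : ok3 rows a b c = true ↔
    ∀ k, ¬ (relB rows a k = true ∧ relB rows b k = true ∧ relB rows c k = true) := by
  unfold ok3
  constructor
  · rintro h k ⟨h1, h2, h3⟩
    have h0 : rows.getD a 0 &&& rows.getD b 0 &&& rows.getD c 0 = 0 := Nat.eq_of_beq_eq_true h
    have h4 : (rows.getD a 0 &&& rows.getD b 0 &&& rows.getD c 0).testBit k = true := by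
      rw [Nat.testBit_and, Nat.testBit_and]
      unfold relB at h1 h2 h3
      rw [h1, h2, h3]
      rfl
    rw [h0, Nat.zero_testBit] at h4
    exact Bool.noConfusion h4
  · intro h
    have h0 : rows.getD a 0 &&& rows.getD b 0 &&& rows.getD c 0 = 0 := by
      by_contra hne
      obtain ⟨k, hk⟩ := Nat.exists_testBit_of_ne_zero hne
      rw [Nat.testBit_and, Nat.testBit_and, Bool.and_eq_true, Bool.and_eq_true] at hk
      exact h k ⟨hk.1.1, hk.1.2, hk.2⟩
    show Nat.beq (rows.getD a 0 &&& rows.getD b 0 &&& rows.getD c 0) 0 = true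
    rw [h0]
    rfl

section

variable (rows : List ℕ) (n : ℕ) (hrows : rowsOK rows n = true) (σ : Equiv.Perm (Fin n))
  (hσ : ∀ i j : Fin n, relB rows (σ i) (σ j) = true ↔ relB rows i j = true)

include hrows hσ in
theorem ok2_map (a b : Fin n) (h : ok2 rows a b = true) : ok2 rows (σ a) (σ b) = true := by
  rw [ok2_iff] at h ⊢
  obtain ⟨h1, k, hk1, hk2⟩ := h
  have hk : k < n := bit_lt rows n hrows a a.2 k hk1
  refine ⟨?_, (σ ⟨k, hk⟩ : ℕ), (hσ a ⟨k, hk⟩).mpr hk1, (hσ b ⟨k, hk⟩).mpr hk2⟩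
  cases hr : relB rows (σ a) (σ b) with
  | false => rfl
  | true =>
    rw [(hσ a b).mp hr] at h1
    exact Bool.noConfusion h1

include hrows hσ in
theorem ok3_map (a b c : Fin n) (h : ok3 rows a b c = true) :
    ok3 rows (σ a) (σ b) (σ c) = true := by
  rw [ok3_iff] at h ⊢
  rintro y ⟨h1, h2, h3⟩
  have hy : y < n := bit_lt rows n hrows (σ a) (σ a).2 y h1
  have e : σ (σ.symm ⟨y, hy⟩) = ⟨y, hy⟩ := Equiv.apply_symm_apply σ _
  have e' : ((σ (σ.symm ⟨y, hy⟩) : Fin n) : ℕ) = y := by rw [e]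
  refine h (σ.symm ⟨y, hy⟩ : Fin n) ⟨?_, ?_, ?_⟩
  · exact (hσ a (σ.symm ⟨y, hy⟩)).mp (by rw [e']; exact h1)
  · exact (hσ b (σ.symm ⟨y, hy⟩)).mp (by rw [e']; exact h2)
  · exact (hσ c (σ.symm ⟨y, hy⟩)).mp (by rw [e']; exact h3)

end

theorem mem_framesL (rows : List ℕ) (n : ℕ) (a b c d : ℕ) : (a, b, c, d) ∈ framesL rows n ↔
    a < n ∧ b < n ∧ ok2 rows a b = true ∧ c < n ∧
      (ok2 rows a c && ok2 rows b c && ok3 rows a b c) = true ∧ d < n ∧
      (ok2 rows a d && ok2 rows b d && ok2 rows c d && ok3 rows a b d && ok3 rows a c d &&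
        ok3 rows b c d) = true := by
  unfold framesL
  simp only [List.mem_flatMap, List.mem_filter, List.mem_range, List.mem_map, Prod.mk.injEq]
  constructor
  · rintro ⟨a', ha', b', ⟨hb', hab⟩, c', ⟨hc', habc⟩, d', ⟨hd', habcd⟩, rfl, rfl, rfl, rfl⟩
    exact ⟨ha', hb', hab, hc', habc, hd', habcd⟩
  · rintro ⟨ha, hb, hab, hc, habc, hd, habcd⟩
    exact ⟨a, ha, b, ⟨hb, hab⟩, c, ⟨hc, habc⟩, d, ⟨hd, habcd⟩, rfl, rfl, rfl, rfl⟩

/-- piece A2: the image of a frame under an automorphism is in the list of the frames. -/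
theorem frame_mem (rows : List ℕ) (n : ℕ) (hrows : rowsOK rows n = true)
    (σ : Equiv.Perm (Fin n))
    (hσ : ∀ i j : Fin n, relB rows (σ i) (σ j) = true ↔ relB rows i j = true)
    (v0 v1 v2 v3 : Fin n) (hfr : frOK rows v0 v1 v2 v3 = true) :
    ((σ v0 : ℕ), (σ v1 : ℕ), (σ v2 : ℕ), (σ v3 : ℕ)) ∈ framesL rows n := by
  simp only [frOK, Bool.and_eq_true] at hfr
  obtain ⟨⟨h01, ⟨h02, h12⟩, h012⟩, ⟨⟨⟨⟨h03, h13⟩, h23⟩, h013⟩, h023⟩, h123⟩ := hfr
  rw [mem_framesL]
  have m2 := ok2_map rows n hrows σ hσ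
  have m3 := ok3_map rows n hrows σ hσ
  refine ⟨(σ v0).2, (σ v1).2, m2 _ _ h01, (σ v2).2, ?_, (σ v3).2, ?_⟩
  · simp only [Bool.and_eq_true]
    exact ⟨⟨m2 _ _ h02, m2 _ _ h12⟩, m3 _ _ _ h012⟩
  · simp only [Bool.and_eq_true]
    exact ⟨⟨⟨⟨⟨m2 _ _ h03, m2 _ _ h13⟩, m2 _ _ h23⟩, m3 _ _ _ h013⟩, m3 _ _ _ h023⟩, m3 _ _ _ h123⟩

end Cfsg.Agent.Helper52.CGLA2
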