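import Cfsg.Agent.Helper7.CGLAutDefs
import Cfsg.Agent.Helper52.CGLA1
import Cfsg.Agent.Helper52.CGLA2

set_option autoImplicit false

/-!
# CALL CGL piece A3 (helper52): `card_aut_le`, statement verbatim from
tools/calls/CGLSkel.lean.txt (uses A1 `fix_of_close` and A2 `frame_mem`).
-/

namespace Cfsg.Agent.Helper52.CGLA3

open Cfsg.Agent.Helper7.CGL

/-- piece A3: the number of the automorphisms is at most the number of the frames
(from A1 and A2: `σ ↦ (σ v0, σ v1, σ v2, σ v3)` is injective into the frames). -/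
theorem card_aut_le (rows : List ℕ) (n : ℕ) (v0 v1 v2 v3 : Fin n) (steps : List (ℕ × ℕ × ℕ))
    (hrows : rowsOK rows n = true) (hfr : frOK rows v0 v1 v2 v3 = true)
    (hcl : closeM rows n steps (Nat.lor (Nat.lor (Nat.pow 2 v0) (Nat.pow 2 v1))
      (Nat.lor (Nat.pow 2 v2) (Nat.pow 2 v3))) = 2 ^ n - 1) :
    Nat.card {σ : Equiv.Perm (Fin n) //
      ∀ i j : Fin n, relB rows (σ i) (σ j) = true ↔ relB rows i j = true} ≤
      (framesL rows n).length := by
  classical
  let Φ : {σ : Equiv.Perm (Fin n) //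
      ∀ i j : Fin n, relB rows (σ i) (σ j) = true ↔ relB rows i j = true} →
      {t : ℕ × ℕ × ℕ × ℕ // t ∈ framesL rows n} := fun σ =>
    ⟨((σ.1 v0 : ℕ), (σ.1 v1 : ℕ), (σ.1 v2 : ℕ), (σ.1 v3 : ℕ)),
      Cfsg.Agent.Helper52.CGLA2.frame_mem rows n hrows σ.1 σ.2 v0 v1 v2 v3 hfr⟩
  have hΦ : Function.Injective Φ := by
    rintro ⟨σ, hσ⟩ ⟨τ, hτ⟩ h
    have h' := congrArg Subtype.val h
    simp only [Φ, Prod.mk.injEq] at h'
    obtain ⟨e0, e1, e2, e3⟩ := h'
    have f0 : σ v0 = τ v0 := Fin.ext e0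
    have f1 : σ v1 = τ v1 := Fin.ext e1
    have f2 : σ v2 = τ v2 := Fin.ext e2
    have f3 : σ v3 = τ v3 := Fin.ext e3
    apply Subtype.ext
    show σ = τ
    have hρ : ∀ i j : Fin n,
        relB rows ((σ⁻¹ * τ) i) ((σ⁻¹ * τ) j) = true ↔ relB rows i j = true := by
      intro i j
      rw [← hτ i j, ← hσ ((σ⁻¹ * τ) i) ((σ⁻¹ * τ) j)]
      simp [Equiv.Perm.mul_apply]
    have h1 : σ⁻¹ * τ = 1 := by
      refine Cfsg.Agent.Helper52.CGLA1.fix_of_close rows n steps _ (σ⁻¹ * τ) hρ ?_ hcl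
      intro k hk
      change ((2 ^ (v0 : ℕ) ||| 2 ^ (v1 : ℕ)) ||| (2 ^ (v2 : ℕ) ||| 2 ^ (v3 : ℕ))).testBit k = true
        at hk
      simp only [Nat.testBit_or, Nat.testBit_two_pow, Bool.or_eq_true, decide_eq_true_eq] at hk
      rcases hk with (hk | hk) | (hk | hk)
      · have hv : v0 = k := Fin.ext hk
        subst hv
        rw [Equiv.Perm.mul_apply, ← f0]
        exact σ.symm_apply_apply _
      · have hv : v1 = k := Fin.ext hk
        subst hv
        rw [Equiv.Perm.mul_apply, ← f1]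
        exact σ.symm_apply_apply _
      · have hv : v2 = k := Fin.ext hk
        subst hv
        rw [Equiv.Perm.mul_apply, ← f2]
        exact σ.symm_apply_apply _
      · have hv : v3 = k := Fin.ext hk
        subst hv
        rw [Equiv.Perm.mul_apply, ← f3]
        exact σ.symm_apply_apply _
    exact (inv_mul_eq_one.mp h1)
  have h2 := Nat.card_le_card_of_injective Φ hΦ
  have h3 : Nat.card {t : ℕ × ℕ × ℕ × ℕ // t ∈ framesL rows n} ≤ (framesL rows n).length := by
    rw [Nat.card_congr (Equiv.subtypeEquivRight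
      (fun t => (List.mem_toFinset (a := t) (l := framesL rows n)).symm)),
      Nat.card_eq_fintype_card, Fintype.card_coe]
    exact List.toFinset_card_le _
  exact le_trans h2 h3

end Cfsg.Agent.Helper52.CGLA3
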