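import Mathlib

set_option autoImplicit false

/-!
# CALL CGL piece FIB (helper52): `same_fibre`, statement verbatim from tools/calls/CGLSkel.lean.txt.
-/

namespace Cfsg.Agent.Helper52.CGLFIB

/-- piece FIB: if any two elements of a set agree in one of two labels, then all agree in the
first label or all agree in the second. -/
theorem same_fibre {α : Type*} (S : Finset α) (c a : α → ℕ)
    (h : ∀ x ∈ S, ∀ y ∈ S, c x = c y ∨ a x = a y) :
    (∀ x ∈ S, ∀ y ∈ S, c x = c y) ∨ (∀ x ∈ S, ∀ y ∈ S, a x = a y) := by
  by_cases hc : ∀ x ∈ S, ∀ y ∈ S, c x = c y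
  · exact Or.inl hc
  · right
    push Not at hc
    obtain ⟨x, hx, y, hy, hxy⟩ := hc
    have haxy : a x = a y := (h x hx y hy).resolve_left hxy
    have key : ∀ z ∈ S, a z = a x := by
      intro z hz
      rcases h z hz x hx with h1 | h1
      · rcases h z hz y hy with h2 | h2
        · exact absurd (h1.symm.trans h2) hxy
        · rw [h2, haxy]
      · exact h1
    intro z hz w hw
    rw [key z hz, key w hw]

end Cfsg.Agent.Helper52.CGLFIB
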