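import Mathlib

set_option autoImplicit false

/-!
# CALL CGL piece IDX2 (helper52): `no_index_two`, statement verbatim from
tools/calls/CGLSkel.lean.txt.
-/

namespace Cfsg.Agent.Helper52.CGLIDX2

/-- piece IDX2: a finite group in which more than half of the elements are squares has no
subgroup of index two. -/
theorem no_index_two {M : Type*} [Group M] [Finite M] (S : Finset M)
    (hS : Nat.card M < 2 * S.card) (hsq : ∀ x ∈ S, ∃ y : M, x = y * y) (K : Subgroup M) :
    K.index ≠ 2 := by
  intro hK
  have hsub : (↑S : Set M) ⊆ (K : Set M) := by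
    intro x hx
    obtain ⟨y, rfl⟩ := hsq x (Finset.mem_coe.mp hx)
    exact Subgroup.mul_self_mem_of_index_two hK y
  have h1 : S.card ≤ Nat.card K := by
    have h2 := Set.ncard_le_ncard hsub (Set.toFinite _)
    rw [Set.ncard_coe_finset] at h2
    rw [← Nat.card_coe_set_eq] at h2
    exact h2
  have h3 := Subgroup.card_mul_index K
  rw [hK] at h3
  omega

end Cfsg.Agent.Helper52.CGLIDX2
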