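import Mathlib

set_option autoImplicit false

/-!
Helper library (helper52), pieces CARD, CEN, ORD of CALL S3413: two finite groups whose commuting
graphs (on the nonidentity elements) are isomorphic have the same order, corresponding centraliser
orders, and, under a self-centralising hypothesis, the same number of elements of order `p`.
-/

namespace Cfsg.Agent.Helper52

open Subgroup

/-- CARD -/
theorem cgm_card_eq {H M : Type*} [Group H] [Group M] [Finite H] [Finite M]
    (f : {h : H // h ≠ 1} ≃ {g : M // g ≠ 1}) : Nat.card H = Nat.card M := by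
  classical
  exact Nat.card_congr ((Equiv.optionSubtypeNe (1 : H)).symm.trans
    ((Equiv.optionCongr f).trans (Equiv.optionSubtypeNe (1 : M))))

/-- the centraliser of `a` is the identity together with the nonidentity elements commuting
with `a` -/
theorem cgm_card_centralizer_aux {K : Type*} [Group K] [Finite K] (a : K) :
    Nat.card ↥(centralizer ({a} : Set K)) =
      Nat.card {y : {k : K // k ≠ 1} // a * (y : K) = (y : K) * a} + 1 := by
  classical
  have e : ↥(centralizer ({a} : Set K)) ≃
      Option {y : {k : K // k ≠ 1} // a * (y : K) = (y : K) * a} :=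
    { toFun := fun c => if h : (c : K) = 1 then none else
        some ⟨⟨c, h⟩, (Subgroup.mem_centralizer_iff.mp c.2) a rfl⟩
      invFun := fun o => match o with
        | none => 1
        | some y => ⟨y.1.1, Subgroup.mem_centralizer_iff.mpr (fun b hb => by
            rw [Set.mem_singleton_iff.mp hb]; exact y.2)⟩
      left_inv := by
        intro c
        by_cases h : (c : K) = 1
        · simp only [h, dite_true]
          exact Subtype.ext h.symm
        · simp only [h, dite_false]
      right_inv := by
        intro o
        cases o with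
        | none => simp
        | some y =>
          have : (y.1 : K) ≠ 1 := y.1.2
          simp [this] }
  rw [Nat.card_congr e, Finite.card_option]

/-- CEN -/
theorem cgm_card_centralizer {H M : Type*} [Group H] [Group M] [Finite H] [Finite M]
    (f : {h : H // h ≠ 1} ≃ {g : M // g ≠ 1})
    (hf : ∀ x y : {h : H // h ≠ 1}, (x : H) * y = y * x ↔ ((f x) : M) * (f y) = (f y) * (f x))
    (x : {h : H // h ≠ 1}) :
    Nat.card ↥(centralizer ({(x : H)} : Set H)) =
      Nat.card ↥(centralizer ({((f x) : M)} : Set M)) := by
  rw [cgm_card_centralizer_aux, cgm_card_centralizer_aux]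
  exact congrArg (· + 1) (Nat.card_congr (Equiv.subtypeEquiv f (fun y => hf x y)))

/-- under the self-centralising hypothesis, the elements of order `p` are the nonidentity
elements whose centraliser has order `p` -/
theorem cgm_orderOf_eq_iff {K : Type*} [Group K] [Finite K] (p : ℕ) [Fact p.Prime]
    (hK : ∀ g : K, g ≠ 1 → p ∣ Nat.card ↥(centralizer ({g} : Set K)) →
      Nat.card ↥(centralizer ({g} : Set K)) = p) (g : K) (hg : g ≠ 1) :
    orderOf g = p ↔ Nat.card ↥(centralizer ({g} : Set K)) = p := by
  have hmem : g ∈ centralizer ({g} : Set K) :=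
    Subgroup.mem_centralizer_iff.mpr (fun b hb => by rw [Set.mem_singleton_iff.mp hb])
  have hdvd : orderOf g ∣ Nat.card ↥(centralizer ({g} : Set K)) := by
    have h := orderOf_dvd_natCard (⟨g, hmem⟩ : ↥(centralizer ({g} : Set K)))
    rwa [Subgroup.orderOf_mk] at h
  constructor
  · intro h
    exact hK g hg (h ▸ hdvd)
  · intro h
    rw [h] at hdvd
    rcases (Nat.dvd_prime (Fact.out : p.Prime)).mp hdvd with h1 | h1
    · exact absurd (orderOf_eq_one_iff.mp h1) hg
    · exact h1

/-- the elements of order `p` are nonidentity elements -/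
theorem cgm_card_orderOf_subtype {K : Type*} [Group K] (p : ℕ) [Fact p.Prime] :
    Nat.card {k : K // orderOf k = p} =
      Nat.card {y : {k : K // k ≠ 1} // orderOf (y : K) = p} := by
  have hp : p.Prime := Fact.out
  have ne1 : ∀ k : K, orderOf k = p → k ≠ 1 := by
    intro k hk h1
    rw [h1, orderOf_one] at hk
    exact hp.one_lt.ne hk
  exact Nat.card_congr
    { toFun := fun k => ⟨⟨k.1, ne1 k.1 k.2⟩, k.2⟩
      invFun := fun y => ⟨y.1.1, y.2⟩
      left_inv := fun _ => rfl
      right_inv := fun _ => rfl }

/-- ORD -/
theorem cgm_card_orderOf_eq {H M : Type*} [Group H] [Group M] [Finite H] [Finite M]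
    (f : {h : H // h ≠ 1} ≃ {g : M // g ≠ 1})
    (hf : ∀ x y : {h : H // h ≠ 1}, (x : H) * y = y * x ↔ ((f x) : M) * (f y) = (f y) * (f x))
    (p : ℕ) [Fact p.Prime]
    (hM : ∀ g : M, g ≠ 1 → p ∣ Nat.card ↥(centralizer ({g} : Set M)) →
      Nat.card ↥(centralizer ({g} : Set M)) = p) :
    Nat.card {h : H // orderOf h = p} = Nat.card {g : M // orderOf g = p} := by
  have hp : p.Prime := Fact.out
  have hH : ∀ h : H, h ≠ 1 → p ∣ Nat.card ↥(centralizer ({h} : Set H)) →
      Nat.card ↥(centralizer ({h} : Set H)) = p := by
    intro h hh hd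
    have e := cgm_card_centralizer f hf ⟨h, hh⟩
    rw [e] at hd ⊢
    exact hM _ (f ⟨h, hh⟩).2 hd
  have key : ∀ y : {h : H // h ≠ 1}, orderOf (y : H) = p ↔ orderOf ((f y) : M) = p := by
    intro y
    rw [cgm_orderOf_eq_iff p hH y y.2, cgm_orderOf_eq_iff p hM (f y) (f y).2,
      cgm_card_centralizer f hf y]
  rw [cgm_card_orderOf_subtype (K := H) p, cgm_card_orderOf_subtype (K := M) p]
  exact Nat.card_congr (Equiv.subtypeEquiv (p := fun y : {h : H // h ≠ 1} => orderOf (y : H) = p)
    (q := fun z : {g : M // g ≠ 1} => orderOf (z : M) = p) f key)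

end Cfsg.Agent.Helper52
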