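import Mathlib
import Cfsg.Agent.Helper91.M11Chain
import Cfsg.Agent.Helper52.CGMFIX1
import Cfsg.Agent.Helper52.CGMORD
import Cfsg.Agent.Helper74.CGMCNT
import Cfsg.Agent.Helper31.CGMSYLP
import Cfsg.Agent.Helper31.CGMNORM
import Cfsg.Agent.Helper74.CGMSELF
import Cfsg.Agent.Helper37.CGMNSYL
import Cfsg.Agent.Helper37.CGMFRAT
import Cfsg.Agent.Helper37.CGMFIX2
import Cfsg.Agent.Helper37.CGMKILL

/-!
# A group with the commuting graph of `M₁₁` is simple of order 7920

Assembly of the pieces contributed by the team (see the imports).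
-/

set_option autoImplicit false

namespace Cfsg.Agent.Helper52

open Subgroup

/-- arithmetic: a prime power `r ^ k`, `k ≥ 1`, `r ∈ {2, 3}`, dividing `7920` is not `1` mod 11 -/
theorem cgm_arith_11 (r k : ℕ) (hr : r = 2 ∨ r = 3) (hk : 1 ≤ k) (hd : r ^ k ∣ 7920)
    (h : r ^ k ≡ 1 [MOD 11]) : False := by
  rcases hr with rfl | rfl
  · have hk4 : k ≤ 4 := by
      by_contra hcon
      push Not at hcon
      have : 2 ^ 5 ∣ 7920 := (pow_dvd_pow 2 hcon).trans hd
      omega
    interval_cases k <;> simp [Nat.ModEq] at h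
  · have hk2 : k ≤ 2 := by
      by_contra hcon
      push Not at hcon
      have : 3 ^ 3 ∣ 7920 := (pow_dvd_pow 3 hcon).trans hd
      omega
    interval_cases k <;> simp [Nat.ModEq] at h

theorem cgm_card_normalizer_11 {G : Type*} [Group G] [Finite G] (hG : Nat.card G = 7920)
    (h11 : Nat.card (Sylow 11 G) = 144) (P : Sylow 11 G) :
    Nat.card ↥(normalizer ((P : Subgroup G) : Set G)) = 55 := by
  have : Fact (Nat.Prime 11) := ⟨by norm_num⟩
  have h := Cfsg.Agent.Helper31.cgm_card_sylow_mul_normalizer 11 P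
  rw [h11, hG] at h
  omega

theorem cgm_card_normalizer_5 {G : Type*} [Group G] [Finite G] (hG : Nat.card G = 7920)
    (h5 : Nat.card (Sylow 5 G) = 396) (P : Sylow 5 G) :
    Nat.card ↥(normalizer ((P : Subgroup G) : Set G)) = 20 := by
  have : Fact (Nat.Prime 5) := ⟨by norm_num⟩
  have h := Cfsg.Agent.Helper31.cgm_card_sylow_mul_normalizer 5 P
  rw [h5, hG] at h
  omega

/-- Case B: a nontrivial normal subgroup has order divisible by 11 -/
theorem cgm_simple_caseB {G : Type*} [Group G] [Finite G] (hG : Nat.card G = 7920)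
    (h11 : Nat.card (Sylow 11 G) = 144) (h5 : Nat.card (Sylow 5 G) = 396)
    (N : Subgroup G) [N.Normal] (hN : N ≠ ⊥) (h : ¬ 11 ∣ Nat.card ↥N) : False := by
  have : Fact (Nat.Prime 11) := ⟨by norm_num⟩
  have : Fact (Nat.Prime 5) := ⟨by norm_num⟩
  have hNd : Nat.card ↥N ∣ 7920 := hG ▸ N.card_subgroup_dvd_card
  obtain ⟨P⟩ : Nonempty (Sylow 11 G) := inferInstance
  have hNP := cgm_card_normalizer_11 hG h11 P
  -- every prime divisor of `|N|` is 5
  have hprime : ∀ r : ℕ, r.Prime → r ∣ Nat.card ↥N → r = 5 := by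
    intro r hr hrN
    have hr7920 : r ∣ 7920 := hrN.trans hNd
    have hrle : r ≤ 11 := by
      have h1 : (7920 : ℕ) = 2 ^ 4 * 3 ^ 2 * 5 * 11 := by norm_num
      rw [h1] at hr7920
      rcases (Nat.Prime.dvd_mul hr).mp hr7920 with h2 | h2
      · rcases (Nat.Prime.dvd_mul hr).mp h2 with h3 | h3
        · rcases (Nat.Prime.dvd_mul hr).mp h3 with h4 | h4
          · exact (Nat.le_of_dvd (by norm_num) (hr.dvd_of_dvd_pow h4)).trans (by norm_num)
          · exact (Nat.le_of_dvd (by norm_num) (hr.dvd_of_dvd_pow h4)).trans (by norm_num)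
        · exact (Nat.le_of_dvd (by norm_num) h3).trans (by norm_num)
      · exact Nat.le_of_dvd (by norm_num) h2
    have hr2 := hr.two_le
    by_contra hr5
    have hr23 : r = 2 ∨ r = 3 := by
      interval_cases r
      · left; rfl
      · right; rfl
      · exact absurd hr (by norm_num)
      · exact absurd rfl hr5
      · exact absurd hr (by norm_num)
      · exact absurd hr7920 (by norm_num)
      · exact absurd hr (by norm_num)
      · exact absurd hr (by norm_num)
      · exact absurd hr (by norm_num)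
      · exact absurd hrN h
    have : Fact r.Prime := ⟨hr⟩
    have hcop : Nat.Coprime r (Nat.card ↥(normalizer ((P : Subgroup G) : Set G))) := by
      rw [hNP]
      rcases hr23 with rfl | rfl <;> norm_num
    obtain ⟨k, hk1, hkd, hkm⟩ := Cfsg.Agent.Helper37.cgm_kill 11 P N h r hrN hcop
    exact cgm_arith_11 r k hr23 hk1 (hkd.trans hNd) hkm
  -- hence `|N| = 5`
  have hN5 : Nat.card ↥N = 5 := by
    have hpos : 0 < Nat.card ↥N := Nat.card_pos
    have hpow : ∃ j, Nat.card ↥N = 5 ^ j := by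
      exact ⟨_, Nat.eq_prime_pow_of_unique_prime_dvd hpos.ne' (fun {r} hr hrN => hprime r hr hrN)⟩
    obtain ⟨j, hj⟩ := hpow
    have hj1 : j ≤ 1 := by
      by_contra hcon
      push Not at hcon
      have : 5 ^ 2 ∣ 7920 := (pow_dvd_pow 5 hcon).trans (hj ▸ hNd)
      omega
    interval_cases j
    · exfalso
      apply hN
      rw [pow_zero] at hj
      exact Subgroup.card_eq_one.mp hj
    · simpa using hj
  have h1 := Cfsg.Agent.Helper37.cgm_card_sylow_of_normal 5 (by rw [hG]; norm_num) N hN5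
  omega

/-- Case A: a normal subgroup of order divisible by 11 is everything -/
theorem cgm_simple_caseA {G : Type*} [Group G] [Finite G] (hG : Nat.card G = 7920)
    (h11 : Nat.card (Sylow 11 G) = 144) (h5 : Nat.card (Sylow 5 G) = 396)
    (N : Subgroup G) [N.Normal] (h : 11 ∣ Nat.card ↥N) : N = ⊤ := by
  have : Fact (Nat.Prime 11) := ⟨by norm_num⟩
  have : Fact (Nat.Prime 5) := ⟨by norm_num⟩
  have : Fact (Nat.Prime 3) := ⟨by norm_num⟩
  have hmul : Nat.card ↥N * N.index = 7920 := hG ▸ N.card_mul_index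
  obtain ⟨P, hP⟩ := Cfsg.Agent.Helper37.cgm_frattini_index 11 N h (by rw [hG]; norm_num)
  rw [cgm_card_normalizer_11 hG h11 P] at hP
  -- the index divides 55 and 720
  obtain ⟨c, hc⟩ := h
  have hidx : N.index = 1 ∨ N.index = 5 := by
    have h720 : c * N.index = 720 := by
      rw [hc] at hmul
      nlinarith
    have hle : N.index ≤ 55 := Nat.le_of_dvd (by norm_num) hP
    have hd720 : N.index ∣ 720 := Dvd.intro_left c h720
    have hpos : 0 < N.index := Nat.pos_of_ne_zero (fun h0 => by rw [h0] at h720; omega)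
    interval_cases hi : N.index <;> first | (left; rfl) | (right; rfl) | (exfalso; revert hP hd720; decide)
  rcases hidx with h1 | h5'
  · exact Subgroup.index_eq_one.mp h1
  · exfalso
    have hN1584 : Nat.card ↥N = 1584 := by
      rw [h5'] at hmul
      omega
    obtain ⟨Q⟩ : Nonempty (Sylow 5 G) := inferInstance
    have hNQ := cgm_card_normalizer_5 hG h5 Q
    have hcop : Nat.Coprime 3 (Nat.card ↥(normalizer ((Q : Subgroup G) : Set G))) := by
      rw [hNQ]; norm_num
    obtain ⟨k, hk1, hkd, hkm⟩ := Cfsg.Agent.Helper37.cgm_kill 5 Q N (by rw [hN1584]; norm_num) 3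
      (by rw [hN1584]; norm_num) hcop
    rw [hN1584] at hkd
    have hk2 : k ≤ 2 := by
      by_contra hcon
      push Not at hcon
      have : 3 ^ 3 ∣ 1584 := (pow_dvd_pow 3 hcon).trans hkd
      omega
    interval_cases k <;> simp [Nat.ModEq] at hkm

/-- a group of order 7920 with 144 Sylow 11-subgroups and 396 Sylow 5-subgroups is simple -/
theorem cgm_simple_7920 {G : Type*} [Group G] [Finite G] (hG : Nat.card G = 7920)
    (h11 : Nat.card (Sylow 11 G) = 144) (h5 : Nat.card (Sylow 5 G) = 396) : IsSimpleGroup G := by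
  have : Nontrivial G := by
    apply (Finite.one_lt_card_iff_nontrivial).mp
    rw [hG]; norm_num
  refine ⟨fun N hN => ?_⟩
  by_cases hbot : N = ⊥
  · exact Or.inl hbot
  · right
    by_cases h : 11 ∣ Nat.card ↥N
    · exact cgm_simple_caseA hG h11 h5 N h
    · exact (cgm_simple_caseB hG h11 h5 N hbot h).elim

/-- Sylow numbers of a group of order 7920 from the numbers of elements of order 11 and 5 -/
theorem cgm_sylow_numbers {G : Type*} [Group G] [Finite G] (hG : Nat.card G = 7920)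
    (c11 : Nat.card {g : G // orderOf g = 11} = 1440)
    (c5 : Nat.card {g : G // orderOf g = 5} = 1584) :
    Nat.card (Sylow 11 G) = 144 ∧ Nat.card (Sylow 5 G) = 396 := by
  have : Fact (Nat.Prime 11) := ⟨by norm_num⟩
  have : Fact (Nat.Prime 5) := ⟨by norm_num⟩
  have e11 := Cfsg.Agent.Helper74.cgm_card_orderOf_prime (G := G) 11 (by rw [hG]; norm_num) (by rw [hG]; norm_num)
  have e5 := Cfsg.Agent.Helper74.cgm_card_orderOf_prime (G := G) 5 (by rw [hG]; norm_num) (by rw [hG]; norm_num)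
  rw [c11] at e11
  rw [c5] at e5
  constructor <;> omega

theorem cgm_finite_M11 : Finite ↥Cfsg.Spor.M11 :=
  Nat.finite_of_card_ne_zero (by rw [Cfsg.Agent.Helper91.card_M11]; norm_num)

/-- in `M₁₁`, a nonidentity element whose centraliser has order divisible by 11 (resp. 5) has
centraliser of order 11 (resp. 5) -/
theorem cgm_m11_centralizer_of
    (hdata : Nat.card {g : ↥Cfsg.Spor.M11 // orderOf g = 11} = 1440 ∧
      Nat.card {g : ↥Cfsg.Spor.M11 // orderOf g = 5} = 1584 ∧
      (∀ g : ↥Cfsg.Spor.M11, orderOf g ≠ 55) ∧ (∀ g : ↥Cfsg.Spor.M11, orderOf g ≠ 10)) :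
    (∀ g : ↥Cfsg.Spor.M11, g ≠ 1 → 11 ∣ Nat.card ↥(centralizer ({g} : Set ↥Cfsg.Spor.M11)) →
      Nat.card ↥(centralizer ({g} : Set ↥Cfsg.Spor.M11)) = 11) ∧
    (∀ g : ↥Cfsg.Spor.M11, g ≠ 1 → 5 ∣ Nat.card ↥(centralizer ({g} : Set ↥Cfsg.Spor.M11)) →
      Nat.card ↥(centralizer ({g} : Set ↥Cfsg.Spor.M11)) = 5) := by
  have : Fact (Nat.Prime 11) := ⟨by norm_num⟩
  have : Fact (Nat.Prime 5) := ⟨by norm_num⟩
  have := cgm_finite_M11
  have hG := Cfsg.Agent.Helper91.card_M11
  obtain ⟨c11, c5, h55, h10⟩ := hdata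
  obtain ⟨n11, n5⟩ := cgm_sylow_numbers hG c11 c5
  constructor
  · intro g hg hd
    refine Cfsg.Agent.Helper74.cgm_centralizer_card_prime 11 (by rw [hG]; norm_num) (by rw [hG]; norm_num) 5
      (by norm_num) (fun P => cgm_card_normalizer_11 hG n11 P) ?_ g hg hd
    intro r hr hr5 x
    have : r = 5 := (Nat.prime_dvd_prime_iff_eq hr (by norm_num)).mp hr5
    subst this
    exact h55 x
  · intro g hg hd
    refine Cfsg.Agent.Helper74.cgm_centralizer_card_prime 5 (by rw [hG]; norm_num) (by rw [hG]; norm_num) 4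
      (by norm_num) (fun P => cgm_card_normalizer_5 hG n5 P) ?_ g hg hd
    intro r hr hr4 x
    have : r = 2 := by
      have h22 : r ∣ 2 ^ 2 := by norm_num; exact hr4
      exact (Nat.prime_dvd_prime_iff_eq hr Nat.prime_two).mp (hr.dvd_of_dvd_pow h22)
    subst this
    exact h10 x

/-- a group with the commuting graph of `M₁₁` is simple of order 7920 -/
theorem cgm_m11_core_of
    (hdata : Nat.card {g : ↥Cfsg.Spor.M11 // orderOf g = 11} = 1440 ∧
      Nat.card {g : ↥Cfsg.Spor.M11 // orderOf g = 5} = 1584 ∧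
      (∀ g : ↥Cfsg.Spor.M11, orderOf g ≠ 55) ∧ (∀ g : ↥Cfsg.Spor.M11, orderOf g ≠ 10))
    {H : Type*} [Group H] [Finite H]
    (f : {h : H // h ≠ 1} ≃ {g : ↥Cfsg.Spor.M11 // g ≠ 1})
    (hf : ∀ x y : {h : H // h ≠ 1}, (x : H) * y = y * x ↔
      ((f x) : ↥Cfsg.Spor.M11) * (f y) = (f y) * (f x)) :
    IsSimpleGroup H ∧ Nat.card H = 7920 := by
  have : Fact (Nat.Prime 11) := ⟨by norm_num⟩
  have : Fact (Nat.Prime 5) := ⟨by norm_num⟩
  have := cgm_finite_M11
  have hH : Nat.card H = 7920 := (Cfsg.Agent.Helper52.cgm_card_eq f).trans Cfsg.Agent.Helper91.card_M11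
  obtain ⟨hM11, hM5⟩ := cgm_m11_centralizer_of hdata
  obtain ⟨c11, c5, -, -⟩ := hdata
  have d11 := (Cfsg.Agent.Helper52.cgm_card_orderOf_eq f hf 11 hM11).trans c11
  have d5 := (Cfsg.Agent.Helper52.cgm_card_orderOf_eq f hf 5 hM5).trans c5
  obtain ⟨n11, n5⟩ := cgm_sylow_numbers hH d11 d5
  exact ⟨cgm_simple_7920 hH n11 n5, hH⟩

end Cfsg.Agent.Helper52
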