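import Mathlib
import Cfsg.Agent.Helper52.CGMData

/-!
# Numbers of elements of a given order in a simple group of order 7920

In a simple group of order 7920 the number of elements of order `n` is `1`, `1440`, `1584` or a
multiple of `55`.  (No enumeration of the group is needed.)
-/

set_option autoImplicit false

namespace Cfsg.Agent.Helper52

open Subgroup

/-- a `p`-subgroup acting by conjugation without fixed points on the elements of order `n` -/
theorem cgm_dvd_card_orderOf {G : Type*} [Group G] [Finite G] (p : ℕ) [Fact p.Prime]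
    (P : Subgroup G) (hP : IsPGroup p ↥P) (n : ℕ)
    (hfix : ∀ g : G, orderOf g = n → ¬ (∀ a ∈ P, a * g * a⁻¹ = g)) :
    p ∣ Nat.card {g : G // orderOf g = n} := by
  let _ : MulAction ↥P {g : G // orderOf g = n} :=
    { smul := fun a g => ⟨(a : G) * g.1 * (a : G)⁻¹, by
        have h := MulEquiv.orderOf_eq (MulAut.conj (a : G)) g.1
        rw [MulAut.conj_apply] at h
        rw [h, g.2]⟩
      one_smul := fun g => Subtype.ext (by
        show ((1 : ↥P) : G) * g.1 * ((1 : ↥P) : G)⁻¹ = g.1
        simp)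
      mul_smul := fun a b g => Subtype.ext (by
        show ((a * b : ↥P) : G) * g.1 * ((a * b : ↥P) : G)⁻¹ =
          (a : G) * ((b : G) * g.1 * (b : G)⁻¹) * (a : G)⁻¹
        simp [mul_assoc]) }
  have h := hP.card_modEq_card_fixedPoints {g : G // orderOf g = n}
  have hempty : IsEmpty (MulAction.fixedPoints ↥P {g : G // orderOf g = n}) := by
    refine ⟨fun x => ?_⟩
    obtain ⟨g, hg⟩ := x
    refine hfix g.1 g.2 (fun a ha => ?_)
    exact congrArg Subtype.val (hg ⟨a, ha⟩)
  have hz : Nat.card (MulAction.fixedPoints ↥P {g : G // orderOf g = n}) = 0 :=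
    Nat.card_of_isEmpty
  rw [hz] at h
  exact (Nat.modEq_zero_iff_dvd).mp h

theorem cgm_eleven_of_dvd {G : Type*} [Group G] [Finite G] [IsSimpleGroup G]
    (hG : Nat.card G = 7920) (x : G) (hx : 11 ∣ orderOf x) : orderOf x = 11 := by
  have : Fact (Nat.Prime 11) := ⟨by norm_num⟩
  have hC11 := fun P => (o7920_syl11 hG P).1
  have hpos : orderOf x ≠ 0 := (orderOf_pos x).ne'
  have hy : orderOf (x ^ (orderOf x / 11)) = 11 := orderOf_pow_orderOf_div hpos hx
  obtain ⟨P', hP'⟩ := (IsPGroup.of_card (n := 1)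
    (by rw [Nat.card_zpowers, hy, pow_one]) :
      IsPGroup 11 (zpowers (x ^ (orderOf x / 11)))).exists_le_sylow
  have hcardP' : Nat.card (P' : Subgroup G) = 11 :=
    Cfsg.Agent.Helper31.cgm_sylow_card_prime 11 (by rw [hG]; norm_num) (by rw [hG]; norm_num) P'
  have hPeq : zpowers (x ^ (orderOf x / 11)) = (P' : Subgroup G) := by
    apply Subgroup.eq_of_le_of_card_ge hP'
    rw [hcardP', Nat.card_zpowers, hy]
  have hgC : x ∈ centralizer ((P' : Subgroup G) : Set G) := by
    rw [← hPeq, Subgroup.mem_centralizer_iff]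
    intro b hb
    obtain ⟨k, rfl⟩ := Subgroup.mem_zpowers_iff.mp hb
    exact ((Commute.refl x).pow_right _).zpow_right k |>.eq.symm
  have hdvd : orderOf x ∣ 11 := by
    have h := orderOf_dvd_natCard (⟨x, hgC⟩ : ↥(centralizer ((P' : Subgroup G) : Set G)))
    rwa [Subgroup.orderOf_mk, hC11 P'] at h
  exact Nat.dvd_antisymm hdvd hx

theorem cgm_five_of_dvd {G : Type*} [Group G] [Finite G] [IsSimpleGroup G]
    (hG : Nat.card G = 7920) (x : G) (hx : 5 ∣ orderOf x) : orderOf x = 5 := by
  have hyp := u7920_hyp hG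
  have hpos : orderOf x ≠ 0 := (orderOf_pos x).ne'
  have hy : orderOf (x ^ (orderOf x / 5)) = 5 := orderOf_pow_orderOf_div hpos hx
  have hord : orderOf x ∣ 7920 := hG ▸ orderOf_dvd_natCard x
  by_cases hw : x ^ 5 = 1
  · exact Nat.dvd_antisymm (orderOf_dvd_of_pow_eq_one hw) hx
  · exfalso
    -- `x ^ 5 ≠ 1` is centralised by an element of order 5
    have hmem : x ^ (orderOf x / 5) ∈ centralizer ({x ^ 5} : Set G) := by
      rw [Subgroup.mem_centralizer_iff]
      intro b hb
      rw [Set.mem_singleton_iff.mp hb, ← pow_add, ← pow_add, add_comm]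
    have h5 : 5 ∣ Nat.card ↥(centralizer ({x ^ 5} : Set G)) := by
      have h := orderOf_dvd_natCard (⟨x ^ (orderOf x / 5), hmem⟩ : ↥(centralizer ({x ^ 5} : Set G)))
      rwa [Subgroup.orderOf_mk, hy] at h
    by_cases hsq : x ^ 5 * x ^ 5 = 1
    · have h2 : orderOf (x ^ 5) = 2 := by
        refine orderOf_eq_prime (by rw [pow_two]; exact hsq) hw
      rw [u7920_result hG (x ^ 5) h2] at h5
      norm_num at h5
    · have hnd : ¬ 5 ∣ orderOf (x ^ 5) := by
        intro hd
        rw [orderOf_pow' x (by norm_num), Nat.gcd_eq_right hx] at hd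
        have h25 : 25 ∣ orderOf x := by
          obtain ⟨c, hc⟩ := hd
          obtain ⟨d, hd'⟩ := hx
          rw [hd', Nat.mul_div_cancel_left d (by norm_num)] at hc
          exact ⟨c, by rw [hd', hc]; ring⟩
        have := h25.trans hord
        norm_num at this
      exact hyp.l5 (x ^ 5) hsq hnd h5

/-- in a simple group of order 7920 the number of elements of order `n` is `1`, `1440`, `1584`
or a multiple of `55` -/
theorem cgm_nse_of_simple {G : Type*} [Group G] [Finite G] [IsSimpleGroup G]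
    (hG : Nat.card G = 7920) (n : ℕ) :
    Nat.card {g : G // orderOf g = n} = 1 ∨ Nat.card {g : G // orderOf g = n} = 1440 ∨
      Nat.card {g : G // orderOf g = n} = 1584 ∨ 55 ∣ Nat.card {g : G // orderOf g = n} := by
  have : Fact (Nat.Prime 11) := ⟨by norm_num⟩
  have : Fact (Nat.Prime 5) := ⟨by norm_num⟩
  have hyp := u7920_hyp hG
  obtain ⟨c11, c5, -, -⟩ := cgm_data_of_simple hG
  by_cases h1 : n = 1
  · left
    subst h1
    rw [Nat.card_eq_one_iff_unique]
    exact ⟨⟨fun a b => Subtype.ext ((orderOf_eq_one_iff.mp a.2).trans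
      (orderOf_eq_one_iff.mp b.2).symm)⟩, ⟨⟨1, orderOf_one⟩⟩⟩
  by_cases hemp : IsEmpty {g : G // orderOf g = n}
  · right; right; right
    rw [Nat.card_of_isEmpty]
    exact dvd_zero 55
  rw [not_isEmpty_iff] at hemp
  obtain ⟨⟨x, hx⟩⟩ := hemp
  by_cases h11 : 11 ∣ n
  · right; left
    have := cgm_eleven_of_dvd hG x (hx ▸ h11)
    rw [hx] at this
    rw [this]
    exact c11
  by_cases h5 : 5 ∣ n
  · right; right; left
    have := cgm_five_of_dvd hG x (hx ▸ h5)
    rw [hx] at this
    rw [this]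
    exact c5
  right; right; right
  obtain ⟨P⟩ : Nonempty (Sylow 11 G) := inferInstance
  obtain ⟨Q⟩ : Nonempty (Sylow 5 G) := inferInstance
  have hPc : Nat.card (P : Subgroup G) = 11 :=
    Cfsg.Agent.Helper31.cgm_sylow_card_prime 11 (by rw [hG]; norm_num) (by rw [hG]; norm_num) P
  have hQc : Nat.card (Q : Subgroup G) = 5 :=
    Cfsg.Agent.Helper31.cgm_sylow_card_prime 5 (by rw [hG]; norm_num) (by rw [hG]; norm_num) Q
  have hle : ∀ (S : Subgroup G) (g : G), (∀ a ∈ S, a * g * a⁻¹ = g) →
      Nat.card ↥S ∣ Nat.card ↥(centralizer ({g} : Set G)) := by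
    intro S g hS
    apply Subgroup.card_dvd_of_le
    intro a ha
    rw [Subgroup.mem_centralizer_iff]
    intro b hb
    rw [Set.mem_singleton_iff.mp hb]
    have := hS a ha
    rw [mul_inv_eq_iff_eq_mul] at this
    exact this.symm
  have d11 : 11 ∣ Nat.card {g : G // orderOf g = n} := by
    refine cgm_dvd_card_orderOf 11 (P : Subgroup G) P.isPGroup' n (fun g hg hfix => ?_)
    have hd := hle _ g hfix
    rw [hPc] at hd
    have hg1 : g ≠ 1 := by
      intro h
      rw [h, orderOf_one] at hg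
      exact h1 hg.symm
    exact hyp.l11 g hg1 (fun h => h11 (by rw [← hg, h])) hd
  have d5 : 5 ∣ Nat.card {g : G // orderOf g = n} := by
    refine cgm_dvd_card_orderOf 5 (Q : Subgroup G) Q.isPGroup' n (fun g hg hfix => ?_)
    have hd := hle _ g hfix
    rw [hQc] at hd
    have hg1 : g ≠ 1 := by
      intro h
      rw [h, orderOf_one] at hg
      exact h1 hg.symm
    by_cases hsq : g * g = 1
    · have h2 : orderOf g = 2 := orderOf_eq_prime (by rw [pow_two]; exact hsq) hg1
      rw [u7920_result hG g h2] at hd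
      norm_num at hd
    · exact hyp.l5 g hsq (fun h => h5 (by rw [← hg]; exact h)) hd
  exact Nat.Coprime.mul_dvd_of_dvd_of_dvd (by norm_num : Nat.Coprime 5 11) d5 d11

/-- a group of order `#M₁₁` with the same set of same-order element counts as `M₁₁` is simple of
order 7920 -/
theorem cgm_nse_core {G : Type*} [Group G] [Finite G]
    (hcard : Nat.card G = Nat.card ↥Cfsg.Spor.M11)
    (hnse : {c : ℕ | 0 < c ∧ ∃ n : ℕ, c = Nat.card {g : G // orderOf g = n}} =
      {c : ℕ | 0 < c ∧ ∃ n : ℕ, c = Nat.card {g : ↥Cfsg.Spor.M11 // orderOf g = n}}) :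
    Cfsg.IsM11 G := by
  have : Fact (Nat.Prime 11) := ⟨by norm_num⟩
  have : Fact (Nat.Prime 5) := ⟨by norm_num⟩
  have hG : Nat.card G = 7920 := hcard.trans Cfsg.Agent.Helper91.card_M11
  have hfin := cgm_finite_M11
  have hsim := cgm_isM11_M11.1
  have hM := cgm_isM11_M11.2
  -- every count of `G` is a count of `M₁₁`
  have key : ∀ n : ℕ, 0 < Nat.card {g : G // orderOf g = n} →
      Nat.card {g : G // orderOf g = n} = 1 ∨ Nat.card {g : G // orderOf g = n} = 1440 ∨
      Nat.card {g : G // orderOf g = n} = 1584 ∨ 55 ∣ Nat.card {g : G // orderOf g = n} := by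
    intro n hn
    have hmem : Nat.card {g : G // orderOf g = n} ∈
        {c : ℕ | 0 < c ∧ ∃ n : ℕ, c = Nat.card {g : G // orderOf g = n}} := ⟨hn, n, rfl⟩
    rw [hnse] at hmem
    obtain ⟨-, m, hm⟩ := hmem
    rw [hm]
    exact cgm_nse_of_simple hM m
  have e11 := Cfsg.Agent.Helper74.cgm_card_orderOf_prime (G := G) 11 (by rw [hG]; norm_num)
    (by rw [hG]; norm_num)
  have e5 := Cfsg.Agent.Helper74.cgm_card_orderOf_prime (G := G) 5 (by rw [hG]; norm_num)
    (by rw [hG]; norm_num)
  have m11 : Nat.card (Sylow 11 G) ≡ 1 [MOD 11] := card_sylow_modEq_one 11 G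
  have m5 : Nat.card (Sylow 5 G) ≡ 1 [MOD 5] := card_sylow_modEq_one 5 G
  have n11 : Nat.card (Sylow 11 G) = 144 := by
    have hpos : 0 < Nat.card (Sylow 11 G) := Nat.card_pos
    have hk := key 11 (by rw [e11]; positivity)
    rw [e11] at hk
    have hmod : Nat.card (Sylow 11 G) % 11 = 1 := m11
    rcases hk with h | h | h | h
    · omega
    · omega
    · omega
    · exfalso
      have h11 : 11 ∣ (11 - 1) * Nat.card (Sylow 11 G) := (by norm_num : 11 ∣ 55).trans h
      have := (Nat.Coprime.dvd_mul_left (by norm_num : Nat.Coprime 11 (11 - 1))).mp h11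
      omega
  have n5 : Nat.card (Sylow 5 G) = 396 := by
    have hpos : 0 < Nat.card (Sylow 5 G) := Nat.card_pos
    have hk := key 5 (by rw [e5]; positivity)
    rw [e5] at hk
    have hmod : Nat.card (Sylow 5 G) % 5 = 1 := m5
    rcases hk with h | h | h | h
    · omega
    · omega
    · omega
    · exfalso
      have h5 : 5 ∣ (5 - 1) * Nat.card (Sylow 5 G) := (by norm_num : 5 ∣ 55).trans h
      have := (Nat.Coprime.dvd_mul_left (by norm_num : Nat.Coprime 5 (5 - 1))).mp h5
      omega
  exact ⟨cgm_simple_7920 hG n11 n5, hG⟩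

end Cfsg.Agent.Helper52
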