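import Mathlib
import Cfsg.Agent.S0493

/-!
# PIECE A5 of CALL S2553 (helper65): faithful degree-5 groups with a perfect subgroup

`g42_deg5`: a finite group with a faithful action on 5 points and a nontrivial perfect subgroup
is `A_5` or `S_5`.  Also a few auxiliary lemmas (`g42aux_*`): groups of order `< 60` are solvable,
a nontrivial perfect group has order `≥ 60`, a nontrivial perfect group of order `≤ 100` is simple
of order `60`, a subgroup of `Perm α` containing `A_α` is `A_α` or everything.
-/

set_option autoImplicit false

namespace Cfsg.Agent.Helper52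

open scoped commutatorElement

theorem g42aux_solvable_aux.{u} : ∀ (n : ℕ) (G : Type u) [Group G] [Finite G],
    Nat.card G = n → n < 60 → Group.IsSolvable G := by
  intro n
  induction n using Nat.strong_induction_on with
  | _ n ih =>
    intro G _ _ hn hlt
    by_cases hsub : Subsingleton G
    · exact Group.isSolvable_of_comm (fun a b => Subsingleton.elim _ _)
    have hnt : Nontrivial G := not_subsingleton_iff_nontrivial.mp hsub
    by_cases hs : IsSimpleGroup G
    · by_cases hc : IsCyclic G
      · let _ : CommGroup G := IsCyclic.commGroup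
        exact Group.isSolvable_of_comm (fun a b => mul_comm a b)
      · have := Cfsg.Agent.S0493.result hc (by omega)
        omega
    · have hex : ∃ N : Subgroup G, N.Normal ∧ N ≠ ⊥ ∧ N ≠ ⊤ := by
        by_contra hcon
        push Not at hcon
        refine hs ⟨fun N hN => ?_⟩
        by_cases hb : N = ⊥
        · exact Or.inl hb
        · exact Or.inr (hcon N hN hb)
      obtain ⟨N, hNn, hb, ht⟩ := hex
      have hcard := Subgroup.card_eq_card_quotient_mul_card_subgroup N
      have h2 : 2 ≤ Nat.card N := by
        have := (Subgroup.one_lt_card_iff_ne_bot (H := N)).mpr hb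
        omega
      have hq0 : 0 < Nat.card (G ⧸ N) := Nat.card_pos
      have hNlt : Nat.card N < Nat.card G := by
        have hle := Subgroup.card_le_card_group N
        rcases Nat.lt_or_ge (Nat.card N) (Nat.card G) with h | h
        · exact h
        · exact absurd (Subgroup.eq_top_of_card_eq N (le_antisymm hle h)) ht
      have hQlt : Nat.card (G ⧸ N) < Nat.card G := by nlinarith
      have h1 : Group.IsSolvable N := ih (Nat.card N) (hn ▸ hNlt) N rfl (by omega)
      have h3 : Group.IsSolvable (G ⧸ N) := ih (Nat.card (G ⧸ N)) (hn ▸ hQlt) (G ⧸ N) rfl (by omega)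
      exact Group.isSolvable_of_ker_le_range N.subtype (QuotientGroup.mk' N) (by simp)

/-- A finite group of order `< 60` is solvable. -/
theorem g42aux_solvable_of_card_lt {G : Type*} [Group G] [Finite G] (h : Nat.card G < 60) :
    Group.IsSolvable G :=
  g42aux_solvable_aux (Nat.card G) G rfl h

/-- A nontrivial perfect finite group has order at least `60`. -/
theorem g42aux_perfect_card {N : Type*} [Group N] [Finite N] (hperf : commutator N = ⊤)
    [Nontrivial N] : 60 ≤ Nat.card N := by
  by_contra h
  push Not at h
  have hs := g42aux_solvable_of_card_lt h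
  obtain ⟨n, hn⟩ := hs.solvable
  have hall : ∀ k, derivedSeries N k = ⊤ := by
    intro k
    induction k with
    | zero => rfl
    | succ k ih => rw [derivedSeries_succ, ih]; exact hperf
  rw [hall n] at hn
  exact top_ne_bot hn

/-- A nontrivial perfect group of order at most `100` is simple of order `60`. -/
theorem g42aux_perfect_simple {N : Type*} [Group N] [Finite N] (hperf : commutator N = ⊤)
    [Nontrivial N] (h : Nat.card N ≤ 100) : IsSimpleGroup N ∧ Nat.card N = 60 := by
  have hs : IsSimpleGroup N := by
    refine ⟨fun M hM => ?_⟩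
    by_contra hcon
    push Not at hcon
    have hq : commutator (N ⧸ M) = ⊤ := by
      have h1 : (commutator N).map (QuotientGroup.mk' M) = commutator (N ⧸ M) := by
        rw [commutator_def, commutator_def, Subgroup.map_commutator,
          Subgroup.map_top_of_surjective _ (QuotientGroup.mk'_surjective M)]
      rw [← h1, hperf, Subgroup.map_top_of_surjective _ (QuotientGroup.mk'_surjective M)]
    have hnt : Nontrivial (N ⧸ M) := QuotientGroup.nontrivial_iff.mpr hcon.2
    have h60 := g42aux_perfect_card hq
    have h2 : 2 ≤ Nat.card M := by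
      have := (Subgroup.one_lt_card_iff_ne_bot (H := M)).mpr hcon.1
      omega
    have hcard := Subgroup.card_eq_card_quotient_mul_card_subgroup M
    nlinarith
  refine ⟨hs, Cfsg.Agent.S0493.result (fun hc => ?_) h⟩
  let _ : CommGroup N := IsCyclic.commGroup
  have hbot : commutator N = ⊥ := by
    rw [commutator_def, Subgroup.commutator_eq_bot_iff_le_centralizer]
    intro x _
    rw [Subgroup.mem_centralizer_iff]
    intro y _
    exact mul_comm y x
  rw [hbot] at hperf
  exact bot_ne_top hperf

/-- A perfect subgroup, as a group, is perfect. -/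
theorem g42aux_perfect_coe {G : Type*} [Group G] (N : Subgroup G) (hperf : ⁅N, N⁆ = N) :
    commutator N = ⊤ := by
  apply Subgroup.map_injective N.subtype_injective
  rw [commutator_def, Subgroup.map_commutator, ← MonoidHom.range_eq_map, Subgroup.range_subtype,
    hperf]

/-- The image of a perfect subgroup in a symmetric group lies in the alternating group. -/
theorem g42aux_map_le_alt {G : Type*} [Group G] {α : Type*} [Fintype α] [DecidableEq α]
    (σ : G →* Equiv.Perm α) (N : Subgroup G) (hperf : ⁅N, N⁆ = N) :
    N.map σ ≤ alternatingGroup α := by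
  rw [Subgroup.map_le_iff_le_comap, ← hperf, Subgroup.commutator_le]
  intro a _ b _
  rw [Subgroup.mem_comap, Equiv.Perm.mem_alternatingGroup, commutatorElement_def]
  have key : ∀ x y : ℤˣ, x * y * x⁻¹ * y⁻¹ = 1 := fun x y => by
    rw [mul_comm x y, mul_inv_cancel_right, mul_inv_cancel]
  simp only [map_mul, map_inv]
  exact key _ _

/-- A subgroup of `Perm α` containing `A_α` is `A_α` or everything (iso form, transported to
`Fin n`). -/
theorem g42aux_alt_or_top {G : Type*} [Group G] {α : Type*} [Fintype α] [DecidableEq α]
    [Nontrivial α] (σ : G →* Equiv.Perm α) (hσ : Function.Injective σ)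
    (h : alternatingGroup α ≤ σ.range) {n : ℕ} (e : α ≃ Fin n) :
    Nonempty (G ≃* alternatingGroup (Fin n)) ∨ Nonempty (G ≃* Equiv.Perm (Fin n)) := by
  have hidx : (alternatingGroup α).relIndex σ.range * σ.range.index = 2 := by
    rw [Subgroup.relIndex_mul_index h, alternatingGroup.index_eq_two]
  have e1 : G ≃* σ.range := MonoidHom.ofInjective hσ
  have hcases : σ.range.index = 1 ∨ σ.range.index = 2 := by
    have hd : σ.range.index ∣ 2 := Dvd.intro_left _ hidx
    exact (Nat.dvd_prime Nat.prime_two).mp hd
  rcases hcases with h1 | h2
  · right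
    have ht : σ.range = ⊤ := Subgroup.index_eq_one.mp h1
    exact ⟨e1.trans ((MulEquiv.subgroupCongr ht).trans (Subgroup.topEquiv.trans e.permCongrHom))⟩
  · left
    have hr : (alternatingGroup α).relIndex σ.range = 1 := by
      rw [h2] at hidx; omega
    have hle : σ.range ≤ alternatingGroup α := Subgroup.relIndex_eq_one.mp hr
    have ht : σ.range = alternatingGroup α := le_antisymm hle h
    exact ⟨e1.trans ((MulEquiv.subgroupCongr ht).trans (Equiv.altCongrHom e))⟩

/-- PIECE A5 of CALL S2553. -/
theorem g42_deg5 {G : Type*} [Group G] [Finite G] {α : Type*} [Fintype α] [DecidableEq α]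
    (hα : Fintype.card α = 5) (σ : G →* Equiv.Perm α) (hσ : Function.Injective σ)
    (N : Subgroup G) (hperf : ⁅N, N⁆ = N) (hN : N ≠ ⊥) :
    Nonempty (G ≃* alternatingGroup (Fin 5)) ∨ Nonempty (G ≃* Equiv.Perm (Fin 5)) := by
  have hnt : Nontrivial α := Fintype.one_lt_card_iff_nontrivial.mp (by omega)
  have hle : N.map σ ≤ alternatingGroup α := g42aux_map_le_alt σ N hperf
  have hNnt : Nontrivial N := (Subgroup.nontrivial_iff_ne_bot N).mpr hN
  have hc : 60 ≤ Nat.card N := g42aux_perfect_card (g42aux_perfect_coe N hperf)
  have hcA : Nat.card (alternatingGroup α) = 60 := by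
    rw [nat_card_alternatingGroup, Nat.card_eq_fintype_card, hα]; rfl
  have heq : N.map σ = alternatingGroup α :=
    Subgroup.eq_of_le_of_card_ge hle (by rw [hcA, Subgroup.card_map_of_injective hσ]; exact hc)
  exact g42aux_alt_or_top σ hσ (heq ▸ Subgroup.map_le_range σ N) (Fintype.equivFinOfCardEq hα)

end Cfsg.Agent.Helper52
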