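import Mathlib
import Cfsg.Agent.Helper52.G42A5
import Cfsg.Agent.S0494
import Cfsg.Agent.S2119

/-!
# PIECE A6 of CALL S2553 (helper65): faithful degree-6 groups with a perfect normal subgroup

`g42_deg6`: a finite group `G` with a faithful action on 6 points, a nontrivial perfect normal
subgroup and no nontrivial solvable normal subgroup is `A_5`, `S_5`, `A_6` or `S_6`.
-/

set_option autoImplicit false

namespace Cfsg.Agent.Helper52

open scoped commutatorElement

/-- A proper subgroup of `A_6` of order at least `60` has order exactly `60`. -/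
theorem g42aux_alt6_sub {α : Type*} [Fintype α] [DecidableEq α] (hα : Fintype.card α = 6)
    (M : Subgroup (Equiv.Perm α)) (hle : M ≤ alternatingGroup α) (hne : M ≠ alternatingGroup α)
    (hc : 60 ≤ Nat.card M) : Nat.card M = 60 := by
  have hnt : Nontrivial α := Fintype.one_lt_card_iff_nontrivial.mp (by omega)
  have hcA : Nat.card (alternatingGroup α) = 360 := by
    rw [nat_card_alternatingGroup, Nat.card_eq_fintype_card, hα]; rfl
  have hsimp : IsSimpleGroup (alternatingGroup α) :=
    alternatingGroup.isSimpleGroup (by rw [Nat.card_eq_fintype_card, hα]; norm_num)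
  set M' : Subgroup (alternatingGroup α) := M.subgroupOf (alternatingGroup α) with hM'
  have hM'top : M' ≠ ⊤ := by
    intro h
    rw [hM', Subgroup.subgroupOf_eq_top] at h
    exact hne (le_antisymm hle h)
  have hcM' : Nat.card M' = Nat.card M :=
    Nat.card_congr (Subgroup.subgroupOfEquivOfLe hle).toEquiv
  have hcore : M'.normalCore = ⊥ := by
    rcases hsimp.eq_bot_or_eq_top_of_normal M'.normalCore inferInstance with h | h
    · exact h
    · exact absurd (top_le_iff.mp (h ▸ Subgroup.normalCore_le M')) hM'top
  have hinj : Function.Injective (MulAction.toPermHom (alternatingGroup α)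
      (alternatingGroup α ⧸ M')) := by
    rw [← MonoidHom.ker_eq_bot_iff, ← Subgroup.normalCore_eq_ker, hcore]
  have hdvd : Nat.card (alternatingGroup α) ∣
      Nat.card (Equiv.Perm (alternatingGroup α ⧸ M')) := Subgroup.card_dvd_of_injective _ hinj
  rw [Nat.card_perm, ← Subgroup.index_eq_card, hcA] at hdvd
  have hidx : M'.index * Nat.card M' = 360 := by rw [Subgroup.index_mul_card, hcA]
  rw [hcM'] at hidx
  have hi6 : M'.index ≤ 6 := by
    by_contra h
    push Not at h
    nlinarith
  have hi0 : M'.index ≠ 0 := Subgroup.index_ne_zero_of_finite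
  have hi : M'.index = 6 := by
    interval_cases h : M'.index
    · exact absurd rfl hi0
    · exact absurd (Nat.le_of_dvd (by decide) hdvd) (by decide)
    · exact absurd (Nat.le_of_dvd (by decide) hdvd) (by decide)
    · exact absurd (Nat.le_of_dvd (by decide) hdvd) (by decide)
    · exact absurd (Nat.le_of_dvd (by decide) hdvd) (by decide)
    · exact absurd (Nat.le_of_dvd (by decide) hdvd) (by decide)
    · rfl
  rw [hi] at hidx
  omega

/-- PIECE A6 of CALL S2553. -/
theorem g42_deg6 {G : Type*} [Group G] [Finite G] {α : Type*} [Fintype α] [DecidableEq α]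
    (hα : Fintype.card α = 6) (σ : G →* Equiv.Perm α) (hσ : Function.Injective σ)
    (N : Subgroup G) [N.Normal] (hperf : ⁅N, N⁆ = N) (hN : N ≠ ⊥)
    (hsol : ∀ K : Subgroup G, K.Normal → Group.IsSolvable K → K = ⊥) :
    Nonempty (G ≃* alternatingGroup (Fin 5)) ∨ Nonempty (G ≃* Equiv.Perm (Fin 5)) ∨
    Nonempty (G ≃* alternatingGroup (Fin 6)) ∨ Nonempty (G ≃* Equiv.Perm (Fin 6)) := by
  have hnt : Nontrivial α := Fintype.one_lt_card_iff_nontrivial.mp (by omega)
  have hle : N.map σ ≤ alternatingGroup α := g42aux_map_le_alt σ N hperf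
  have hNnt : Nontrivial N := (Subgroup.nontrivial_iff_ne_bot N).mpr hN
  have hperf' : commutator N = ⊤ := g42aux_perfect_coe N hperf
  have hc : 60 ≤ Nat.card N := g42aux_perfect_card hperf'
  by_cases heq : N.map σ = alternatingGroup α
  · rcases g42aux_alt_or_top σ hσ (heq ▸ Subgroup.map_le_range σ N)
      (Fintype.equivFinOfCardEq hα) with h | h
    · exact Or.inr (Or.inr (Or.inl h))
    · exact Or.inr (Or.inr (Or.inr h))
  · -- `|N| = 60`
    have hcmap : Nat.card (N.map σ) = Nat.card N := Subgroup.card_map_of_injective hσ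
    have hN60 : Nat.card N = 60 := by
      rw [← hcmap]
      exact g42aux_alt6_sub hα (N.map σ) hle heq (by rw [hcmap]; exact hc)
    obtain ⟨hsimp, -⟩ := g42aux_perfect_simple hperf' (by omega)
    obtain ⟨e⟩ := Cfsg.Agent.S0494.result (G := N) hN60
    -- the centralizer of `N` is trivial
    set C : Subgroup G := Subgroup.centralizer (N : Set G) with hC
    have hCN : C ⊓ N = ⊥ := by
      refine hsol (C ⊓ N) inferInstance (Group.isSolvable_of_comm ?_)
      rintro ⟨a, ha⟩ ⟨b, hb⟩
      apply Subtype.ext
      have := (Subgroup.mem_centralizer_iff.mp ha.1) b hb.2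
      exact this.symm
    have hG720 : Nat.card G ≤ 720 := by
      have h1 := Nat.card_le_card_of_injective σ hσ
      rw [Nat.card_perm, Nat.card_eq_fintype_card (α := α), hα] at h1
      exact h1
    have hCinj : Function.Injective ((QuotientGroup.mk' N).comp C.subtype) := by
      rw [injective_iff_map_eq_one]
      rintro ⟨c, hc'⟩ h1
      have hcN : c ∈ N := by
        simpa using h1
      have : c ∈ C ⊓ N := ⟨hc', hcN⟩
      rw [hCN, Subgroup.mem_bot] at this
      exact Subtype.ext this
    have hCcard : Nat.card C < 60 := by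
      have h1 := Nat.card_le_card_of_injective _ hCinj
      have h2 := Subgroup.card_eq_card_quotient_mul_card_subgroup N
      rw [hN60] at h2
      omega
    have hCbot : C = ⊥ := hsol C inferInstance (g42aux_solvable_of_card_lt hCcard)
    -- conjugation embeds `G` in `Aut N = S_5`
    have hconj : Function.Injective (MulAut.conjNormal : G →* MulAut N) := by
      rw [injective_iff_map_eq_one]
      intro g hg
      have hgC : g ∈ C := by
        rw [hC, Subgroup.mem_centralizer_iff]
        intro n hn
        have h1 : (MulAut.conjNormal g : MulAut N) ⟨n, hn⟩ = ⟨n, hn⟩ := by rw [hg]; rfl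
        have h2 := congrArg Subtype.val h1
        rw [MulAut.conjNormal_apply] at h2
        calc n * g = g * n * g⁻¹ * g := by rw [h2]
          _ = g * n := by group
      rw [hCbot, Subgroup.mem_bot] at hgC
      exact hgC
    let E : Equiv.Perm (Fin 5) ≃* MulAut (alternatingGroup (Fin 5)) :=
      MulEquiv.ofBijective MulAut.conjNormal (Cfsg.Agent.S2119.result 5 (by norm_num) (by norm_num))
    let φ : G →* Equiv.Perm (Fin 5) :=
      E.symm.toMonoidHom.comp ((MulAut.congr e).toMonoidHom.comp MulAut.conjNormal)
    have hφ : Function.Injective φ :=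
      E.symm.injective.comp ((MulAut.congr e).injective.comp hconj)
    rcases g42_deg5 (by simp) φ hφ N hperf hN with h | h
    · exact Or.inl h
    · exact Or.inr (Or.inl h)

end Cfsg.Agent.Helper52
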