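import Cfsg.Agent.Helper86.AltCritB

/-!
# S5322 piece K: the centraliser of an element from a class count
-/

set_option autoImplicit false

namespace Cfsg.Agent.Helper52

open Cfsg.Agent.Helper86

theorem cent_of_class_count {Γ : Type*} [Group Γ] [Finite Γ] (z : Γ) (C Z : Subgroup Γ) (n m : ℕ)
    (hcard : Nat.card Γ = n * m) (hn : 0 < n)
    (hclass : ∃ f : Fin n → Γ, Function.Injective f ∧ ∀ i, IsConj z (f i))
    (hC : ∀ c ∈ C, c * z = z * c) (hZ : ∀ ζ ∈ Z, ∀ g : Γ, ζ * g = g * ζ)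
    (hCZ : ∀ x ∈ C, x ∈ Z → x = 1) (hm : m ≤ Nat.card ↥C * Nat.card ↥Z) :
    ∀ g : Γ, g * z = z * g → ∃ c ∈ C, ∃ ζ ∈ Z, g = c * ζ := by
  classical
  obtain ⟨f, hf, hconj⟩ := hclass
  let D : Subgroup Γ := Subgroup.centralizer {z}
  have hDmem : ∀ g : Γ, g ∈ D ↔ g * z = z * g := fun g =>
    Subgroup.mem_centralizer_singleton_iff
  -- choose conjugating elements
  have hex : ∀ i : Fin n, ∃ c : Γ, c * z * c⁻¹ = f i := fun i => isConj_iff.mp (hconj i)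
  choose gi hgi using hex
  -- an injection `Fin n × D → Γ`
  have hinj : Function.Injective (fun q : Fin n × ↥D => gi q.1 * (q.2 : Γ)) := by
    rintro ⟨i, d⟩ ⟨j, d'⟩ h
    have h' : gi i * (d : Γ) = gi j * (d' : Γ) := h
    have hd : (d : Γ) * z = z * (d : Γ) := (hDmem _).mp d.2
    have hd' : (d' : Γ) * z = z * (d' : Γ) := (hDmem _).mp d'.2
    have e1 : gi i * (d : Γ) * z * (gi i * (d : Γ))⁻¹ = f i := by
      rw [← hgi i, mul_assoc (gi i), hd, mul_inv_rev]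
      group
    have e2 : gi j * (d' : Γ) * z * (gi j * (d' : Γ))⁻¹ = f j := by
      rw [← hgi j, mul_assoc (gi j), hd', mul_inv_rev]
      group
    have hij : i = j := by
      apply hf
      rw [← e1, ← e2, h']
    subst hij
    have : (d : Γ) = (d' : Γ) := mul_left_cancel h'
    have hdd : d = d' := Subtype.ext this
    rw [hdd]
  have h1 : Nat.card (Fin n × ↥D) ≤ Nat.card Γ := Nat.card_le_card_of_injective _ hinj
  rw [Nat.card_prod, Nat.card_fin, hcard] at h1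
  have hDm : Nat.card ↥D ≤ m := Nat.le_of_mul_le_mul_left h1 hn
  -- the injection `C × Z → D`
  have hmemD : ∀ (c : ↥C) (ζ : ↥Z), (c : Γ) * (ζ : Γ) ∈ D := by
    intro c ζ
    rw [hDmem, mul_assoc, hZ ζ ζ.2 z, ← mul_assoc, hC c c.2, mul_assoc]
  let φ : ↥C × ↥Z → ↥D := fun q => ⟨(q.1 : Γ) * (q.2 : Γ), hmemD q.1 q.2⟩
  have hφ : Function.Injective φ := by
    rintro ⟨c, ζ⟩ ⟨c', ζ'⟩ h
    have h' : (c : Γ) * (ζ : Γ) = (c' : Γ) * (ζ' : Γ) := congrArg Subtype.val h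
    have hx : (c' : Γ)⁻¹ * (c : Γ) = (ζ' : Γ) * (ζ : Γ)⁻¹ := by
      rw [eq_mul_inv_iff_mul_eq, mul_assoc, h', inv_mul_cancel_left]
    have hxC : (c' : Γ)⁻¹ * (c : Γ) ∈ C := C.mul_mem (C.inv_mem c'.2) c.2
    have hxZ : (c' : Γ)⁻¹ * (c : Γ) ∈ Z := by
      rw [hx]; exact Z.mul_mem ζ'.2 (Z.inv_mem ζ.2)
    have h1 : (c' : Γ)⁻¹ * (c : Γ) = 1 := hCZ _ hxC hxZ
    have hc : (c : Γ) = (c' : Γ) := by
      have := inv_mul_eq_one.mp h1
      exact this.symm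
    have hζ : (ζ : Γ) = (ζ' : Γ) := by
      rw [hc] at h'
      exact mul_left_cancel h'
    have hcc : c = c' := Subtype.ext hc
    have hζζ : ζ = ζ' := Subtype.ext hζ
    rw [hcc, hζζ]
  have hcardle : Nat.card ↥D ≤ Nat.card (↥C × ↥Z) := by
    rw [Nat.card_prod]
    exact hDm.trans hm
  have hbij : Function.Bijective φ := hφ.bijective_of_nat_card_le hcardle
  intro g hg
  obtain ⟨⟨c, ζ⟩, hq⟩ := hbij.2 ⟨g, (hDmem g).mpr hg⟩
  refine ⟨c, c.2, ζ, ζ.2, ?_⟩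
  have := congrArg Subtype.val hq
  exact this.symm

end Cfsg.Agent.Helper52
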