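import Cfsg.Agent.Helper86.AltCritB

/-!
# S5322 piece Q: `AltHyp` passes to a central quotient without `p`-elements
-/

set_option autoImplicit false

namespace Cfsg.Agent.Helper52

open Cfsg.Agent.Helper86

/-- a `p`-element times a central element without `p`-torsion is a `p`-element only if the
central element is trivial -/
private theorem j3q_key {Γ : Type*} [Group Γ] {p : ℕ} (Z : Subgroup Γ)
    (hZc : ∀ ζ ∈ Z, ∀ g : Γ, ζ * g = g * ζ)
    (hZp : ∀ ζ ∈ Z, ∀ k : ℕ, ζ ^ p ^ k = 1 → ζ = 1)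
    {x ζ : Γ} (hζ : ζ ∈ Z) {k k2 : ℕ} (hx : x ^ p ^ k = 1) (hxζ : (x * ζ) ^ p ^ k2 = 1) :
    ζ = 1 := by
  apply hZp ζ hζ (k + k2)
  have hcomm : Commute x ζ := (hZc ζ hζ x).symm
  have h1 : x ^ p ^ (k + k2) = 1 := by
    rw [pow_add, pow_mul, hx, one_pow]
  have h2 : (x * ζ) ^ p ^ (k + k2) = 1 := by
    rw [pow_add, mul_comm (p ^ k), pow_mul, hxζ, one_pow]
  rw [hcomm.mul_pow, h1, one_mul] at h2
  exact h2

private theorem j3q_conj_pow {Γ : Type*} [Group Γ] (g x : Γ) (n : ℕ) (h : x ^ n = 1) :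
    (g * x * g⁻¹) ^ n = 1 := by
  rw [conj_pow, h, mul_one, mul_inv_cancel]

theorem altHyp_central_quot {Γ : Type*} [Group Γ] {p : ℕ} (Z : Subgroup Γ) [Z.Normal]
    (hZc : ∀ ζ ∈ Z, ∀ g : Γ, ζ * g = g * ζ)
    (hZp : ∀ ζ ∈ Z, ∀ k : ℕ, ζ ^ p ^ k = 1 → ζ = 1)
    (S P C : Subgroup Γ) (hSp : ∀ y ∈ S, ∃ k : ℕ, y ^ p ^ k = 1) (hS1 : S ≠ ⊥)
    (hsc : ∀ T : Subgroup Γ, T ≤ S →
      (∀ x ∈ T, ∀ g : Γ, g * x * g⁻¹ ∈ S → g * x * g⁻¹ ∈ T) → T = ⊥ ∨ T = S)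
    (hPS : P ≤ S)
    (hcent : ∀ c : Γ, (∀ x ∈ P, c * x = x * c) → ∃ ζ ∈ Z, c * ζ ∈ P)
    (hCn : ∀ d ∈ C, ∀ y ∈ P, d * y * d⁻¹ ∈ P)
    (hCgen : C ≤ Subgroup.closure {x : Γ | (∃ k : ℕ, x ^ p ^ k = 1) ∧ ∀ y ∈ P, x * y * x⁻¹ ∈ P})
    (hN : ∀ g : Γ, (∀ y ∈ S, g * y * g⁻¹ ∈ S) → ∃ ζ ∈ Z, g * ζ ∈ C) :
    AltHyp p (⊤ : Subgroup (Γ ⧸ Z)) (S.map (QuotientGroup.mk' Z)) ∧
      Nat.card ↥(S.map (QuotientGroup.mk' Z)) = Nat.card ↥S := by
  classical
  set π : Γ →* Γ ⧸ Z := QuotientGroup.mk' Z with hπ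
  have hπone : ∀ g : Γ, π g = 1 ↔ g ∈ Z := fun g => QuotientGroup.eq_one_iff g
  have hπsurj : Function.Surjective π := QuotientGroup.mk'_surjective Z
  -- a `p`-element of `Z` is trivial
  have hSZ : ∀ s ∈ S, s ∈ Z → s = 1 := by
    intro s hs hsZ
    obtain ⟨k, hk⟩ := hSp s hs
    exact hZp s hsZ k hk
  -- `π` is injective on `S`
  have hinjS : ∀ x ∈ S, ∀ y ∈ S, π x = π y → x = y := by
    intro x hx y hy hxy
    have h1 : π (x⁻¹ * y) = 1 := by
      rw [map_mul, map_inv, hxy, inv_mul_cancel]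
    have h2 : x⁻¹ * y = 1 := hSZ _ (S.mul_mem (S.inv_mem hx) hy) ((hπone _).mp h1)
    exact (inv_mul_eq_one.mp h2)
  -- if `π a = π b` with `a`, `b` both `p`-elements then `a = b`
  have hpeq : ∀ (a b : Γ) (k k2 : ℕ), a ^ p ^ k = 1 → b ^ p ^ k2 = 1 → π a = π b → a = b := by
    intro a b k k2 ha hb hab
    have h1 : π (a⁻¹ * b) = 1 := by
      rw [map_mul, map_inv, hab, inv_mul_cancel]
    have hζ : a⁻¹ * b ∈ Z := (hπone _).mp h1
    have hb' : (a * (a⁻¹ * b)) ^ p ^ k2 = 1 := by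
      rw [mul_inv_cancel_left]; exact hb
    have := j3q_key Z hZc hZp hζ ha hb'
    exact inv_mul_eq_one.mp this
  -- the `P` of `AltHyp` is centric in the quotient
  have hcentric : ∀ c ∈ (⊤ : Subgroup (Γ ⧸ Z)), (∀ x ∈ P.map π, c * x = x * c) → c ∈ P.map π := by
    intro cb _ hcb
    obtain ⟨c, rfl⟩ := hπsurj cb
    have hc : ∀ x ∈ P, c * x = x * c := by
      intro x hx
      obtain ⟨k, hk⟩ := hSp x (hPS hx)
      have h1 : π (c * x * c⁻¹) = π x := by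
        rw [map_mul, map_mul, map_inv, hcb (π x) (Subgroup.mem_map_of_mem π hx), mul_inv_cancel_right]
      have h2 : c * x * c⁻¹ = x := hpeq _ _ k k (j3q_conj_pow c x _ hk) hk h1
      calc c * x = c * x * c⁻¹ * c := by group
        _ = x * c := by rw [h2]
    obtain ⟨ζ, hζ, hcζ⟩ := hcent c hc
    have : π c = π (c * ζ) := by
      rw [map_mul, (hπone ζ).mpr hζ, mul_one]
    rw [this]
    exact Subgroup.mem_map_of_mem π hcζ
  refine ⟨⟨?_, ?_, P.map π, Subgroup.map_mono hPS, hcentric, ?_⟩, ?_⟩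
  · -- nontrivial
    intro hbot
    apply hS1
    rw [Subgroup.eq_bot_iff_forall]
    intro s hs
    have h1 : π s ∈ S.map π := Subgroup.mem_map_of_mem π hs
    rw [hbot, Subgroup.mem_bot] at h1
    exact hSZ s hs ((hπone s).mp h1)
  · -- strongly closed
    intro Tb hTb hcl
    have hT := hsc (S ⊓ Tb.comap π) inf_le_left (by
      intro x hx g hg
      refine ⟨hg, ?_⟩
      show π (g * x * g⁻¹) ∈ Tb
      rw [map_mul, map_mul, map_inv]
      apply hcl (π x) hx.2 (π g) (Subgroup.mem_top _)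
      rw [← map_inv, ← map_mul, ← map_mul]
      exact Subgroup.mem_map_of_mem π hg)
    have hTbeq : Tb = (S ⊓ Tb.comap π).map π := by
      apply le_antisymm
      · intro b hb
        obtain ⟨s, hs, rfl⟩ := hTb hb
        exact Subgroup.mem_map_of_mem π ⟨hs, hb⟩
      · rintro b ⟨s, hs, rfl⟩
        exact hs.2
    rcases hT with h | h
    · left
      rw [hTbeq, h, Subgroup.map_bot]
    · right
      rw [hTbeq, h]
  · -- normalizer
    intro gb _ hgb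
    obtain ⟨g, rfl⟩ := hπsurj gb
    have hgS : ∀ y ∈ S, g * y * g⁻¹ ∈ S := by
      intro y hy
      have h1 : π g * π y * (π g)⁻¹ ∈ S.map π := hgb (π y) (Subgroup.mem_map_of_mem π hy)
      obtain ⟨s, hs, hsπ⟩ := h1
      obtain ⟨k, hk⟩ := hSp y hy
      obtain ⟨k2, hk2⟩ := hSp s hs
      have h2 : π s = π (g * y * g⁻¹) := by
        rw [hsπ, map_mul, map_mul, map_inv]
      have h3 : s = g * y * g⁻¹ := hpeq _ _ k2 k hk2 (j3q_conj_pow g y _ hk) h2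
      rw [← h3]
      exact hs
    obtain ⟨ζ, hζ, hd⟩ := hN g hgS
    have hπd : π g = π (g * ζ) := by
      rw [map_mul, (hπone ζ).mpr hζ, mul_one]
    rw [hπd]
    apply Subgroup.subset_closure
    have hnormP : ∀ y ∈ P.map π, π (g * ζ) * y * (π (g * ζ))⁻¹ ∈ P.map π := by
      rintro yb ⟨y, hy, rfl⟩
      rw [← map_inv, ← map_mul, ← map_mul]
      exact Subgroup.mem_map_of_mem π (hCn _ hd y hy)
    refine ⟨Subgroup.mem_top _, hnormP, P.map π, P.map π, le_refl _, le_refl _,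
      Subgroup.map_mono hPS, hcentric, hnormP, hnormP, ?_⟩
    have h1 : π (g * ζ) ∈ (Subgroup.closure
        {x : Γ | (∃ k : ℕ, x ^ p ^ k = 1) ∧ ∀ y ∈ P, x * y * x⁻¹ ∈ P}).map π :=
      Subgroup.mem_map_of_mem π (hCgen hd)
    rw [MonoidHom.map_closure] at h1
    refine Subgroup.closure_mono ?_ h1
    rintro xb ⟨x, ⟨⟨k, hk⟩, hxP⟩, rfl⟩
    refine ⟨Subgroup.mem_top _, ⟨k, ?_⟩, ?_⟩
    · rw [← map_pow, hk, map_one]
    · rintro yb ⟨y, hy, rfl⟩
      rw [← map_inv, ← map_mul, ← map_mul]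
      exact Subgroup.mem_map_of_mem π (hxP y hy)
  · -- cardinality
    have hbij : Function.Bijective
        (fun s : ↥S => (⟨π (s : Γ), Subgroup.mem_map_of_mem π s.2⟩ : ↥(S.map π))) := by
      constructor
      · intro s t hst
        have : π (s : Γ) = π (t : Γ) := congrArg Subtype.val hst
        exact Subtype.ext (hinjS _ s.2 _ t.2 this)
      · rintro ⟨b, s, hs, rfl⟩
        exact ⟨⟨s, hs⟩, rfl⟩
    exact (Nat.card_congr (Equiv.ofBijective _ hbij)).symm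

end Cfsg.Agent.Helper52
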