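import Mathlib

/-!
# PIECE B2b1 of CALL S4607 (helper77): the corner `ε𝔅ε` has `dim A / J_A² ≤ 2`

`k2_corner_codim`.  Notation: `A = ε𝔅ε`, `J_A = A ∩ ker g`, `W = J_A²` (the span in the
statement).  Commutators of `A` lie in `W`; the map `T y = ∑ ε bₗ y aₗ ε` sends commutators of
`𝔅` into `W` and is the identity on `A` modulo `W`.  If `x₀, x₁, x₂` were independent modulo
`W`, three functionals separating them composed with `T` would vanish on all commutators, and
the symmetrizing form (`k2_duality`) would turn them into three independent central elements.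
-/

set_option autoImplicit false

namespace Cfsg.Agent.Helper52

universe u v

/-- Duality for a symmetric algebra: a functional vanishing on commutators is `lam (c * ·)`
with `c` central. -/
theorem k2_duality {k : Type v} [Field k] {𝔅 : Type u} [Ring 𝔅] [Algebra k 𝔅]
    [FiniteDimensional k 𝔅] (lam : 𝔅 →ₗ[k] k) (hsym : ∀ x y, lam (x * y) = lam (y * x))
    (hnd : ∀ x, (∀ y, lam (x * y) = 0) → x = 0) (t : 𝔅 →ₗ[k] k)
    (ht : ∀ x y, t (x * y) = t (y * x)) :
    ∃ c : 𝔅, (∀ a, c * a = a * c) ∧ ∀ y, t y = lam (c * y) := by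
  let Φ : 𝔅 →ₗ[k] Module.Dual k 𝔅 := (LinearMap.llcomp k 𝔅 𝔅 k lam).comp (LinearMap.mul k 𝔅)
  have hΦ : ∀ c y, Φ c y = lam (c * y) := fun c y => rfl
  have hinj : Function.Injective Φ := by
    rw [injective_iff_map_eq_zero]
    intro c hc
    apply hnd
    intro y
    rw [← hΦ, hc]
    rfl
  have hsurj : Function.Surjective Φ :=
    (LinearMap.injective_iff_surjective_of_finrank_eq_finrank
      (Subspace.dual_finrank_eq (K := k) (V := 𝔅)).symm).mp hinj
  obtain ⟨c, hc⟩ := hsurj t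
  have hct : ∀ y, t y = lam (c * y) := fun y => by rw [← hc]; rfl
  refine ⟨c, fun a => ?_, hct⟩
  have h0 : c * a - a * c = 0 := by
    apply hnd
    intro y
    rw [sub_mul, map_sub, mul_assoc, ← hct, mul_assoc a c y, hsym a (c * y), mul_assoc, ← hct,
      ht a y, sub_self]
  exact sub_eq_zero.mp h0

/-- PIECE B2b1 of CALL S4607. -/
theorem k2_corner_codim {k : Type v} [Field k] {𝔅 : Type u} [Ring 𝔅] [Algebra k 𝔅]
    [FiniteDimensional k 𝔅] (lam : 𝔅 →ₗ[k] k) (hsym : ∀ x y, lam (x * y) = lam (y * x))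
    (hnd : ∀ x, (∀ y, lam (x * y) = 0) → x = 0)
    (hZ : ∀ v : Fin 3 → 𝔅, (∀ i a, v i * a = a * v i) → ¬ LinearIndependent k v)
    (n : ℕ) (hn : 0 < n) (g : 𝔅 →ₐ[k] Matrix (Fin n) (Fin n) k)
    (ε : 𝔅) (a b : Fin n → 𝔅) (hε : ε * ε = ε)
    (hgε : g ε = Matrix.single (⟨0, hn⟩ : Fin n) (⟨0, hn⟩ : Fin n) (1 : k))
    (hab : ∑ i, a i * ε * b i = 1)
    (x : Fin 3 → 𝔅) (hx : ∀ i, ε * x i = x i ∧ x i * ε = x i) :
    ∃ c : Fin 3 → k, c ≠ 0 ∧ ∑ i, c i • x i ∈ Submodule.span k
      {w : 𝔅 | ∃ s t : 𝔅, (ε * s = s ∧ s * ε = s ∧ g s = 0) ∧ (ε * t = t ∧ t * ε = t ∧ g t = 0) ∧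
        w = s * t} := by
  classical
  set W : Submodule k 𝔅 := Submodule.span k
      {w : 𝔅 | ∃ s t : 𝔅, (ε * s = s ∧ s * ε = s ∧ g s = 0) ∧ (ε * t = t ∧ t * ε = t ∧ g t = 0) ∧
        w = s * t} with hWdef
  have hWmul : ∀ s t, (ε * s = s ∧ s * ε = s ∧ g s = 0) → (ε * t = t ∧ t * ε = t ∧ g t = 0) →
      s * t ∈ W := fun s t hs ht => Submodule.subset_span ⟨s, t, hs, ht, rfl⟩
  -- (i) `A = k ε + J_A`, so commutators of `A` lie in `W`
  have hdecomp : ∀ y, ε * y = y → y * ε = y → ∃ c : k,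
      ε * (y - c • ε) = y - c • ε ∧ (y - c • ε) * ε = y - c • ε ∧ g (y - c • ε) = 0 := by
    intro y h1 h2
    refine ⟨g y ⟨0, hn⟩ ⟨0, hn⟩, ?_, ?_, ?_⟩
    · rw [mul_sub, mul_smul_comm, h1, hε]
    · rw [sub_mul, smul_mul_assoc, h2, hε]
    · have hy : g y = g ε * g y * g ε := by
        rw [← map_mul, ← map_mul, h1, h2]
      rw [map_sub, map_smul, hgε]
      rw [hgε, Matrix.single_mul_mul_single] at hy
      rw [hy]
      simp [Matrix.smul_single]
  have hcomm : ∀ p q, ε * p = p → p * ε = p → ε * q = q → q * ε = q → p * q - q * p ∈ W := by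
    intro p q hp1 hp2 hq1 hq2
    obtain ⟨c, hc⟩ := hdecomp p hp1 hp2
    obtain ⟨d, hd⟩ := hdecomp q hq1 hq2
    have h3 := W.sub_mem (hWmul _ _ hc hd) (hWmul _ _ hd hc)
    have e : (p - c • ε) * (q - d • ε) - (q - d • ε) * (p - c • ε) = p * q - q * p := by
      simp only [mul_sub, sub_mul, mul_smul_comm, smul_mul_assoc, hp1, hp2, hq1, hq2, hε,
        smul_sub, smul_smul]
      rw [mul_comm d c]
      abel
    rwa [e] at h3
  -- (ii) the map `T`
  let T : 𝔅 →ₗ[k] 𝔅 :=
    ∑ l, (LinearMap.mulLeft k (ε * b l)).comp (LinearMap.mulRight k (a l * ε))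
  have hT : ∀ y, T y = ∑ l, ε * b l * (y * (a l * ε)) := by
    intro y
    simp [T, LinearMap.sum_apply, mul_assoc]
  have hexp : ∀ y w l, ε * b l * (y * w * (a l * ε))
      = ∑ m, (ε * b l * y * a m * ε) * (ε * b m * w * a l * ε) := by
    intro y w l
    calc ε * b l * (y * w * (a l * ε))
        = ε * b l * y * (∑ m, a m * ε * b m) * w * a l * ε := by
          rw [hab, mul_one]
          simp only [mul_assoc]
      _ = ∑ m, ε * b l * y * (a m * ε * b m) * w * a l * ε := by
          simp only [Finset.mul_sum, Finset.sum_mul]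
      _ = _ := by
          refine Finset.sum_congr rfl fun m _ => ?_
          have h : ε * b l * y * (a m * (ε * ε) * b m) * w * a l * ε
              = ε * b l * y * a m * ε * (ε * b m * w * a l * ε) := by
            simp only [mul_assoc]
          rwa [hε] at h
  have hA1 : ∀ p q r : 𝔅, ε * (ε * p * q * r * ε) = ε * p * q * r * ε := by
    intro p q r
    simp only [← mul_assoc, hε]
  have hA2 : ∀ p q r : 𝔅, (ε * p * q * r * ε) * ε = ε * p * q * r * ε := by
    intro p q r
    simp only [mul_assoc, hε]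
  have hTcomm : ∀ y w, T (y * w) - T (w * y) ∈ W := by
    intro y w
    have e1 : T (y * w) = ∑ l, ∑ m, (ε * b l * y * a m * ε) * (ε * b m * w * a l * ε) := by
      rw [hT]
      exact Finset.sum_congr rfl fun l _ => hexp y w l
    have e2 : T (w * y) = ∑ m, ∑ l, (ε * b m * w * a l * ε) * (ε * b l * y * a m * ε) := by
      rw [hT]
      exact Finset.sum_congr rfl fun m _ => hexp w y m
    rw [e1, e2, Finset.sum_comm, ← Finset.sum_sub_distrib]
    refine Submodule.sum_mem _ fun m _ => ?_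
    rw [← Finset.sum_sub_distrib]
    refine Submodule.sum_mem _ fun l _ => ?_
    exact hcomm _ _ (hA1 (b l) y (a m)) (hA2 (b l) y (a m)) (hA1 (b m) w (a l))
      (hA2 (b m) w (a l))
  have hTA : ∀ y, ε * y = y → y * ε = y → T y - y ∈ W := by
    intro y h1 h2
    have e1 : T y = ∑ l, (ε * b l * ε) * (y * a l * ε) := by
      rw [hT]
      refine Finset.sum_congr rfl fun l _ => ?_
      have h : ε * b l * ((ε * y) * (a l * ε)) = (ε * b l * ε) * (y * a l * ε) := by
        simp only [mul_assoc]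
      rwa [h1] at h
    have e2 : y = ∑ l, (y * a l * ε) * (ε * b l * ε) := by
      have h : ∀ l, (y * a l * ε) * (ε * b l * ε) = y * (a l * ε * b l) * ε := by
        intro l
        have h' : (y * a l * ε) * (ε * b l * ε) = y * (a l * (ε * ε) * b l) * ε := by
          simp only [mul_assoc]
        rw [h', hε]
      rw [Finset.sum_congr rfl fun l _ => h l, ← Finset.sum_mul, ← Finset.mul_sum, hab, mul_one,
        h2]
    have e3 : T y - y = ∑ l, ((ε * b l * ε) * (y * a l * ε) - (y * a l * ε) * (ε * b l * ε)) := by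
      rw [Finset.sum_sub_distrib, ← e1, ← e2]
    rw [e3]
    refine Submodule.sum_mem _ fun l _ => ?_
    refine hcomm _ _ ?_ ?_ ?_ ?_
    · simp only [← mul_assoc, hε]
    · simp only [mul_assoc, hε]
    · rw [← mul_assoc, ← mul_assoc, h1]
    · simp only [mul_assoc, hε]
  -- (iii)
  by_contra hcon
  push Not at hcon
  let F : (Fin 3 → k) →ₗ[k] (𝔅 ⧸ W) := W.mkQ.comp (Fintype.linearCombination k x)
  have hF : LinearMap.ker F = ⊥ := by
    rw [LinearMap.ker_eq_bot']
    intro c hc
    by_contra h0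
    apply hcon c h0
    have h1 : W.mkQ (∑ i, c i • x i) = 0 := hc
    exact (Submodule.Quotient.mk_eq_zero W).mp h1
  obtain ⟨G, hG⟩ := LinearMap.exists_leftInverse_of_injective F hF
  let L : 𝔅 →ₗ[k] (Fin 3 → k) := G.comp W.mkQ
  have hLW : ∀ w ∈ W, L w = 0 := by
    intro w hw
    show G (W.mkQ w) = 0
    rw [Submodule.mkQ_apply, (Submodule.Quotient.mk_eq_zero W).mpr hw, map_zero]
  have hLx : ∀ c : Fin 3 → k, L (∑ i, c i • x i) = c := by
    intro c
    have h1 : (G.comp F) c = c := by rw [hG]; rfl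
    exact h1
  have hLxj : ∀ j, L (x j) = Pi.single j 1 := by
    intro j
    have h1 := hLx (Pi.single j 1)
    have h2 : ∑ i, (Pi.single j (1 : k) : Fin 3 → k) i • x i = x j := by
      rw [Finset.sum_eq_single j]
      · simp
      · intro i _ hij
        simp [hij]
      · simp
    rwa [h2] at h1
  have hτ : ∀ i : Fin 3, ∃ c : 𝔅, (∀ a', c * a' = a' * c) ∧ ∀ y, (L (T y)) i = lam (c * y) := by
    intro i
    refine k2_duality lam hsym hnd ((LinearMap.proj i).comp (L.comp T)) ?_
    intro y w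
    have h := hLW _ (hTcomm y w)
    rw [map_sub, sub_eq_zero] at h
    show (L (T (y * w))) i = (L (T (w * y))) i
    rw [h]
  choose cc hcc1 hcc2 using hτ
  apply hZ cc (fun i a' => hcc1 i a')
  rw [Fintype.linearIndependent_iff]
  intro α hα j
  have h1 : lam ((∑ i, α i • cc i) * x j) = 0 := by rw [hα, zero_mul, map_zero]
  rw [Finset.sum_mul, map_sum] at h1
  have h2 : ∀ i, lam (α i • cc i * x j) = α i * (Pi.single j (1 : k) : Fin 3 → k) i := by
    intro i
    rw [smul_mul_assoc, map_smul, smul_eq_mul, ← hcc2 i (x j)]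
    have h3 := hLW _ (hTA (x j) (hx j).1 (hx j).2)
    rw [map_sub, sub_eq_zero] at h3
    rw [h3, hLxj j]
  rw [Finset.sum_congr rfl fun i _ => h2 i, Finset.sum_eq_single j] at h1
  · simpa using h1
  · intro i _ hij
    simp [hij]
  · simp

end Cfsg.Agent.Helper52
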