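import Mathlib

/-!
# PIECE B2b2 of CALL S4607 (helper77): the radical of the block algebra squares to zero

`k2_radical_sq_zero`.  Notation: `A = ε𝔅ε`, `J = A ∩ ker g` (`k2J`).  From `hcodim`,
`dim J / J² ≤ 1`, so `J` is generated by one nilpotent element `u`; `u` and `u²` commute with
`A` and give central elements `∑ aᵢ u bᵢ`, `∑ aᵢ u² bᵢ` of `𝔅`; the hypothesis on the centre
forces `u² = 0`, hence `J² = 0` and then `(ker g)² = 0`.
-/

set_option autoImplicit false

namespace Cfsg.Agent.Helper52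

universe u v

section K2B2b2

variable {k : Type v} [Field k] {𝔅 : Type u} [Ring 𝔅] [Algebra k 𝔅]

/-- `J = {x | ε x = x = x ε, g x = 0}` as a submodule. -/
def k2J {n : ℕ} (g : 𝔅 →ₐ[k] Matrix (Fin n) (Fin n) k) (ε : 𝔅) : Submodule k 𝔅 where
  carrier := {x | ε * x = x ∧ x * ε = x ∧ g x = 0}
  add_mem' := by
    rintro x y ⟨h1, h2, h3⟩ ⟨h4, h5, h6⟩
    exact ⟨by rw [mul_add, h1, h4], by rw [add_mul, h2, h5], by rw [map_add, h3, h6, add_zero]⟩
  zero_mem' := ⟨by simp, by simp, by simp⟩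
  smul_mem' := by
    rintro c x ⟨h1, h2, h3⟩
    exact ⟨by rw [mul_smul_comm, h1], by rw [smul_mul_assoc, h2], by rw [map_smul, h3, smul_zero]⟩

theorem k2J_mem {n : ℕ} (g : 𝔅 →ₐ[k] Matrix (Fin n) (Fin n) k) (ε x : 𝔅) :
    x ∈ k2J g ε ↔ ε * x = x ∧ x * ε = x ∧ g x = 0 := Iff.rfl

theorem k2J_mul_le {n : ℕ} (g : 𝔅 →ₐ[k] Matrix (Fin n) (Fin n) k) (ε : 𝔅) :
    k2J g ε * k2J g ε ≤ k2J g ε := by
  rw [Submodule.mul_le]
  rintro x ⟨h1, h2, h3⟩ y ⟨h4, h5, h6⟩
  exact ⟨by rw [← mul_assoc, h1], by rw [mul_assoc, h5], by rw [map_mul, h3, zero_mul]⟩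

/-- Nakayama for a nilpotent multiplicatively closed submodule. -/
theorem k2_nakayama (J X : Submodule k 𝔅) (hJJ : J * J ≤ J) (hXJ : X ≤ J) (hXX : X * X ≤ X)
    (h0 : J ≤ X ⊔ J * J) : ∀ m : ℕ, J ≤ X ⊔ J ^ (m + 2) := by
  have hpow : ∀ m : ℕ, J ^ (m + 1) ≤ J := by
    intro m
    induction m with
    | zero => simp
    | succ m ih =>
      rw [pow_succ]
      exact le_trans (mul_le_mul' ih le_rfl) hJJ
  intro m
  induction m with
  | zero => simpa [pow_two] using h0
  | succ m ih =>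
    have h1 : J * J ≤ X ⊔ J ^ (m + 3) := by
      calc J * J ≤ (X ⊔ J ^ (m + 2)) * (X ⊔ J ^ (m + 2)) := mul_le_mul' ih ih
        _ = (X * X ⊔ X * J ^ (m + 2)) ⊔ (J ^ (m + 2) * X ⊔ J ^ (m + 2) * J ^ (m + 2)) := by
            rw [Submodule.sup_mul, Submodule.mul_sup, Submodule.mul_sup]
        _ ≤ X ⊔ J ^ (m + 3) := by
            refine sup_le (sup_le ?_ ?_) (sup_le ?_ ?_)
            · exact le_sup_of_le_left hXX
            · refine le_sup_of_le_right ?_
              calc X * J ^ (m + 2) ≤ J * J ^ (m + 2) := mul_le_mul' hXJ le_rfl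
                _ = J ^ (m + 3) := by rw [← pow_succ']
            · refine le_sup_of_le_right ?_
              calc J ^ (m + 2) * X ≤ J ^ (m + 2) * J := mul_le_mul' le_rfl hXJ
                _ = J ^ (m + 3) := by rw [← pow_succ]
            · refine le_sup_of_le_right ?_
              calc J ^ (m + 2) * J ^ (m + 2) ≤ J ^ (m + 2) * J := mul_le_mul' le_rfl (hpow (m + 1))
                _ = J ^ (m + 3) := by rw [← pow_succ]
    exact le_trans h0 (sup_le le_sup_left h1)

/-- A power of a submodule all of whose long products vanish is zero. -/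
theorem k2_pow_eq_bot (J : Submodule k 𝔅) (N : ℕ)
    (hN : ∀ l : List 𝔅, l.length = N → (∀ x ∈ l, x ∈ J) → l.prod = 0) : J ^ N = ⊥ := by
  rw [Submodule.pow_eq_span_pow_set, Submodule.span_eq_bot]
  intro x hx
  rw [Set.mem_pow] at hx
  obtain ⟨f, rfl⟩ := hx
  apply hN
  · simp
  · intro y hy
    rw [List.mem_ofFn] at hy
    obtain ⟨i, rfl⟩ := hy
    exact (f i).2

/-- `∑ aᵢ x bᵢ` is central when `x ∈ ε𝔅ε` commutes with `ε𝔅ε`. -/
theorem k2_central {n : ℕ} (ε : 𝔅) (a b : Fin n → 𝔅) (hε : ε * ε = ε)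
    (hab : ∑ i, a i * ε * b i = 1) (x : 𝔅) (h1 : ε * x = x) (h2 : x * ε = x)
    (hc : ∀ y, ε * y = y → y * ε = y → x * y = y * x) (y : 𝔅) :
    (∑ i, a i * x * b i) * y = y * ∑ i, a i * x * b i := by
  have e1 : (∑ i, a i * x * b i) * y = ∑ l, ∑ i, a l * x * b l * y * (a i * ε * b i) := by
    calc (∑ i, a i * x * b i) * y
        = (∑ l, a l * x * b l) * y * (∑ i, a i * ε * b i) := by rw [hab, mul_one]
      _ = _ := by
        rw [Finset.sum_mul, Finset.sum_mul]
        refine Finset.sum_congr rfl fun l _ => ?_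
        rw [Finset.mul_sum]
  have e2 : y * ∑ i, a i * x * b i = ∑ l, ∑ i, a l * ε * b l * y * (a i * x * b i) := by
    calc y * ∑ i, a i * x * b i
        = (∑ l, a l * ε * b l) * y * (∑ i, a i * x * b i) := by rw [hab, one_mul]
      _ = _ := by
        rw [Finset.sum_mul, Finset.sum_mul]
        refine Finset.sum_congr rfl fun l _ => ?_
        rw [Finset.mul_sum]
  rw [e1, e2]
  refine Finset.sum_congr rfl fun l _ => Finset.sum_congr rfl fun i _ => ?_
  have hX1 : ε * (ε * b l * y * a i * ε) = ε * b l * y * a i * ε := by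
    simp only [← mul_assoc, hε]
  have hX2 : (ε * b l * y * a i * ε) * ε = ε * b l * y * a i * ε := by
    simp only [mul_assoc, hε]
  have hcX := hc _ hX1 hX2
  have lhs : a l * x * b l * y * (a i * ε * b i) = a l * (x * (ε * b l * y * a i * ε)) * b i := by
    have h : a l * (x * ε) * b l * y * (a i * ε * b i)
        = a l * (x * (ε * b l * y * a i * ε)) * b i := by
      simp only [mul_assoc]
    rwa [h2] at h
  have rhs : a l * ε * b l * y * (a i * x * b i) = a l * ((ε * b l * y * a i * ε) * x) * b i := by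
    have h : a l * ε * b l * y * (a i * (ε * x) * b i)
        = a l * ((ε * b l * y * a i * ε) * x) * b i := by
      simp only [mul_assoc]
    rwa [h1] at h
  rw [lhs, rhs, hcX]

/-- `(∑ aᵢ x bᵢ) ε = x` when `x ∈ ε𝔅ε` commutes with `ε𝔅ε`. -/
theorem k2_central_mul {n : ℕ} (ε : 𝔅) (a b : Fin n → 𝔅) (hε : ε * ε = ε)
    (hab : ∑ i, a i * ε * b i = 1) (x : 𝔅) (h1 : ε * x = x) (h2 : x * ε = x)
    (hc : ∀ y, ε * y = y → y * ε = y → x * y = y * x) :
    (∑ i, a i * x * b i) * ε = x := by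
  have hz := k2_central ε a b hε hab x h1 h2 hc ε
  have e1 : (∑ i, a i * x * b i) * ε = ε * (∑ i, a i * x * b i) * ε := by
    rw [← hz, mul_assoc, hε]
  rw [e1, Finset.mul_sum, Finset.sum_mul]
  have e2 : ∀ i, ε * (a i * x * b i) * ε = x * (ε * (a i * ε * b i) * ε) := by
    intro i
    have hX1 : ε * (ε * a i * ε) = ε * a i * ε := by simp only [← mul_assoc, hε]
    have hX2 : (ε * a i * ε) * ε = ε * a i * ε := by simp only [mul_assoc, hε]
    have hcX := hc _ hX1 hX2
    have h : ε * (a i * (ε * x) * b i) * ε = ((ε * a i * ε) * x) * b i * ε := by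
      simp only [mul_assoc]
    rw [h1] at h
    rw [h, ← hcX]
    simp only [mul_assoc]
  rw [Finset.sum_congr rfl fun i _ => e2 i, ← Finset.mul_sum, ← Finset.sum_mul, ← Finset.mul_sum,
    hab, mul_one, hε, h2]

end K2B2b2

/-- PIECE B2b2 of CALL S4607: `J² = 0`. -/
theorem k2_radical_sq_zero {k : Type v} [Field k] {𝔅 : Type u} [Ring 𝔅] [Algebra k 𝔅]
    [FiniteDimensional k 𝔅]
    (hZ : ∀ v : Fin 3 → 𝔅, (∀ i a, v i * a = a * v i) → ¬ LinearIndependent k v)
    (n : ℕ) (hn : 0 < n) (g : 𝔅 →ₐ[k] Matrix (Fin n) (Fin n) k)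
    (N : ℕ) (hN : ∀ l : List 𝔅, l.length = N → (∀ x ∈ l, g x = 0) → l.prod = 0)
    (ε : 𝔅) (a b : Fin n → 𝔅) (hε : ε * ε = ε)
    (hgε : g ε = Matrix.single (⟨0, hn⟩ : Fin n) (⟨0, hn⟩ : Fin n) (1 : k))
    (hab : ∑ i, a i * ε * b i = 1)
    (hcodim : ∀ x : Fin 3 → 𝔅, (∀ i, ε * x i = x i ∧ x i * ε = x i) →
      ∃ c : Fin 3 → k, c ≠ 0 ∧ ∑ i, c i • x i ∈ Submodule.span k
        {w : 𝔅 | ∃ s t : 𝔅, (ε * s = s ∧ s * ε = s ∧ g s = 0) ∧
          (ε * t = t ∧ t * ε = t ∧ g t = 0) ∧ w = s * t}) :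
    ∀ x y, g x = 0 → g y = 0 → x * y = 0 := by
  classical
  set J := k2J g ε with hJ
  -- strengthen `hN`
  have hN' : ∀ l : List 𝔅, l.length = N + 2 → (∀ x ∈ l, g x = 0) → l.prod = 0 := by
    intro l hl hx
    rw [← List.take_append_drop N l, List.prod_append,
      hN (l.take N) (by simp [hl]) (fun x hx' => hx x (List.mem_of_mem_take hx')), zero_mul]
  have hW : Submodule.span k {w : 𝔅 | ∃ s t : 𝔅, (ε * s = s ∧ s * ε = s ∧ g s = 0) ∧
      (ε * t = t ∧ t * ε = t ∧ g t = 0) ∧ w = s * t} ≤ J * J := by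
    rw [Submodule.span_le]
    rintro w ⟨s, t, hs, ht, rfl⟩
    exact Submodule.mul_mem_mul hs ht
  have hJJ : J * J ≤ J := k2J_mul_le g ε
  have hgE : ∀ c : k, c • g ε = 0 → c = 0 := by
    intro c h
    rw [hgε] at h
    have := congrFun (congrFun h ⟨0, hn⟩) ⟨0, hn⟩
    simpa using this
  -- `dim J / J² ≤ 1`
  have hdim : ∀ u1 ∈ J, ∀ u2 ∈ J, ∃ c1 c2 : k, (c1 ≠ 0 ∨ c2 ≠ 0) ∧ c1 • u1 + c2 • u2 ∈ J * J := by
    intro u1 h1 u2 h2
    obtain ⟨c, hc0, hc⟩ := hcodim ![ε, u1, u2] (by
      intro i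
      fin_cases i
      · exact ⟨hε, hε⟩
      · exact ⟨h1.1, h1.2.1⟩
      · exact ⟨h2.1, h2.2.1⟩)
    have hc' := hW hc
    rw [Fin.sum_univ_three] at hc'
    simp only [Matrix.cons_val_zero, Matrix.cons_val_one, Matrix.cons_val_two,
      Matrix.head_cons, Matrix.tail_cons] at hc'
    have hg0 : g (c 0 • ε + c 1 • u1 + c 2 • u2) = 0 := (hJJ hc').2.2
    rw [map_add, map_add, map_smul, map_smul, map_smul, h1.2.2, h2.2.2, smul_zero, smul_zero,
      add_zero, add_zero] at hg0
    have hc00 : c 0 = 0 := hgE _ hg0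
    refine ⟨c 1, c 2, ?_, ?_⟩
    · by_contra hcon
      push Not at hcon
      apply hc0
      funext i
      fin_cases i
      · exact hc00
      · exact hcon.1
      · exact hcon.2
    · rw [hc00, zero_smul, zero_add] at hc'
      exact hc'
  -- a generator `u` of `J` modulo `J²`
  obtain ⟨u, huJ, hu⟩ : ∃ u ∈ J, J ≤ Submodule.span k {u} ⊔ J * J := by
    by_cases hle : J ≤ J * J
    · exact ⟨0, J.zero_mem, le_trans hle le_sup_right⟩
    · obtain ⟨u, huJ, huW⟩ := SetLike.not_le_iff_exists.mp hle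
      refine ⟨u, huJ, fun x hx => ?_⟩
      obtain ⟨c1, c2, hc, hmem⟩ := hdim u huJ x hx
      have hc2 : c2 ≠ 0 := by
        intro h0
        rw [h0, zero_smul, add_zero] at hmem
        have hc1 : c1 ≠ 0 := hc.resolve_right (by simp [h0])
        apply huW
        have := (J * J).smul_mem c1⁻¹ hmem
        rwa [smul_smul, inv_mul_cancel₀ hc1, one_smul] at this
      have hx' : x = (-(c2⁻¹ * c1)) • u + c2⁻¹ • (c1 • u + c2 • x) := by
        rw [smul_add, smul_smul, smul_smul, inv_mul_cancel₀ hc2, one_smul, neg_smul]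
        abel
      rw [hx']
      exact Submodule.add_mem_sup (Submodule.smul_mem _ _ (Submodule.mem_span_singleton_self u))
        ((J * J).smul_mem _ hmem)
  -- the span `X` of the positive powers of `u`
  set X : Submodule k 𝔅 := Submodule.span k (Set.range fun i : ℕ => u ^ (i + 1)) with hXdef
  have hupow : ∀ i : ℕ, u ^ (i + 1) ∈ J := by
    intro i
    induction i with
    | zero => simpa using huJ
    | succ i ih =>
      rw [pow_succ]
      exact hJJ (Submodule.mul_mem_mul ih huJ)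
  have hXJ : X ≤ J := by
    rw [hXdef, Submodule.span_le]
    rintro _ ⟨i, rfl⟩
    exact hupow i
  have hXX : X * X ≤ X := by
    rw [hXdef, Submodule.span_mul_span, Submodule.span_le]
    rintro _ ⟨_, ⟨i, rfl⟩, _, ⟨j, rfl⟩, rfl⟩
    apply Submodule.subset_span
    refine ⟨i + j + 1, ?_⟩
    show u ^ (i + j + 1 + 1) = u ^ (i + 1) * u ^ (j + 1)
    rw [← pow_add]
    congr 1
    omega
  have huX : Submodule.span k {u} ≤ X := by
    rw [Submodule.span_le, Set.singleton_subset_iff]
    exact Submodule.subset_span ⟨0, by simp⟩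
  have hJbot : J ^ (N + 2) = ⊥ :=
    k2_pow_eq_bot J (N + 2) (fun l hl hx => hN' l hl (fun x hx' => (hx x hx').2.2))
  have hJX : J ≤ X := by
    have h1 := k2_nakayama J X hJJ hXJ hXX (le_trans hu (sup_le_sup_right huX _)) N
    rwa [hJbot, sup_bot_eq] at h1
  -- `u` commutes with `J` and with `ε𝔅ε`
  have hcommJ : ∀ x ∈ J, u * x = x * u := by
    intro x hx
    have hxX : x ∈ Submodule.span k (Set.range fun i : ℕ => u ^ (i + 1)) := hJX hx
    refine Submodule.span_induction (p := fun x _ => u * x = x * u) ?_ ?_ ?_ ?_ hxX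
    · rintro _ ⟨i, rfl⟩
      show u * u ^ (i + 1) = u ^ (i + 1) * u
      rw [← pow_succ', ← pow_succ]
    · simp
    · intro y z _ _ hy hz
      rw [mul_add, add_mul, hy, hz]
    · intro c y _ hy
      rw [mul_smul_comm, smul_mul_assoc, hy]
  have hdecomp : ∀ x, ε * x = x → x * ε = x → ∃ c : k, x - c • ε ∈ J := by
    intro x h1 h2
    refine ⟨g x ⟨0, hn⟩ ⟨0, hn⟩, ?_, ?_, ?_⟩
    · rw [mul_sub, mul_smul_comm, h1, hε]
    · rw [sub_mul, smul_mul_assoc, h2, hε]
    · have hx : g x = g ε * g x * g ε := by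
        rw [← map_mul, ← map_mul, h1, h2]
      rw [map_sub, map_smul, hgε]
      rw [hgε, Matrix.single_mul_mul_single] at hx
      rw [hx]
      simp [Matrix.smul_single]
  have hcommA : ∀ y, ε * y = y → y * ε = y → u * y = y * u := by
    intro y h1 h2
    obtain ⟨c, hc⟩ := hdecomp y h1 h2
    have h3 := hcommJ _ hc
    rw [mul_sub, sub_mul, mul_smul_comm, smul_mul_assoc, huJ.1, huJ.2.1] at h3
    exact sub_left_injective h3
  have hcommA2 : ∀ y, ε * y = y → y * ε = y → (u * u) * y = y * (u * u) := by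
    intro y h1 h2
    rw [mul_assoc, hcommA y h1 h2, ← mul_assoc, hcommA y h1 h2, mul_assoc]
  have huu1 : ε * (u * u) = u * u := by rw [← mul_assoc, huJ.1]
  have huu2 : (u * u) * ε = u * u := by rw [mul_assoc, huJ.2.1]
  -- nilpotency of `u`
  have hunil : u ^ (N + 2) = 0 := by
    have := hN' (List.replicate (N + 2) u) (by simp) (fun x hx => by
      rw [List.eq_of_mem_replicate hx]; exact huJ.2.2)
    rwa [List.prod_replicate] at this
  -- the three central elements
  have huu : u * u = 0 := by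
    have hnli := hZ ![1, ∑ i, a i * u * b i, ∑ i, a i * (u * u) * b i] (by
      intro i y
      fin_cases i
      · show 1 * y = y * 1
        rw [one_mul, mul_one]
      · exact k2_central ε a b hε hab u huJ.1 huJ.2.1 hcommA y
      · exact k2_central ε a b hε hab (u * u) huu1 huu2 hcommA2 y)
    rw [Fintype.not_linearIndependent_iff] at hnli
    obtain ⟨c, hsum, hne⟩ := hnli
    rw [Fin.sum_univ_three] at hsum
    simp only [Matrix.cons_val_zero, Matrix.cons_val_one, Matrix.cons_val_two,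
      Matrix.head_cons, Matrix.tail_cons] at hsum
    have hsum2 : c 0 • ε + c 1 • u + c 2 • (u * u) = 0 := by
      have := congrArg (fun t => t * ε) hsum
      simp only [add_mul, smul_mul_assoc, one_mul, zero_mul] at this
      rwa [k2_central_mul ε a b hε hab u huJ.1 huJ.2.1 hcommA,
        k2_central_mul ε a b hε hab (u * u) huu1 huu2 hcommA2] at this
    have hc0 : c 0 = 0 := by
      have := congrArg g hsum2
      rw [map_add, map_add, map_smul, map_smul, map_smul, map_mul, huJ.2.2, mul_zero, smul_zero,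
        smul_zero, add_zero, add_zero, map_zero] at this
      exact hgE _ this
    rw [hc0, zero_smul, zero_add] at hsum2
    by_cases hc1 : c 1 = 0
    · rw [hc1, zero_smul, zero_add] at hsum2
      have hc2 : c 2 ≠ 0 := by
        obtain ⟨i, hi⟩ := hne
        fin_cases i
        · exact absurd hc0 hi
        · exact absurd hc1 hi
        · exact hi
      exact (smul_eq_zero.mp hsum2).resolve_left hc2
    · -- `u = d • u²`, hence `u = 0`
      have hu1 : u = (-((c 1)⁻¹ * c 2)) • (u * u) := by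
        have h1 : c 1 • u = -(c 2 • (u * u)) := eq_neg_of_add_eq_zero_left hsum2
        calc u = (c 1)⁻¹ • (c 1 • u) := by rw [smul_smul, inv_mul_cancel₀ hc1, one_smul]
          _ = (c 1)⁻¹ • (-(c 2 • (u * u))) := by rw [h1]
          _ = _ := by rw [smul_neg, smul_smul, neg_smul]
      have hall : ∀ m : ℕ, u = (-((c 1)⁻¹ * c 2)) ^ m • u ^ (m + 1) := by
        intro m
        induction m with
        | zero => simp
        | succ m ih =>
          have h3 : u * u = (-((c 1)⁻¹ * c 2)) ^ m • u ^ (m + 2) := by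
            calc u * u = ((-((c 1)⁻¹ * c 2)) ^ m • u ^ (m + 1)) * u := by rw [← ih]
              _ = (-((c 1)⁻¹ * c 2)) ^ m • u ^ (m + 2) := by rw [smul_mul_assoc, ← pow_succ]
          calc u = (-((c 1)⁻¹ * c 2)) • (u * u) := hu1
            _ = (-((c 1)⁻¹ * c 2)) • ((-((c 1)⁻¹ * c 2)) ^ m • u ^ (m + 2)) := by rw [h3]
            _ = (-((c 1)⁻¹ * c 2)) ^ (m + 1) • u ^ (m + 1 + 1) := by rw [smul_smul, ← pow_succ']
      have hu0 : u = 0 := by
        rw [hall (N + 1), hunil, smul_zero]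
      rw [hu0, mul_zero]
  -- `J² = 0`
  have hJJbot : J * J = ⊥ := by
    rw [eq_bot_iff]
    refine le_trans (mul_le_mul' hJX hJX) ?_
    rw [hXdef, Submodule.span_mul_span, Submodule.span_le]
    rintro _ ⟨_, ⟨i, rfl⟩, _, ⟨j, rfl⟩, rfl⟩
    show u ^ (i + 1) * u ^ (j + 1) ∈ (⊥ : Submodule k 𝔅)
    rw [Submodule.mem_bot, pow_succ, pow_succ', mul_assoc, ← mul_assoc u u, huu, zero_mul, mul_zero]
  -- conclusion
  intro x y hx hy
  have hmemJ : ∀ p q z : 𝔅, g z = 0 → ε * p * z * q * ε ∈ J := by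
    intro p q z hz
    refine ⟨by simp only [← mul_assoc, hε], by simp only [mul_assoc, hε], ?_⟩
    simp only [map_mul, hz, mul_zero, zero_mul]
  have hterm : ∀ i l, ε * b i * x * y * a l * ε = 0 := by
    intro i l
    have h1 : ε * b i * x * y * a l * ε
        = ∑ m, (ε * b i * x * a m * ε) * (ε * b m * y * a l * ε) := by
      calc ε * b i * x * y * a l * ε
          = ε * b i * x * (∑ m, a m * ε * b m) * y * a l * ε := by rw [hab, mul_one]
        _ = ∑ m, ε * b i * x * (a m * ε * b m) * y * a l * ε := by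
            simp only [Finset.mul_sum, Finset.sum_mul]
        _ = _ := by
            refine Finset.sum_congr rfl fun m _ => ?_
            have h : ε * b i * x * (a m * (ε * ε) * b m) * y * a l * ε
                = ε * b i * x * a m * ε * (ε * b m * y * a l * ε) := by
              simp only [mul_assoc]
            rwa [hε] at h
    rw [h1]
    refine Finset.sum_eq_zero fun m _ => ?_
    have h2 := Submodule.mul_mem_mul (hmemJ (b i) (a m) x hx) (hmemJ (b m) (a l) y hy)
    rw [hJJbot, Submodule.mem_bot] at h2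
    exact h2
  calc x * y = (∑ i, a i * ε * b i) * (x * y) * (∑ l, a l * ε * b l) := by
        rw [hab, one_mul, mul_one]
    _ = ∑ i, ∑ l, a i * (ε * b i * x * y * a l * ε) * b l := by
        rw [Finset.sum_mul, Finset.sum_mul]
        refine Finset.sum_congr rfl fun i _ => ?_
        rw [Finset.mul_sum]
        refine Finset.sum_congr rfl fun l _ => ?_
        simp only [mul_assoc]
    _ = 0 := by
        refine Finset.sum_eq_zero fun i _ => Finset.sum_eq_zero fun l _ => ?_
        rw [hterm, mul_zero, zero_mul]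

end Cfsg.Agent.Helper52
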