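import Cfsg.Agent.Helper71.McLDefs

/-!
# PIECE C of CALL S5075 (McLaughlin): extension of a full block by a centre
-/

set_option autoImplicit false
open Module Cfsg.Agent.Helper71.McL

namespace Cfsg.Agent.Helper52.McL

variable {F V : Type*} [Field F] [AddCommGroup V] [Module F V]

/-- Private copy of the basic exchange lemma: a functional with centre `v` vanishing at an
opposite centre `w` also has centre `w`. -/
theorem mclC_lemA (S : TSys F V) {φ ψ : Dual F V} {v w : V} (h1 : S.Θ φ v) (h2 : S.Θ ψ w)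
    (hφw : φ w = 0) (hψv : ψ v ≠ 0) : S.Θ φ w := by
  have h3 := S.conj h1 h2
  rw [hφw, zero_smul, sub_zero] at h3
  have h4 := S.add_right (S.smul_right (-1) h1) h3
  have h5 : (-1 : F) • v + (v + ψ v • w) = ψ v • w := by rw [neg_one_smul]; abel
  rw [h5] at h4
  have h6 := S.smul_right (ψ v)⁻¹ h4
  rwa [smul_smul, inv_mul_cancel₀ hψv, one_smul] at h6

/-- A functional vanishes at a nonzero vector of a subspace of dimension at least two. -/
theorem mclC_exists_ker [Module.Finite F V] (Q : Submodule F V) (hQ2 : 2 ≤ finrank F Q)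
    (χ : Dual F V) : ∃ x ∈ Q, x ≠ 0 ∧ χ x = 0 := by
  obtain ⟨f, hf⟩ : ∃ f : Q →ₗ[F] F, ∀ z : Q, f z = χ z.1 := ⟨χ.comp Q.subtype, fun z => rfl⟩
  have h1 := LinearMap.finrank_range_add_finrank_ker f
  have h2 : finrank F (LinearMap.range f) ≤ 1 := by
    have := Submodule.finrank_le (LinearMap.range f)
    rwa [Module.finrank_self] at this
  have h3 : 0 < finrank F (LinearMap.ker f) := by omega
  obtain ⟨z, hz⟩ := Module.finrank_pos_iff_exists_ne_zero.mp h3
  refine ⟨z.1.1, z.1.2, ?_, ?_⟩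
  · intro h0
    apply hz
    apply Subtype.ext
    apply Subtype.ext
    simpa using h0
  · have h4 := z.2
    rw [LinearMap.mem_ker, hf] at h4
    exact h4

/-- A functional with a prescribed value at a nonzero vector. -/
theorem mclC_exists_dual (q : V) (hq : q ≠ 0) (c : F) : ∃ χ : Dual F V, χ q = c := by
  obtain ⟨φ, hφ⟩ : ∃ φ : Dual F V, φ q ≠ 0 := by
    by_contra hcon
    push Not at hcon
    exact hq ((Module.forall_dual_apply_eq_zero_iff F q).mp hcon)
  exact ⟨(c / φ q) • φ, by rw [LinearMap.smul_apply, smul_eq_mul, div_mul_cancel₀ c hφ]⟩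

/-- A functional vanishing at `x` and not at a vector outside the line of `x`. -/
theorem mclC_exists_sep (x x₀ : V) (h : x₀ ∉ Submodule.span F {x}) :
    ∃ χ : Dual F V, χ x = 0 ∧ χ x₀ ≠ 0 := by
  have hne : (Submodule.span F {x}).mkQ x₀ ≠ 0 := by
    rw [Submodule.mkQ_apply, Ne, Submodule.Quotient.mk_eq_zero]
    exact h
  obtain ⟨φ, hφ⟩ : ∃ φ : Dual F (V ⧸ Submodule.span F {x}),
      φ ((Submodule.span F {x}).mkQ x₀) ≠ 0 := by
    by_contra hcon
    push Not at hcon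
    exact hne ((Module.forall_dual_apply_eq_zero_iff F _).mp hcon)
  refine ⟨φ.comp (Submodule.span F {x}).mkQ, ?_, hφ⟩
  rw [LinearMap.comp_apply]
  have h0 : (Submodule.span F {x}).mkQ x = 0 := by
    rw [Submodule.mkQ_apply, Submodule.Quotient.mk_eq_zero]
    exact Submodule.mem_span_singleton_self x
  rw [h0, map_zero]

/-- PIECE C of CALL S5075. -/
theorem full_extend [Module.Finite F V] (S : TSys F V) (hsym : S.Sym) (Q : Submodule F V)
    (hQ2 : 2 ≤ finrank F Q) (hQ : S.Full Q) (lam : Dual F V) (u x₀ : V) (hx₀ : x₀ ∈ Q)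
    (hx₀0 : x₀ ≠ 0) (hlam : S.Θ lam x₀) (hlamQ : ∀ q ∈ Q, lam q = 0) (hu : S.IsCenter u)
    (hlamu : lam u ≠ 0) : S.Full (Q ⊔ Submodule.span F {u}) := by
  have hlam0 : lam ≠ 0 := by
    rintro rfl
    exact hlamu rfl
  -- (1) `lam` has every nonzero vector of `Q` as a centre
  have h1 : ∀ x ∈ Q, x ≠ 0 → S.Θ lam x := by
    intro x hx hx0
    by_cases hmem : x₀ ∈ Submodule.span F {x}
    · obtain ⟨d, hd⟩ := Submodule.mem_span_singleton.mp hmem
      have hd0 : d ≠ 0 := by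
        rintro rfl
        rw [zero_smul] at hd
        exact hx₀0 hd.symm
      have hx' : x = d⁻¹ • x₀ := by rw [← hd, smul_smul, inv_mul_cancel₀ hd0, one_smul]
      rw [hx']
      exact S.smul_right _ hlam
    · obtain ⟨χ, hχx, hχx₀⟩ := mclC_exists_sep x x₀ hmem
      obtain ⟨ψ, hψ, hψQ⟩ := hQ x hx hx0 χ hχx
      exact mclC_lemA S hlam hψ (hlamQ x hx) (by rw [hψQ x₀ hx₀]; exact hχx₀)
  -- (2) exchange from a vector of `Q` to `u`
  have h2 : ∀ x ∈ Q, x ≠ 0 → ∀ φ : Dual F V, S.Θ φ x → φ u = 0 → S.Θ φ u := by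
    intro x hx hx0 φ hφ hφu
    have hxc : S.IsCenter x := ⟨hx0, lam, hlam0, h1 x hx hx0⟩
    have hopp : S.Opp x u := ⟨lam, h1 x hx hx0, hlamu⟩
    obtain ⟨ψ, hψ, hψx⟩ := hsym x u hxc hu hopp
    exact mclC_lemA S hφ hψ hφu hψx
  -- (3) functionals with centre `u` realise every functional on `Q`
  have h3 : ∀ χ : Dual F V, ∃ φ : Dual F V, S.Θ φ u ∧ ∀ q ∈ Q, φ q = χ q := by
    intro χ
    obtain ⟨x, hx, hx0, hχx⟩ := mclC_exists_ker Q hQ2 χ
    obtain ⟨φ1, hφ1, hφ1Q⟩ := hQ x hx hx0 χ hχx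
    refine ⟨φ1 - (φ1 u / lam u) • lam, ?_, ?_⟩
    · apply h2 x hx hx0
      · have h := S.add_left hφ1 (S.smul_left (-(φ1 u / lam u)) (h1 x hx hx0))
        have e : φ1 - (φ1 u / lam u) • lam = φ1 + (-(φ1 u / lam u)) • lam := by module
        rw [e]
        exact h
      · rw [LinearMap.sub_apply, LinearMap.smul_apply, smul_eq_mul, div_mul_cancel₀ _ hlamu,
          sub_self]
    · intro q hq
      rw [LinearMap.sub_apply, LinearMap.smul_apply, hlamQ q hq, smul_zero, sub_zero, hφ1Q q hq]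
  -- agreement on `Q` and at `u` gives agreement on `Q ⊔ span {u}`
  have hext : ∀ φ χ : Dual F V, (∀ q ∈ Q, φ q = χ q) → φ u = χ u →
      ∀ y ∈ Q ⊔ Submodule.span F {u}, φ y = χ y := by
    intro φ χ hQeq hueq y hy
    obtain ⟨q, hq, z, hz, rfl⟩ := Submodule.mem_sup.mp hy
    obtain ⟨c, rfl⟩ := Submodule.mem_span_singleton.mp hz
    rw [map_add, map_add, map_smul, map_smul, hQeq q hq, hueq]
  -- the case of a centre in `Q`
  have h4 : ∀ q ∈ Q, q ≠ 0 → ∀ χ : Dual F V, χ q = 0 →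
      ∃ φ : Dual F V, S.Θ φ q ∧ (∀ q' ∈ Q, φ q' = χ q') ∧ φ u = χ u := by
    intro q hq hq0 χ hχq
    obtain ⟨φ1, hφ1, hφ1Q⟩ := hQ q hq hq0 χ hχq
    refine ⟨φ1 + ((χ u - φ1 u) / lam u) • lam,
      S.add_left hφ1 (S.smul_left _ (h1 q hq hq0)), ?_, ?_⟩
    · intro q' hq'
      rw [LinearMap.add_apply, LinearMap.smul_apply, hlamQ q' hq', smul_zero, add_zero,
        hφ1Q q' hq']
    · rw [LinearMap.add_apply, LinearMap.smul_apply, smul_eq_mul, div_mul_cancel₀ _ hlamu]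
      ring
  intro y hy hy0 χ hχy
  obtain ⟨q, hq, z, hz, rfl⟩ := Submodule.mem_sup.mp hy
  obtain ⟨c, rfl⟩ := Submodule.mem_span_singleton.mp hz
  by_cases hc : c = 0
  · subst hc
    rw [zero_smul, add_zero] at hy0 hχy ⊢
    obtain ⟨φ, hφ, hφQ, hφu⟩ := h4 q hq hy0 χ hχy
    exact ⟨φ, hφ, hext φ χ hφQ hφu⟩
  by_cases hq0 : q = 0
  · subst hq0
    rw [zero_add] at hy0 hχy ⊢
    have hχu : χ u = 0 := by
      rw [map_smul, smul_eq_mul] at hχy
      exact (mul_eq_zero.mp hχy).resolve_left hc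
    obtain ⟨φ, hφ, hφQ⟩ := h3 χ
    exact ⟨φ, S.smul_right c hφ, hext φ χ hφQ (by rw [S.vanish hφ, hχu])⟩
  · obtain ⟨χ', hχ'⟩ := mclC_exists_dual q hq0 c
    obtain ⟨ψ', hψ', hψ'Q⟩ := h3 χ'
    have hψ'q : ψ' q = c := by rw [hψ'Q q hq, hχ']
    have hψ'u : ψ' u = 0 := S.vanish hψ'
    have hχ''q : (χ + χ u • ψ') q = 0 := by
      rw [LinearMap.add_apply, LinearMap.smul_apply, hψ'q, smul_eq_mul]
      rw [map_add, map_smul, smul_eq_mul] at hχy
      linear_combination hχy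
    obtain ⟨φ0, hφ0, hφ0Q, hφ0u⟩ := h4 q hq hq0 (χ + χ u • ψ') hχ''q
    have hφ0u' : φ0 u = χ u := by
      rw [hφ0u, LinearMap.add_apply, LinearMap.smul_apply, hψ'u, smul_zero, add_zero]
    have hconj := S.conj hφ0 hψ'
    rw [hψ'q] at hconj
    refine ⟨φ0 - φ0 u • ψ', hconj, ?_⟩
    apply hext
    · intro q' hq'
      rw [LinearMap.sub_apply, LinearMap.smul_apply, hφ0Q q' hq', LinearMap.add_apply,
        LinearMap.smul_apply, hφ0u']
      simp only [smul_eq_mul]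
      ring
    · rw [LinearMap.sub_apply, LinearMap.smul_apply, hψ'u, smul_zero, sub_zero, hφ0u']

end Cfsg.Agent.Helper52.McL
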