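import Cfsg.Agent.Helper71.McLGDefs
import Cfsg.Agent.Helper60.SLTv

/-!
# S5075 batch 2, piece Y: the image of `HW H W` in `GL(W)` is `SL(W)`.
-/

set_option autoImplicit false

namespace Cfsg.Agent.Helper52.McL

open Module Cfsg.Agent.Helper71.McL

variable {p : ℕ} [Fact p.Prime] {V : Type*} [AddCommGroup V] [Module (ZMod p) V]

theorem range_sl [Finite V] (H : Subgroup (V ≃ₗ[ZMod p] V)) (W : Submodule (ZMod p) V)
    (h2 : 2 ≤ finrank (ZMod p) ↥W) (hc : IsCompl W (FixG (HW H W)))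
    (hsl : ∀ v ∈ W, ∀ φ : Dual (ZMod p) V, φ v = 0 → (∀ c ∈ FixG (HW H W), φ c = 0) →
      TV (HW H W) φ v)
    (ρ : ↥(HW H W) →* (↥W ≃ₗ[ZMod p] ↥W))
    (hρ : ∀ (h : ↥(HW H W)) (v : ↥W), ((ρ h v : ↥W) : V) = (h : V ≃ₗ[ZMod p] V) (v : V)) :
    (ρ.range : Set (↥W ≃ₗ[ZMod p] ↥W)) =
      {f : ↥W ≃ₗ[ZMod p] ↥W | LinearMap.det (f : ↥W →ₗ[ZMod p] ↥W) = 1} := by
  classical
  have : Module.Finite (ZMod p) V := Module.Finite.of_finite
  apply Set.Subset.antisymm
  · rintro f ⟨h, rfl⟩
    obtain ⟨g, hg⟩ := h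
    have key : ∀ (g : V ≃ₗ[ZMod p] V) (hg : g ∈ HW H W),
        LinearEquiv.det (ρ ⟨g, hg⟩) = 1 := by
      intro g hg
      unfold HW at hg
      induction hg using Subgroup.closure_induction with
      | mem x hx =>
        obtain ⟨hxH, φ, v, hv, hφv, hx⟩ := hx
        have h0 : (φ.comp W.subtype) (⟨v, hv⟩ : ↥W) = 0 := hφv
        have heq : ρ ⟨x, Subgroup.subset_closure ⟨hxH, φ, v, hv, hφv, hx⟩⟩ =
            LinearEquiv.transvection h0 := by
          apply LinearEquiv.ext
          intro w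
          apply Subtype.ext
          rw [hρ, LinearEquiv.transvection.apply]
          exact hx w
        rw [heq]
        exact LinearEquiv.transvection.det_eq_one h0
      | one =>
        have : (⟨1, Subgroup.one_mem _⟩ : ↥(HW H W)) = 1 := rfl
        change LinearEquiv.det (ρ ⟨1, _⟩) = 1
        rw [this, map_one, map_one]
      | mul x y hx hy ihx ihy =>
        have : (⟨x * y, Subgroup.mul_mem _ hx hy⟩ : ↥(HW H W)) = ⟨x, hx⟩ * ⟨y, hy⟩ := rfl
        change LinearEquiv.det (ρ ⟨x * y, _⟩) = 1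
        rw [this, map_mul, map_mul, ihx, ihy, one_mul]
      | inv x hx ihx =>
        have : (⟨x⁻¹, Subgroup.inv_mem _ hx⟩ : ↥(HW H W)) = ⟨x, hx⟩⁻¹ := rfl
        change LinearEquiv.det (ρ ⟨x⁻¹, _⟩) = 1
        rw [this, map_inv, map_inv, ihx, inv_one]
    have h1 := key g hg
    change LinearMap.det ((ρ ⟨g, hg⟩ : ↥W ≃ₗ[ZMod p] ↥W) : ↥W →ₗ[ZMod p] ↥W) = 1
    rw [← LinearEquiv.coe_det, h1, Units.val_one]
  · intro f hf
    have hf' : LinearEquiv.det f = 1 := by
      apply Units.ext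
      rw [LinearEquiv.coe_det, Units.val_one]
      exact hf
    let M : Subgroup (SpecialLinearGroup (ZMod p) ↥W) :=
      ρ.range.comap SpecialLinearGroup.toLinearEquiv
    have hM : M = ⊤ := by
      apply Cfsg.Agent.Helper60.MinIdx.tv_generate h2
      intro f a hfa
      let φ : Dual (ZMod p) V := f.comp (W.projectionOnto (FixG (HW H W)) hc)
      have hφa : φ (a : V) = 0 := by
        change f (W.projectionOnto (FixG (HW H W)) hc (a : V)) = 0
        rw [Submodule.projectionOnto_apply_left]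
        exact hfa
      have hφc : ∀ c ∈ FixG (HW H W), φ c = 0 := by
        intro c hcm
        change f (W.projectionOnto (FixG (HW H W)) hc c) = 0
        rw [Submodule.projectionOnto_apply_of_mem_right hc hcm, map_zero]
      obtain ⟨-, k, hk, hkx⟩ := hsl (a : V) a.2 φ hφa hφc
      change SpecialLinearGroup.toLinearEquiv (Cfsg.Agent.Helper60.MinIdx.tv f a) ∈ ρ.range
      refine ⟨⟨k, hk⟩, ?_⟩
      apply LinearEquiv.ext
      intro w
      apply Subtype.ext
      rw [hρ]
      change k (w : V) = ((Cfsg.Agent.Helper60.MinIdx.tv f a w : ↥W) : V)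
      rw [Cfsg.Agent.Helper60.MinIdx.tv_apply hfa, hkx]
      have : φ (w : V) = f w := by
        change f (W.projectionOnto (FixG (HW H W)) hc (w : V)) = f w
        rw [Submodule.projectionOnto_apply_left]
      rw [this]
      rfl
    have hmem : (⟨f, hf'⟩ : SpecialLinearGroup (ZMod p) ↥W) ∈ M := by
      rw [hM]; exact Subgroup.mem_top _
    exact hmem

end Cfsg.Agent.Helper52.McL
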