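import Cfsg.Agent.Helper55.N9Defs

/-!
# CALL S4409 (helper55): small shared lemmas for the pieces of helper52.
-/

set_option autoImplicit false

namespace Cfsg.Agent.Helper52.N9

open Subgroup Cfsg.Agent.Helper55.N9
open scoped commutatorElement

variable {G : Type*} [Group G]

theorem aux_sqs_le (D : Subgroup G) : sqs D ≤ D := by
  rw [sqs, closure_le]
  rintro g ⟨x, hx, rfl⟩
  exact pow_mem hx 2

theorem aux_sqs_norm (D K : Subgroup G) (hinv : K ≤ normalizer (D : Set G)) :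
    K ≤ normalizer ((sqs D : Subgroup G) : Set G) := by
  rw [sqs, le_normalizer_closure_iff]
  rintro k hk g ⟨x, hx, rfl⟩
  apply Subgroup.subset_closure
  refine ⟨k * x * k⁻¹, (le_normalizer_iff.1 hinv) k hk x hx, ?_⟩
  simp only [pow_two]
  group

theorem aux_comm_norm (D K : Subgroup G) (hinv : K ≤ normalizer (D : Set G)) :
    K ≤ normalizer ((⁅D, D⁆ : Subgroup G) : Set G) := by
  rw [Subgroup.commutator_def, le_normalizer_closure_iff]
  rintro k hk g ⟨a, ha, b, hb, rfl⟩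
  apply Subgroup.subset_closure
  refine ⟨k * a * k⁻¹, le_normalizer_iff.1 hinv k hk a ha, k * b * k⁻¹,
    le_normalizer_iff.1 hinv k hk b hb, ?_⟩
  rw [commutatorElement_def, commutatorElement_def]
  group

theorem aux_inf_cent_norm (D F K : Subgroup G) (hD : K ≤ normalizer (D : Set G))
    (hF : K ≤ normalizer (F : Set G)) :
    K ≤ normalizer ((D ⊓ centralizer (F : Set G) : Subgroup G) : Set G) := by
  rw [le_normalizer_iff]
  intro k hk z hz
  have hzD : z ∈ D := hz.1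
  have hzc : z ∈ centralizer (F : Set G) := hz.2
  refine ⟨le_normalizer_iff.1 hD k hk z hzD, mem_centralizer_iff.2 ?_⟩
  intro d hd
  have hd' : k⁻¹ * d * k⁻¹⁻¹ ∈ F := le_normalizer_iff.1 hF k⁻¹ (inv_mem hk) d hd
  have h1 := (mem_centralizer_iff.1 hzc) _ hd'
  calc d * (k * z * k⁻¹) = k * ((k⁻¹ * d * k⁻¹⁻¹) * z) * k⁻¹ := by group
    _ = k * (z * (k⁻¹ * d * k⁻¹⁻¹)) * k⁻¹ := by rw [h1]
    _ = k * z * k⁻¹ * d := by group

theorem aux_zc_norm (D K : Subgroup G) (hinv : K ≤ normalizer (D : Set G)) :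
    K ≤ normalizer ((zc D : Subgroup G) : Set G) :=
  aux_inf_cent_norm D D K hinv hinv

/-- A nontrivial finite 2-subgroup has a proper subgroup containing all squares and all
commutators (a subgroup of index 2). -/
theorem aux_exists_idx2 [Finite G] (D : Subgroup G) (hD : IsPGroup 2 D) (hne : D ≠ ⊥) :
    ∃ M : Subgroup G, M ≤ D ∧ M ≠ D ∧ (∀ x ∈ D, x ^ 2 ∈ M) ∧
      (∀ a ∈ D, ∀ b ∈ D, ⁅a, b⁆ ∈ M) := by
  have : Fact (Nat.Prime 2) := ⟨Nat.prime_two⟩
  obtain ⟨n, hn⟩ := IsPGroup.iff_card.1 hD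
  have hn0 : n ≠ 0 := by
    rintro rfl
    rw [pow_zero] at hn
    exact hne (Subgroup.card_eq_one.1 hn)
  obtain ⟨M, hM⟩ := Sylow.exists_subgroup_card_pow_prime (G := ↥D) 2 (n := n - 1)
    (by rw [hn]; exact pow_dvd_pow 2 (Nat.sub_le n 1))
  have hidx : M.index = 2 := by
    have h1 := M.card_mul_index
    rw [hM, hn] at h1
    have h2 : 2 ^ n = 2 ^ (n - 1) * 2 := by
      rw [← pow_succ, Nat.sub_add_cancel (Nat.one_le_iff_ne_zero.2 hn0)]
    rw [h2] at h1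
    exact Nat.eq_of_mul_eq_mul_left (pow_pos (by norm_num) _) h1
  refine ⟨M.map D.subtype, Subgroup.map_subtype_le M, ?_, ?_, ?_⟩
  · intro h
    have hc : Nat.card (M.map D.subtype) = Nat.card M :=
      Subgroup.card_map_of_injective D.subtype_injective
    rw [h, hM, hn] at hc
    have := Nat.pow_right_injective (le_refl 2) hc
    omega
  · intro x hx
    exact ⟨⟨x, hx⟩ ^ 2, Subgroup.sq_mem_of_index_two hidx _, rfl⟩
  · intro a ha b hb
    refine ⟨⁅(⟨a, ha⟩ : D), ⟨b, hb⟩⁆, ?_, rfl⟩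
    have e : ⁅(⟨a, ha⟩ : D), ⟨b, hb⟩⁆ = ((⟨a, ha⟩ : D) * ⟨b, hb⟩) ^ 2 *
        ((⟨b, hb⟩ : D)⁻¹ * (⟨a, ha⟩ : D)⁻¹ * ⟨b, hb⟩) ^ 2 * ((⟨b, hb⟩ : D)⁻¹) ^ 2 := by
      rw [commutatorElement_def]
      simp only [pow_two]
      group
    rw [SetLike.mem_coe, e]
    exact mul_mem (mul_mem (Subgroup.sq_mem_of_index_two hidx _)
      (Subgroup.sq_mem_of_index_two hidx _)) (Subgroup.sq_mem_of_index_two hidx _)

end Cfsg.Agent.Helper52.N9
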