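import Cfsg.Agent.Helper55.N9Defs
import Cfsg.Agent.Helper52.N9Aux

/-!
# CALL S4409 (helper55), piece C2a: in the case `[X, K] = X` the squares are central.
-/

set_option autoImplicit false
set_option linter.unusedSectionVars false
set_option linter.unusedVariables false

namespace Cfsg.Agent.Helper52.N9

open Subgroup Cfsg.Agent.Helper55.N9

variable {G : Type*} [Group G] [Finite G]

theorem n9_case2_sq (T : Tools G) (X K : Subgroup G) (c : Core X K) (hXK : ⁅X, K⁆ = X)
    (hni : NoIdx2 K X)
    (hs : ∀ Y : Subgroup G, Y ≤ X → Y ≠ X → K ≤ normalizer (Y : Set G) →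
      ¬ Y ≤ centralizer (K : Set G) → MinCfg K Y ∧ (IsV4 Y ∨ IsQ8 Y)) :
    ∀ x ∈ X, x ^ 2 ∈ zc X := by
  have hne : X ≠ ⊥ := by
    intro hX
    apply c.a8
    rintro ⟨A, hA, -, hnc, h8⟩
    rw [hX, le_bot_iff] at hA
    rw [hA, Subgroup.card_bot] at h8
    omega
  obtain ⟨M, hMX, hMne, hMsq, -⟩ := aux_exists_idx2 X c.pX hne
  have hFX : sqs X ≤ X := aux_sqs_le X
  have hFM : sqs X ≤ M := by
    rw [sqs, closure_le]
    rintro g ⟨x, hx, rfl⟩
    exact hMsq x hx
  have hFne : sqs X ≠ X := by
    intro heq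
    rw [heq] at hFM
    exact hMne (le_antisymm hMX hFM)
  have hFK : K ≤ normalizer ((sqs X : Subgroup G) : Set G) := aux_sqs_norm X K c.inv
  have hFXn : X ≤ normalizer ((sqs X : Subgroup G) : Set G) := aux_sqs_norm X X le_normalizer
  have hcent : sqs X ≤ centralizer (X : Set G) := by
    by_cases hc : sqs X ≤ centralizer (K : Set G)
    · exact T.star X K (sqs X) hXK hFX hFXn hc
    · obtain ⟨hmin, hV | hQ⟩ := hs (sqs X) hFX hFne hFK hc
      · have h2 := T.autV4 (sqs X) X c.pX hV hFXn
        have hK' : K ≤ normalizer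
            ((X ⊓ centralizer ((sqs X : Subgroup G) : Set G) : Subgroup G) : Set G) :=
          aux_inf_cent_norm X (sqs X) K c.inv hFK
        have h1 : (X ⊓ centralizer ((sqs X : Subgroup G) : Set G)).relIndex X = 1 := by
          have h0 : (X ⊓ centralizer ((sqs X : Subgroup G) : Set G)).relIndex X ≠ 0 :=
            Subgroup.index_ne_zero_of_finite
          have hn2 : (X ⊓ centralizer ((sqs X : Subgroup G) : Set G)).relIndex X ≠ 2 :=
            fun h => hni _ inf_le_left h hK'
          omega
        rw [relIndex_eq_one] at h1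
        intro f hf
        rw [mem_centralizer_iff]
        intro x hx
        have h3 := (h1 hx).2
        exact (mem_centralizer_iff.1 h3 f hf).symm
      · exact (T.q8_not_sqs X c.pX hQ).elim
  intro x hx
  exact ⟨pow_mem hx 2, hcent (Subgroup.subset_closure ⟨x, hx, rfl⟩)⟩

end Cfsg.Agent.Helper52.N9
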