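import Cfsg.Agent.Helper55.N9Defs
import Cfsg.Agent.Helper52.N9Aux

/-!
# CALL S4409 (helper55), piece M4: squares and commutators of a nonabelian minimal configuration
are central.
-/

set_option autoImplicit false
set_option linter.unusedSectionVars false
set_option linter.unusedVariables false

namespace Cfsg.Agent.Helper52.N9

open Subgroup Cfsg.Agent.Helper55.N9

variable {G : Type*} [Group G] [Finite G]

theorem n9_min_sq (T : Tools G) (K D : Subgroup G) (h : MinCfg K D) (hD : IsPGroup 2 D)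
    (hK : Odd (Nat.card K))
    (hM3 : ∀ E : Subgroup G, E ≤ D → E ≠ D → D ≤ normalizer (E : Set G) →
      K ≤ normalizer (E : Set G) → E ≤ centralizer (D : Set G))
    (hna : ¬ ∀ a ∈ D, ∀ b ∈ D, a * b = b * a) :
    (∀ x ∈ D, x ^ 2 ∈ zc D) ∧ ⁅D, D⁆ ≤ zc D ∧ zc D ≤ centralizer (K : Set G) ∧ zc D ≠ D := by
  have hne : D ≠ ⊥ := by
    rintro rfl
    apply hna
    intro a ha b hb
    rw [mem_bot] at ha hb
    rw [ha, hb]
  obtain ⟨M, hMD, hMne, hMsq, hMc⟩ := aux_exists_idx2 D hD hne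
  have hsD : sqs D ≤ D := aux_sqs_le D
  have hsM : sqs D ≤ M := by
    rw [sqs, closure_le]
    rintro g ⟨x, hx, rfl⟩
    exact hMsq x hx
  have hs_ne : sqs D ≠ D := by
    intro heq
    rw [heq] at hsM
    exact hMne (le_antisymm hMD hsM)
  have hcM : ⁅D, D⁆ ≤ M := commutator_le.2 hMc
  have hc_ne : ⁅D, D⁆ ≠ D := by
    intro heq
    rw [heq] at hcM
    exact hMne (le_antisymm hMD hcM)
  have hzne : zc D ≠ D := by
    intro heq
    apply hna
    intro a ha b hb
    have ha' : a ∈ zc D := by rw [heq]; exact ha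
    exact (mem_centralizer_iff.1 ha'.2 b hb).symm
  refine ⟨?_, ?_, ?_, hzne⟩
  · intro x hx
    have h1 := hM3 (sqs D) hsD hs_ne (aux_sqs_norm D D le_normalizer) (aux_sqs_norm D K h.inv)
    exact ⟨pow_mem hx 2, h1 (Subgroup.subset_closure ⟨x, hx, rfl⟩)⟩
  · have h1 := hM3 ⁅D, D⁆ (hcM.trans hMD) hc_ne (aux_comm_norm D D le_normalizer)
      (aux_comm_norm D K h.inv)
    exact le_inf (hcM.trans hMD) h1
  · exact h.min (zc D) inf_le_left hzne (aux_zc_norm D K h.inv)

end Cfsg.Agent.Helper52.N9
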