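import Mathlib
import Cfsg.Agent.Helper60.NCDefs
import Cfsg.Agent.S4134

set_option autoImplicit false
set_option linter.unusedSectionVars false
open Subgroup

namespace Cfsg.Agent.Helper52.NCITONIL
open Cfsg.Agent.Helper60.NC

variable {G : Type*} [Group G] [Finite G] {r : ℕ} [Fact r.Prime] {N : Subgroup G} {m : ℕ}

theorem ito_nil (H : Type*) [Group H] [Finite H] (n : ℕ)
    (h : ∀ x : H, (centralizer ({x} : Set H)).index = 1 ∨ (centralizer ({x} : Set H)).index = n) :
    Group.IsNilpotent H := by
  by_cases hall : ∀ x : H, (centralizer ({x} : Set H)).index = 1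
  · -- abelian
    have hcen : center H = ⊤ := by
      rw [eq_top_iff]
      intro x _
      rw [mem_center_iff]
      intro g
      have h1 : centralizer ({x} : Set H) = ⊤ := index_eq_one.1 (hall x)
      have h2 : g ∈ centralizer ({x} : Set H) := by rw [h1]; exact mem_top g
      exact mem_centralizer_singleton_iff.1 h2
    have hsub : Subsingleton (H ⧸ center H) := by
      rw [hcen]
      exact QuotientGroup.subsingleton_quotient_top
    exact Subgroup.isNilpotent_of_ker_le_center (QuotientGroup.mk' (center H))
      (by rw [QuotientGroup.ker_mk'])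
  · push Not at hall
    obtain ⟨x₀, hx₀⟩ := hall
    have hx₀n : (centralizer ({x₀} : Set H)).index = n := (h x₀).resolve_left hx₀
    have hn : 1 < n := by
      have h0 : (centralizer ({x₀} : Set H)).index ≠ 0 := index_ne_zero_of_finite
      rw [hx₀n] at h0
      have h1 : n ≠ 1 := by rw [← hx₀n]; exact hx₀
      omega
    obtain ⟨p, hp, a, -, hP⟩ := Cfsg.Agent.S4134.result n hn h ⟨x₀, hx₀n⟩
    obtain ⟨P⟩ : Nonempty (Sylow p H) := inferInstance
    obtain ⟨-, ⟨A, hAn, hcompl, hAcomm, hAP⟩, -⟩ := hP P
    have hAcen : A ≤ center H := by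
      intro x hx
      rw [mem_center_iff]
      intro g
      have h1 : A ⊔ (P : Subgroup H) ≤ centralizer ({x} : Set H) := by
        apply sup_le
        · intro y hy
          rw [mem_centralizer_singleton_iff]
          have := hAcomm.is_comm.comm (⟨y, hy⟩ : A) ⟨x, hx⟩
          exact congrArg Subtype.val this
        · intro y hy
          rw [mem_centralizer_singleton_iff]
          exact (hAP x hx y hy).symm
      rw [hcompl.sup_eq_top] at h1
      exact mem_centralizer_singleton_iff.1 (h1 (mem_top g))
    have : A.Normal := hAn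
    have hq : IsPGroup p (H ⧸ A) := by
      obtain ⟨k, hk⟩ := IsPGroup.iff_card.1 P.isPGroup'
      apply IsPGroup.of_card (n := k)
      rw [← index_eq_card, ← hk]
      exact hcompl.symm.index_eq_card
    have : Group.IsNilpotent (H ⧸ A) := hq.isNilpotent
    exact Subgroup.isNilpotent_of_ker_le_center (QuotientGroup.mk' A)
      (by rw [QuotientGroup.ker_mk']; exact hAcen)

end Cfsg.Agent.Helper52.NCITONIL
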