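import Mathlib
import Cfsg.Agent.Helper60.NCDefs

set_option autoImplicit false
set_option linter.unusedSectionVars false
open Subgroup

namespace Cfsg.Agent.Helper52.NCREX
open Cfsg.Agent.Helper60.NC

variable {G : Type*} [Group G] [Finite G] {r : ℕ} [Fact r.Prime] {N : Subgroup G} {m : ℕ}

theorem zpowers_pgroup {u : G} (hu : ∃ k : ℕ, u ^ r ^ k = 1) : IsPGroup r (zpowers u) := by
  obtain ⟨k, hk⟩ := hu
  rintro ⟨g, hg⟩
  obtain ⟨i, rfl⟩ := mem_zpowers_iff.1 hg
  refine ⟨k, Subtype.ext ?_⟩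
  simp only [Subgroup.coe_pow, Subgroup.coe_one]
  rw [← zpow_natCast, ← zpow_mul, mul_comm, zpow_mul, zpow_natCast, hk, one_zpow]

theorem rex (hc : Ctx G r N m) {x₀ v : G} (hx₀ : ∃ k : ℕ, x₀ ^ r ^ k = 1) (hx₀Z : x₀ ∉ center G)
    (hv : v ∈ N) (hvZ : v ∉ center G) :
    ∃ w : G, (∃ k : ℕ, w ^ r ^ k = 1) ∧ w ∉ center G ∧ Commute v w := by
  by_contra hcon
  push Not at hcon
  have hr : r.Prime := Fact.out
  have hx₀N : x₀ ∈ N := hc.hr x₀ hx₀
  have hcard := hc.card_eq hv hx₀N hvZ hx₀Z
  obtain ⟨S⟩ : Nonempty (Sylow r ↥(centralizer ({v} : Set G))) := inferInstance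
  obtain ⟨S', hS'⟩ : ∃ S' : Subgroup G, S' =
      (S : Subgroup ↥(centralizer ({v} : Set G))).map (centralizer ({v} : Set G)).subtype :=
    ⟨_, rfl⟩
  have hS'Z : S' ≤ center G := by
    rw [hS']
    rintro _ ⟨s, hs, rfl⟩
    by_contra hsZ
    obtain ⟨k, hk⟩ := S.isPGroup' ⟨s, hs⟩
    have hk' : (s : G) ^ r ^ k = 1 := by
      have := congrArg (fun t : (S : Subgroup ↥(centralizer ({v} : Set G))) =>
        ((t : ↥(centralizer ({v} : Set G))) : G)) hk
      simpa using this
    apply hcon (s : G) ⟨k, hk'⟩ hsZ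
    exact (mem_centralizer_singleton_iff.1 s.2).symm
  have hS'card : Nat.card S' = r ^ (Nat.card (centralizer ({x₀} : Set G))).factorization r := by
    rw [hS', Subgroup.card_map_of_injective (Subgroup.subtype_injective _),
      S.card_eq_multiplicity, hcard]
  have hS'p : IsPGroup r S' := by
    rw [hS']
    exact S.isPGroup'.map _
  have hT : IsPGroup r (zpowers x₀ ⊔ S' : Subgroup G) := by
    apply IsPGroup.to_sup_of_normal_right' (zpowers_pgroup hx₀) hS'p
    intro g _
    rw [mem_normalizer_iff]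
    intro h
    constructor
    · intro hh
      have : g * h * g⁻¹ = h := by
        have := mem_center_iff.1 (hS'Z hh) g
        rw [this, mul_inv_cancel_right]
      rw [this]
      exact hh
    · intro hh
      have hz := mem_center_iff.1 (hS'Z hh)
      have : h = g * h * g⁻¹ := by
        have e := hz g⁻¹
        calc h = g⁻¹ * (g * h * g⁻¹) * g := by group
          _ = g * h * g⁻¹ * g⁻¹ * g := by rw [e]
          _ = g * h * g⁻¹ := by group
      rw [this]
      exact hh
  have hTle : zpowers x₀ ⊔ S' ≤ centralizer ({x₀} : Set G) := by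
    apply sup_le
    · rw [zpowers_le]
      exact mem_centralizer_singleton_iff.2 rfl
    · intro z hz
      rw [mem_centralizer_singleton_iff]
      exact (mem_center_iff.1 (hS'Z hz) x₀).symm
  have hTcard : Nat.card ↥(zpowers x₀ ⊔ S') ≤
      r ^ (Nat.card (centralizer ({x₀} : Set G))).factorization r := by
    obtain ⟨j, hj⟩ := IsPGroup.iff_card.1 hT
    rw [hj]
    have hdvd : r ^ j ∣ Nat.card (centralizer ({x₀} : Set G)) := by
      rw [← hj]
      exact Subgroup.card_dvd_of_le hTle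
    exact Nat.pow_le_pow_right hr.pos
      ((hr.pow_dvd_iff_le_factorization Nat.card_pos.ne').1 hdvd)
  have heq : S' = zpowers x₀ ⊔ S' :=
    Subgroup.eq_of_le_of_card_ge le_sup_right (by rw [hS'card]; exact hTcard)
  apply hx₀Z
  apply hS'Z
  rw [heq]
  exact mem_sup_left (mem_zpowers x₀)

end Cfsg.Agent.Helper52.NCREX
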