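import Mathlib
import Cfsg.Agent.Helper60.NCDefs

set_option autoImplicit false
set_option linter.unusedSectionVars false
open Subgroup

namespace Cfsg.Agent.Helper52.NCTRANSPORT
open Cfsg.Agent.Helper60.NC

variable {G : Type*} [Group G] [Finite G] {r : ℕ} [Fact r.Prime] {N : Subgroup G} {m : ℕ}

theorem zpowers_pgroup {u : G} (hu : ∃ k : ℕ, u ^ r ^ k = 1) : IsPGroup r (zpowers u) := by
  obtain ⟨k, hk⟩ := hu
  rintro ⟨g, hg⟩
  obtain ⟨i, rfl⟩ := mem_zpowers_iff.1 hg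
  refine ⟨k, Subtype.ext ?_⟩
  simp only [Subgroup.coe_pow, Subgroup.coe_one]
  rw [← zpow_natCast, ← zpow_mul, mul_comm, zpow_mul, zpow_natCast, hk, one_zpow]

/-- a reproof of SYLCONJ -/
theorem syl_conj' (R : Sylow r G) (T : Subgroup G) (hT : IsPGroup r T) :
    ∃ a : G, ∀ t ∈ T, a⁻¹ * t * a ∈ (R : Subgroup G) := by
  obtain ⟨Q, hQ⟩ := hT.exists_le_sylow
  obtain ⟨g, hg⟩ := MulAction.exists_smul_eq G Q R
  refine ⟨g⁻¹, fun t ht => ?_⟩
  have h1 : g * t * g⁻¹ ∈ ((g • Q : Sylow r G) : Subgroup G) := by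
    rw [Sylow.coe_subgroup_smul]
    exact ⟨t, hQ ht, rfl⟩
  rw [hg] at h1
  simpa using h1

theorem transport (R' : Sylow r G)
    (hloc : ∀ u ∈ (R' : Subgroup G), u ∉ center G → ∀ s ∈ (R' : Subgroup G), Commute u s →
      centralizer ({u} : Set G) ≤ centralizer ({s} : Set G)) :
    ∀ u s : G, (∃ k : ℕ, u ^ r ^ k = 1) → u ∉ center G → (∃ k : ℕ, s ^ r ^ k = 1) →
      Commute u s → centralizer ({u} : Set G) ≤ centralizer ({s} : Set G) := by
  intro u s hu huZ hs hus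
  have hT : IsPGroup r (zpowers u ⊔ zpowers s : Subgroup G) := by
    apply IsPGroup.to_sup_of_normal_right' (zpowers_pgroup hu) (zpowers_pgroup hs)
    rw [zpowers_le]
    rw [mem_normalizer_iff]
    intro h
    constructor
    · intro hh
      obtain ⟨i, rfl⟩ := mem_zpowers_iff.1 hh
      have : u * s ^ i * u⁻¹ = s ^ i := by
        have hc : Commute u (s ^ i) := hus.zpow_right i
        rw [hc.eq, mul_inv_cancel_right]
      rw [this]
      exact hh
    · intro hh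
      obtain ⟨i, hi⟩ := mem_zpowers_iff.1 hh
      have hc : Commute u (s ^ i) := hus.zpow_right i
      have : h = s ^ i := by
        have e : h = u⁻¹ * (u * h * u⁻¹) * u := by group
        rw [e, ← hi, mul_assoc, ← hc.eq, inv_mul_cancel_left]
      rw [this]
      exact zpow_mem (mem_zpowers s) i
  obtain ⟨a, ha⟩ := syl_conj' R' _ hT
  have hu' : a⁻¹ * u * a ∈ (R' : Subgroup G) := ha u (mem_sup_left (mem_zpowers u))
  have hs' : a⁻¹ * s * a ∈ (R' : Subgroup G) := ha s (mem_sup_right (mem_zpowers s))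
  have huZ' : a⁻¹ * u * a ∉ center G := by
    intro hz
    apply huZ
    have h1 : u = a * (a⁻¹ * u * a) * a⁻¹ := by group
    rw [h1]
    exact (inferInstance : (center G).Normal).conj_mem _ hz a
  have hcomm' : Commute (a⁻¹ * u * a) (a⁻¹ * s * a) := by
    show a⁻¹ * u * a * (a⁻¹ * s * a) = a⁻¹ * s * a * (a⁻¹ * u * a)
    have e1 : a⁻¹ * u * a * (a⁻¹ * s * a) = a⁻¹ * (u * s) * a := by group
    have e2 : a⁻¹ * s * a * (a⁻¹ * u * a) = a⁻¹ * (s * u) * a := by group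
    rw [e1, e2, hus.eq]
  have hle := hloc _ hu' huZ' _ hs' hcomm'
  intro d hd
  rw [mem_centralizer_singleton_iff] at hd ⊢
  have hd' : a⁻¹ * d * a ∈ centralizer ({a⁻¹ * u * a} : Set G) := by
    rw [mem_centralizer_singleton_iff]
    have e1 : a⁻¹ * d * a * (a⁻¹ * u * a) = a⁻¹ * (d * u) * a := by group
    have e2 : a⁻¹ * u * a * (a⁻¹ * d * a) = a⁻¹ * (u * d) * a := by group
    rw [e1, e2, hd]
  have h2 := hle hd'
  rw [mem_centralizer_singleton_iff] at h2
  have e1 : d * s = a * (a⁻¹ * d * a * (a⁻¹ * s * a)) * a⁻¹ := by group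
  have e2 : s * d = a * (a⁻¹ * s * a * (a⁻¹ * d * a)) * a⁻¹ := by group
  rw [e1, e2, h2]

end Cfsg.Agent.Helper52.NCTRANSPORT
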