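import Mathlib
import Cfsg.Agent.S1453
import Cfsg.Agent.S0093
import Cfsg.Agent.Helper2.PGroup
import Cfsg.Agent.Helper24.Coprime

set_option autoImplicit false
open scoped commutatorElement

namespace Cfsg.Agent.Helper52.NarrowAut

variable {R : Type*} [Group R]

theorem narrowAut_iter_apply (δ : MulAut R) (x : R) (hc : δ (x⁻¹ * δ x) = x⁻¹ * δ x) (i : ℕ) :
    (δ ^ i) x = x * (x⁻¹ * δ x) ^ i := by
  induction i with
  | zero => simp
  | succ i ih =>
    rw [pow_succ', MulAut.mul_apply, ih, map_mul, map_pow, hc, pow_succ' (x⁻¹ * δ x),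
      ← mul_assoc, mul_inv_cancel_left]

theorem narrowAut_fix_of_coprime [Finite R] {p : ℕ} [Fact p.Prime] (hR : IsPGroup p R)
    (δ : MulAut R) {m : ℕ} (hm : m.Coprime p) (hδ : δ ^ m = 1) (x : R)
    (hc : δ (x⁻¹ * δ x) = x⁻¹ * δ x) : δ x = x := by
  have h1 := narrowAut_iter_apply δ x hc m
  rw [hδ, MulAut.one_apply] at h1
  have h2 : (x⁻¹ * δ x) ^ m = 1 := by
    have := congrArg (fun t => x⁻¹ * t) h1
    simpa using this.symm
  obtain ⟨k, hk⟩ := hR (x⁻¹ * δ x)
  have h3 : orderOf (x⁻¹ * δ x) ∣ m := orderOf_dvd_of_pow_eq_one h2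
  have h4 : orderOf (x⁻¹ * δ x) ∣ p ^ k := orderOf_dvd_of_pow_eq_one hk
  have h5 : orderOf (x⁻¹ * δ x) = 1 :=
    Nat.Coprime.eq_one_of_dvd ((Nat.Coprime.pow_right k hm).coprime_dvd_left h3) h4
  have h6 : x⁻¹ * δ x = 1 := orderOf_eq_one_iff.mp h5
  exact (inv_mul_eq_one.mp h6).symm

theorem narrowAut_char_mem (H : Subgroup R) [hH : H.Characteristic] (φ : MulAut R) (x : R) :
    φ x ∈ H ↔ x ∈ H := by
  have h := Subgroup.characteristic_iff_comap_eq.mp hH φ
  constructor
  · intro hx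
    rw [← h]; exact hx
  · intro hx
    rw [← h] at hx; exact hx

/-- Counting: if `X` is normal and `e` has at most `n` fixed points on `X`, then
`|X| ≤ n * |[X, R]|`. -/
theorem narrowAut_card_le [Finite R] (X : Subgroup R) (e : R) (n : ℕ)
    (hfix : Nat.card {x : R // x ∈ X ∧ x * e = e * x} ≤ n) :
    Nat.card X ≤ n * Nat.card (⁅X, (⊤ : Subgroup R)⁆ : Subgroup R) := by
  classical
  have : Fintype X := Fintype.ofFinite _
  have : Fintype (⁅X, (⊤ : Subgroup R)⁆ : Subgroup R) := Fintype.ofFinite _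
  have : Fintype {x : R // x ∈ X ∧ x * e = e * x} := Fintype.ofFinite _
  let f : X → (⁅X, (⊤ : Subgroup R)⁆ : Subgroup R) := fun x =>
    ⟨⁅(x : R), e⁆, Subgroup.commutator_mem_commutator x.2 (Subgroup.mem_top e)⟩
  have key := Finset.card_le_mul_card_image_of_maps_to (s := (Finset.univ : Finset X))
    (t := (Finset.univ : Finset (⁅X, (⊤ : Subgroup R)⁆ : Subgroup R))) (f := f)
    (fun a _ => Finset.mem_univ _) n ?_
  · simpa [Nat.card_eq_fintype_card] using key
  · intro b _
    by_cases hb : ∃ x₁ : X, f x₁ = b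
    · obtain ⟨x₁, hx₁⟩ := hb
      refine le_trans ?_ hfix
      rw [Nat.card_eq_fintype_card, ← Fintype.card_subtype]
      have hcomm : ∀ a : X, f a = b → ((x₁ : R)⁻¹ * (a : R)) * e = e * ((x₁ : R)⁻¹ * (a : R)) := by
        intro a ha
        have h1 : ⁅(a : R), e⁆ = ⁅(x₁ : R), e⁆ := by
          have := ha.trans hx₁.symm
          exact congrArg Subtype.val this
        rw [commutatorElement_def, commutatorElement_def] at h1
        have h2 : (a : R) * e * (a : R)⁻¹ = (x₁ : R) * e * (x₁ : R)⁻¹ := by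
          have := congrArg (fun t => t * e) h1
          simpa using this
        calc (x₁ : R)⁻¹ * (a : R) * e = (x₁ : R)⁻¹ * ((a : R) * e * (a : R)⁻¹) * (a : R) := by group
          _ = (x₁ : R)⁻¹ * ((x₁ : R) * e * (x₁ : R)⁻¹) * (a : R) := by rw [h2]
          _ = e * ((x₁ : R)⁻¹ * (a : R)) := by group
      let g : {a : X // f a = b} → {x : R // x ∈ X ∧ x * e = e * x} := fun a =>
        ⟨(x₁ : R)⁻¹ * (a.1 : R), X.mul_mem (X.inv_mem x₁.2) a.1.2, hcomm a.1 a.2⟩
      apply Fintype.card_le_of_injective g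
      intro a a' h
      have h' : (x₁ : R)⁻¹ * (a.1 : R) = (x₁ : R)⁻¹ * (a'.1 : R) := congrArg Subtype.val h
      exact Subtype.ext (Subtype.ext (mul_left_cancel h'))
    · have : (Finset.univ.filter fun a => f a = b) = ∅ := by
        apply Finset.eq_empty_of_forall_notMem
        intro a ha
        exact hb ⟨a, (Finset.mem_filter.mp ha).2⟩
      rw [this]; simp


/-- If `N ≤ X` has index at most `p` in the `p`-group setting, an automorphism preserving both acts on
`X` modulo `N` as a power map. -/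
theorem narrowAut_exists_zpow [Finite R] {p : ℕ} [Fact p.Prime] (hR : IsPGroup p R)
    (X N : Subgroup R) [N.Normal] (hNX : N ≤ X) (hcard : Nat.card X ≤ p * Nat.card N)
    (γ : MulAut R) (hγX : ∀ x ∈ X, γ x ∈ X) (hγN : ∀ x ∈ N, γ x ∈ N) :
    ∃ m : ℤ, ∀ x ∈ X, (QuotientGroup.mk' N (γ x)) = (QuotientGroup.mk' N x) ^ m := by
  have hp : p.Prime := Fact.out
  by_cases hXN : X ≤ N
  · refine ⟨0, fun x hx => ?_⟩
    rw [zpow_zero, QuotientGroup.mk'_apply, QuotientGroup.eq_one_iff]
    exact hXN (hγX x hx)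
  · obtain ⟨x₀, hx₀X, hx₀N⟩ := SetLike.not_le_iff_exists.mp hXN
    have hM : N ⊔ Subgroup.zpowers x₀ = X := by
      have hle : N ⊔ Subgroup.zpowers x₀ ≤ X := sup_le hNX (by rwa [Subgroup.zpowers_le])
      have hne : N ≠ N ⊔ Subgroup.zpowers x₀ := by
        intro h
        apply hx₀N
        rw [h]
        exact (le_sup_right : Subgroup.zpowers x₀ ≤ N ⊔ Subgroup.zpowers x₀)
          (Subgroup.mem_zpowers x₀)
      obtain ⟨a, ha⟩ := IsPGroup.iff_card.mp (hR.to_subgroup N)
      obtain ⟨b, hb⟩ := IsPGroup.iff_card.mp (hR.to_subgroup (N ⊔ Subgroup.zpowers x₀))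
      have hdvd : Nat.card N ∣ Nat.card (N ⊔ Subgroup.zpowers x₀ : Subgroup R) :=
        Subgroup.card_dvd_of_le le_sup_left
      have hab : a < b := by
        by_contra hcon
        have hba : b ≤ a := not_lt.mp hcon
        have h1 : Nat.card (N ⊔ Subgroup.zpowers x₀ : Subgroup R) ≤ Nat.card N := by
          rw [ha, hb]; exact Nat.pow_le_pow_right hp.pos hba
        exact hne (Subgroup.eq_of_le_of_card_ge le_sup_left h1)
      apply Subgroup.eq_of_le_of_card_ge hle
      calc Nat.card X ≤ p * Nat.card N := hcard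
        _ = p ^ (a + 1) := by rw [ha, pow_succ']
        _ ≤ p ^ b := Nat.pow_le_pow_right hp.pos hab
        _ = Nat.card (N ⊔ Subgroup.zpowers x₀ : Subgroup R) := hb.symm
    have hcover : ∀ x ∈ X, ∃ j : ℤ, (QuotientGroup.mk' N x₀) ^ j = QuotientGroup.mk' N x := by
      intro x hx
      have h : QuotientGroup.mk' N x ∈ (N ⊔ Subgroup.zpowers x₀).map (QuotientGroup.mk' N) :=
        Subgroup.mem_map_of_mem _ (hM ▸ hx)
      rw [Subgroup.map_sup, QuotientGroup.map_mk'_self, bot_sup_eq, MonoidHom.map_zpowers] at h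
      exact Subgroup.mem_zpowers_iff.mp h
    obtain ⟨m, hm⟩ := hcover (γ x₀) (hγX x₀ hx₀X)
    refine ⟨m, fun x hx => ?_⟩
    obtain ⟨j, hj⟩ := hcover x hx
    have hn : (x₀ ^ j)⁻¹ * x ∈ N := by
      rw [← QuotientGroup.eq, ← QuotientGroup.mk'_apply, ← QuotientGroup.mk'_apply, map_zpow]
      exact hj
    have hx' : x = x₀ ^ j * ((x₀ ^ j)⁻¹ * x) := by group
    have h1 : QuotientGroup.mk' N (γ ((x₀ ^ j)⁻¹ * x)) = 1 := by
      rw [QuotientGroup.mk'_apply, QuotientGroup.eq_one_iff]
      exact hγN _ hn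
    calc QuotientGroup.mk' N (γ x) = QuotientGroup.mk' N (γ (x₀ ^ j * ((x₀ ^ j)⁻¹ * x))) := by
          rw [← hx']
      _ = (QuotientGroup.mk' N (γ x₀)) ^ j * QuotientGroup.mk' N (γ ((x₀ ^ j)⁻¹ * x)) := by
          rw [map_mul, map_mul, map_zpow, map_zpow]
      _ = ((QuotientGroup.mk' N x₀) ^ j) ^ m := by
          rw [h1, mul_one, ← hm, ← zpow_mul, ← zpow_mul, mul_comm]
      _ = (QuotientGroup.mk' N x) ^ m := by rw [hj]

/-- Commutators of automorphisms act trivially on a characteristic section of order at most `p`. -/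
theorem narrowAut_comm_mem [Finite R] {p : ℕ} [Fact p.Prime] (hR : IsPGroup p R)
    (X N : Subgroup R) [hX : X.Characteristic] [hN : N.Characteristic] (hNX : N ≤ X)
    (hcard : Nat.card X ≤ p * Nat.card N) (α β : MulAut R) (x : R) (hx : x ∈ X) :
    x⁻¹ * ⁅α, β⁆ x ∈ N := by
  have : N.Normal := Subgroup.normal_of_characteristic N
  obtain ⟨ma, hma⟩ := narrowAut_exists_zpow hR X N hNX hcard α
    (fun x hx => (narrowAut_char_mem X α x).mpr hx) (fun x hx => (narrowAut_char_mem N α x).mpr hx)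
  obtain ⟨mb, hmb⟩ := narrowAut_exists_zpow hR X N hNX hcard β
    (fun x hx => (narrowAut_char_mem X β x).mpr hx) (fun x hx => (narrowAut_char_mem N β x).mpr hx)
  set y : R := α⁻¹ (β⁻¹ x) with hy
  have hyX : y ∈ X := (narrowAut_char_mem X α⁻¹ _).mpr ((narrowAut_char_mem X β⁻¹ x).mpr hx)
  have hx1 : x = β (α y) := by
    rw [hy, MulAut.apply_inv_self, MulAut.apply_inv_self]
  have hx2 : ⁅α, β⁆ x = α (β y) := by
    rw [commutatorElement_def, MulAut.mul_apply, MulAut.mul_apply, MulAut.mul_apply]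
  have hαy : α y ∈ X := (narrowAut_char_mem X α y).mpr hyX
  have hβy : β y ∈ X := (narrowAut_char_mem X β y).mpr hyX
  have h1 : QuotientGroup.mk' N (α (β y)) = QuotientGroup.mk' N (β (α y)) := by
    rw [hma _ hβy, hmb _ hyX, hmb _ hαy, hma _ hyX, ← zpow_mul, ← zpow_mul, mul_comm]
  rw [hx2]
  nth_rewrite 1 [hx1]
  rw [← QuotientGroup.eq, ← QuotientGroup.mk'_apply, ← QuotientGroup.mk'_apply]
  exact h1.symm

/-- `(p-1)`-th powers of automorphisms act trivially on a characteristic section of order at most `p`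
and exponent `p`. -/
theorem narrowAut_pow_mem [Finite R] {p : ℕ} [Fact p.Prime] (hR : IsPGroup p R)
    (X N : Subgroup R) [hX : X.Characteristic] [hN : N.Characteristic] (hNX : N ≤ X)
    (hcard : Nat.card X ≤ p * Nat.card N) (hexp : ∀ x ∈ X, x ^ p = 1) (α : MulAut R) (x : R)
    (hx : x ∈ X) : x⁻¹ * (α ^ (p - 1)) x ∈ N := by
  have hp : p.Prime := Fact.out
  have : N.Normal := Subgroup.normal_of_characteristic N
  obtain ⟨m, hm⟩ := narrowAut_exists_zpow hR X N hNX hcard α
    (fun x hx => (narrowAut_char_mem X α x).mpr hx) (fun x hx => (narrowAut_char_mem N α x).mpr hx)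
  have hiter : ∀ k : ℕ, (α ^ k) x ∈ X ∧
      QuotientGroup.mk' N ((α ^ k) x) = (QuotientGroup.mk' N x) ^ (m ^ k) := by
    intro k
    induction k with
    | zero => simp [hx]
    | succ k ih =>
      rw [pow_succ', MulAut.mul_apply]
      refine ⟨(narrowAut_char_mem X α _).mpr ih.1, ?_⟩
      rw [hm _ ih.1, ih.2, ← zpow_mul, pow_succ]
  rw [← QuotientGroup.eq, ← QuotientGroup.mk'_apply, ← QuotientGroup.mk'_apply, (hiter (p - 1)).2]
  by_cases h1 : QuotientGroup.mk' N x = 1
  · rw [h1, one_zpow]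
  · have hxp : (QuotientGroup.mk' N x) ^ (p : ℤ) = 1 := by
      rw [zpow_natCast, ← map_pow, hexp x hx, map_one]
    have hndvd : ¬ (p : ℤ) ∣ m := by
      rintro ⟨t, ht⟩
      have h3 : QuotientGroup.mk' N (α x) = 1 := by
        rw [hm x hx, ht, zpow_mul, hxp, one_zpow]
      rw [QuotientGroup.mk'_apply, QuotientGroup.eq_one_iff] at h3
      have h4 : x ∈ N := (narrowAut_char_mem N α x).mp h3
      apply h1
      rw [QuotientGroup.mk'_apply, QuotientGroup.eq_one_iff]
      exact h4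
    have hcop : IsCoprime m (p : ℤ) :=
      ((Nat.prime_iff_prime_int.mp hp).irreducible.coprime_iff_not_dvd.mpr hndvd).symm
    have hmod := Int.ModEq.pow_card_sub_one_eq_one hp hcop
    obtain ⟨t, ht⟩ := hmod.symm.dvd
    have h5 : m ^ (p - 1) = 1 + (p : ℤ) * t := by linarith
    rw [h5, zpow_add, zpow_one, zpow_mul, hxp, one_zpow, mul_one]


/-- The stabilizer of a characteristic chain with factors of order at most `p`. -/
theorem narrowAut_chain [Finite R] {p : ℕ} [Fact p.Prime] (hR : IsPGroup p R) (L : ℕ → Subgroup R)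
    (hchar : ∀ n, (L n).Characteristic) (hanti : ∀ n, L (n + 1) ≤ L n)
    (hcard : ∀ n, Nat.card (L n) ≤ p * Nat.card (L (n + 1)))
    (hexp : ∀ x ∈ L 0, x ^ p = 1) (hbot : ∃ n, L n = ⊥) :
    ∃ 𝒞 : Subgroup (MulAut R), 𝒞.Normal ∧ (∀ α β : MulAut R, ⁅α, β⁆ ∈ 𝒞) ∧
      (∀ α : MulAut R, α ^ (p - 1) ∈ 𝒞) ∧
      ∀ δ ∈ 𝒞, ∀ m : ℕ, m.Coprime p → δ ^ m = 1 → ∀ x ∈ L 0, δ x = x := by
  let 𝒞 : Subgroup (MulAut R) :=
    { carrier := {γ | ∀ n, ∀ x ∈ L n, x⁻¹ * γ x ∈ L (n + 1)}
      one_mem' := by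
        intro n x hx
        simp
      mul_mem' := by
        intro γ δ hγ hδ n x hx
        have := hchar n
        have h1 : δ x ∈ L n := (narrowAut_char_mem (L n) δ x).mpr hx
        have h2 := hδ n x hx
        have h3 := hγ n (δ x) h1
        have h4 : x⁻¹ * (γ * δ) x = (x⁻¹ * δ x) * ((δ x)⁻¹ * γ (δ x)) := by
          rw [MulAut.mul_apply]; group
        rw [h4]
        exact (L (n + 1)).mul_mem h2 h3
      inv_mem' := by
        intro γ hγ n x hx
        have := hchar n
        have h1 : γ⁻¹ x ∈ L n := (narrowAut_char_mem (L n) γ⁻¹ x).mpr hx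
        have h2 := hγ n (γ⁻¹ x) h1
        rw [MulAut.apply_inv_self] at h2
        have h4 : x⁻¹ * γ⁻¹ x = ((γ⁻¹ x)⁻¹ * x)⁻¹ := by group
        rw [h4]
        exact (L (n + 1)).inv_mem h2 }
  have hmem : ∀ γ : MulAut R, γ ∈ 𝒞 ↔ ∀ n, ∀ x ∈ L n, x⁻¹ * γ x ∈ L (n + 1) := fun γ => Iff.rfl
  have hL0 : ∀ n, L n ≤ L 0 := fun n => antitone_nat_of_succ_le hanti (Nat.zero_le n)
  refine ⟨𝒞, ⟨?_⟩, ?_, ?_, ?_⟩
  · intro γ hγ δ
    rw [hmem]
    intro n x hx
    have := hchar n
    have := hchar (n + 1)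
    have h1 : δ⁻¹ x ∈ L n := (narrowAut_char_mem (L n) δ⁻¹ x).mpr hx
    have h2 := (hmem γ).mp hγ n (δ⁻¹ x) h1
    have h3 : δ ((δ⁻¹ x)⁻¹ * γ (δ⁻¹ x)) ∈ L (n + 1) :=
      (narrowAut_char_mem (L (n + 1)) δ _).mpr h2
    have h4 : x⁻¹ * (δ * γ * δ⁻¹) x = δ ((δ⁻¹ x)⁻¹ * γ (δ⁻¹ x)) := by
      rw [MulAut.mul_apply, MulAut.mul_apply, map_mul, map_inv, MulAut.apply_inv_self]
    rw [h4]; exact h3
  · intro α β
    rw [hmem]
    intro n x hx
    have := hchar n
    have := hchar (n + 1)
    exact narrowAut_comm_mem hR (L n) (L (n + 1)) (hanti n) (hcard n) α β x hx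
  · intro α
    rw [hmem]
    intro n x hx
    have := hchar n
    have := hchar (n + 1)
    exact narrowAut_pow_mem hR (L n) (L (n + 1)) (hanti n) (hcard n)
      (fun y hy => hexp y (hL0 n hy)) α x hx
  · intro δ hδ m hm hδm
    obtain ⟨n₀, hn₀⟩ := hbot
    have key : ∀ d k : ℕ, k + d = n₀ → ∀ x ∈ L k, δ x = x := by
      intro d
      induction d with
      | zero =>
        intro k hk x hx
        rw [add_zero] at hk
        rw [hk, hn₀, Subgroup.mem_bot] at hx
        rw [hx, map_one]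
      | succ d ih =>
        intro k hk x hx
        have h1 := ih (k + 1) (by omega)
        have h2 := (hmem δ).mp hδ k x hx
        exact narrowAut_fix_of_coprime hR δ hm hδm x (h1 _ h2)
    exact key n₀ 0 (by omega)

/-- auxiliary chain: `D`, `D ⊓ T`, then iterated commutators with the whole group. -/
def narrowAutChain (D T : Subgroup R) : ℕ → Subgroup R
  | 0 => D
  | 1 => D ⊓ T
  | (n + 2) => ⁅narrowAutChain D T (n + 1), (⊤ : Subgroup R)⁆

theorem narrowAutChain_char (D T : Subgroup R) [hD : D.Characteristic] [hT : T.Characteristic] :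
    ∀ n, (narrowAutChain D T n).Characteristic := by
  have h1 : ∀ n, (narrowAutChain D T (n + 1)).Characteristic := by
    intro n
    induction n with
    | zero =>
      show (D ⊓ T).Characteristic
      rw [Subgroup.characteristic_iff_le_comap]
      intro φ x hx
      rw [Subgroup.mem_comap]
      exact ⟨(narrowAut_char_mem D φ x).mpr hx.1, (narrowAut_char_mem T φ x).mpr hx.2⟩
    | succ n ih =>
      show (⁅narrowAutChain D T (n + 1), (⊤ : Subgroup R)⁆).Characteristic
      infer_instance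
  intro n
  cases n with
  | zero => exact hD
  | succ n => exact h1 n

theorem narrowAutChain_anti (D T : Subgroup R) [hD : D.Characteristic] [hT : T.Characteristic] :
    ∀ n, narrowAutChain D T (n + 1) ≤ narrowAutChain D T n := by
  intro n
  cases n with
  | zero => exact inf_le_left
  | succ n =>
    have := narrowAutChain_char D T (n + 1)
    have : (narrowAutChain D T (n + 1)).Normal := Subgroup.normal_of_characteristic _
    exact Subgroup.commutator_le_left _ _

theorem narrowAutChain_le_lcs (D T : Subgroup R) :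
    ∀ n, narrowAutChain D T (n + 1) ≤ (⊤ : Subgroup R).lowerCentralSeries n := by
  intro n
  induction n with
  | zero => simp
  | succ n ih =>
    show ⁅narrowAutChain D T (n + 1), (⊤ : Subgroup R)⁆ ≤ (⊤ : Subgroup R).lowerCentralSeries (n + 1)
    rw [Subgroup.lowerCentralSeries_succ]
    exact Subgroup.commutator_mono ih le_rfl

/-- **Automorphisms of narrow `p`-groups of rank at least 3** (`p` odd): `Aut(R)` has a normal
`p`-subgroup with abelian quotient of exponent dividing `p - 1`. -/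
theorem narrowAut_main {R : Type*} [Group R] [Finite R] (p : ℕ) [Fact p.Prime] (hp : p ≠ 2)
    (hR : IsPGroup p R) (hr : ¬ Cfsg.PRankLE p 2 R)
    (R₀ R₁ : Subgroup R) (h0 : Nat.card R₀ = p) (h1 : IsCyclic R₁)
    (hc : ∀ a ∈ R₀, ∀ b ∈ R₁, a * b = b * a)
    (hcent : R₀ ⊔ R₁ = Subgroup.centralizer (R₀ : Set R)) :
    ∃ 𝒞 : Subgroup (MulAut R), 𝒞.Normal ∧ IsPGroup p 𝒞 ∧ (∀ α β : MulAut R, ⁅α, β⁆ ∈ 𝒞) ∧
      ∀ α : MulAut R, α ^ (p - 1) ∈ 𝒞 := by
  classical
  have hpp : p.Prime := Fact.out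
  have hodd : Odd p := hpp.eq_two_or_odd'.resolve_left hp
  have hcyc0 : IsCyclic R₀ := isCyclic_of_prime_card h0
  -- the centralizer of `R₀` is commutative
  have hR₀comm : ∀ a ∈ R₀, ∀ b ∈ R₀, a * b = b * a := by
    intro a ha b hb
    have := (IsCyclic.commGroup (α := R₀)).mul_comm ⟨a, ha⟩ ⟨b, hb⟩
    exact congrArg Subtype.val this
  have hR₁comm : ∀ a ∈ R₁, ∀ b ∈ R₁, a * b = b * a := by
    intro a ha b hb
    have := (IsCyclic.commGroup (α := R₁)).mul_comm ⟨a, ha⟩ ⟨b, hb⟩
    exact congrArg Subtype.val this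
  have hCle : R₀ ⊔ R₁ ≤ Subgroup.centralizer ((R₀ ⊔ R₁ : Subgroup R) : Set R) := by
    apply sup_le
    · rw [Subgroup.le_centralizer_iff]
      exact hcent.le
    · rw [Subgroup.le_centralizer_iff]
      apply sup_le
      · intro a ha
        rw [Subgroup.mem_centralizer_iff]
        intro b hb
        exact (hc a ha b hb).symm
      · intro a ha
        rw [Subgroup.mem_centralizer_iff]
        intro b hb
        exact hR₁comm b hb a ha
  have hCcomm : ∀ x ∈ Subgroup.centralizer (R₀ : Set R), ∀ y ∈ Subgroup.centralizer (R₀ : Set R),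
      x * y = y * x := by
    intro x hx y hy
    rw [← hcent] at hx hy
    exact (Subgroup.mem_centralizer_iff.mp (hCle hx) y hy).symm
  -- a generator of `R₀`
  obtain ⟨e, he⟩ := IsCyclic.exists_generator (α := R₀)
  have hecent : ∀ x : R, x * (e : R) = (e : R) * x → x ∈ Subgroup.centralizer (R₀ : Set R) := by
    intro x hx
    rw [Subgroup.mem_centralizer_iff]
    intro h hh
    obtain ⟨k, hk⟩ := Subgroup.mem_zpowers_iff.mp (he ⟨h, hh⟩)
    have hk' : (e : R) ^ k = h := by
      have := congrArg Subtype.val hk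
      simpa using this
    rw [← hk']
    exact ((show Commute x (e : R) from hx).zpow_right k).eq.symm
  have hR₀pow : ∀ a ∈ R₀, a ^ p = 1 := by
    intro a ha
    have : (⟨a, ha⟩ : R₀) ^ Nat.card R₀ = 1 := pow_card_eq_one'
    rw [h0] at this
    exact congrArg Subtype.val this
  -- the elementary abelian subgroup `E`
  let E : Subgroup R :=
    { carrier := {x | x ∈ Subgroup.centralizer (R₀ : Set R) ∧ x ^ p = 1}
      one_mem' := ⟨Subgroup.one_mem _, one_pow p⟩
      mul_mem' := by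
        rintro x y ⟨hx1, hx2⟩ ⟨hy1, hy2⟩
        refine ⟨Subgroup.mul_mem _ hx1 hy1, ?_⟩
        rw [(show Commute x y from hCcomm x hx1 y hy1).mul_pow, hx2, hy2, one_mul]
      inv_mem' := by
        rintro x ⟨hx1, hx2⟩
        exact ⟨Subgroup.inv_mem _ hx1, by rw [inv_pow, hx2, inv_one]⟩ }
  have hEmem : ∀ x : R, x ∈ E ↔ x ∈ Subgroup.centralizer (R₀ : Set R) ∧ x ^ p = 1 :=
    fun x => Iff.rfl
  have hR₀E : R₀ ≤ E := by
    intro a ha
    rw [hEmem]
    refine ⟨?_, hR₀pow a ha⟩
    rw [← hcent]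
    exact (le_sup_left : R₀ ≤ R₀ ⊔ R₁) ha
  have hEcomm : IsMulCommutative E :=
    ⟨⟨fun a b => Subtype.ext (hCcomm a.1 a.2.1 b.1 b.2.1)⟩⟩
  have hEe : Cfsg.IsElementaryAbelian p E := ⟨hEcomm, fun a ha => ha.2⟩
  have hEmax : ∀ B : Subgroup R, Cfsg.IsElementaryAbelian p B → E ≤ B → B = E := by
    intro B hB hEB
    apply le_antisymm _ hEB
    intro b hb
    rw [hEmem]
    refine ⟨?_, hB.2 b hb⟩
    rw [Subgroup.mem_centralizer_iff]
    intro h hh
    have := hB.1.is_comm.comm (⟨h, hEB (hR₀E hh)⟩ : B) ⟨b, hb⟩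
    exact congrArg Subtype.val this
  -- `|E| ≤ p²`
  have hEle : Nat.card E ≤ p ^ 2 := by
    have hsub : Nat.card {b : R₁ // b ^ p = 1} ≤ p := by
      have : Fintype R₁ := Fintype.ofFinite _
      have := IsCyclic.card_pow_eq_one_le (α := R₁) hpp.pos
      rw [Nat.card_eq_fintype_card, Fintype.card_subtype]
      exact this
    let f : R₀ × {b : R₁ // b ^ p = 1} → E := fun ab =>
      ⟨(ab.1 : R) * (ab.2.1 : R), by
        rw [hEmem]
        have h2 : ((ab.2.1 : R₁) : R) ^ p = 1 := by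
          have := congrArg Subtype.val ab.2.2
          simpa using this
        have h3 : (ab.1 : R) ∈ Subgroup.centralizer (R₀ : Set R) := by
          rw [← hcent]; exact (le_sup_left : R₀ ≤ R₀ ⊔ R₁) ab.1.2
        have h4 : ((ab.2.1 : R₁) : R) ∈ Subgroup.centralizer (R₀ : Set R) := by
          rw [← hcent]; exact (le_sup_right : R₁ ≤ R₀ ⊔ R₁) ab.2.1.2
        refine ⟨Subgroup.mul_mem _ h3 h4, ?_⟩
        rw [(show Commute (ab.1 : R) ((ab.2.1 : R₁) : R) from hCcomm _ h3 _ h4).mul_pow,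
          hR₀pow _ ab.1.2, h2, one_mul]⟩
    have hf : Function.Surjective f := by
      rintro ⟨x, hx⟩
      have hx' := (hEmem x).mp hx
      have hx1 : x ∈ R₀ ⊔ R₁ := by rw [hcent]; exact hx'.1
      have hcomm' : ∀ (m : R₀) (n : R₁), Commute (R₀.subtype m) (R₁.subtype n) :=
        fun a b => hc a.1 a.2 b.1 b.2
      have hrange : x ∈ ((R₀.subtype).noncommCoprod (R₁.subtype) hcomm').range := by
        rw [MonoidHom.noncommCoprod_range, Subgroup.range_subtype, Subgroup.range_subtype]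
        exact hx1
      obtain ⟨⟨a, b⟩, hab⟩ := hrange
      rw [MonoidHom.noncommCoprod_apply] at hab
      simp only [Subgroup.coe_subtype] at hab
      have hb : b ^ p = 1 := by
        apply Subtype.ext
        have h5 : (x : R) ^ p = (a : R) ^ p * (b : R) ^ p := by
          rw [← hab]
          exact (show Commute (a : R) (b : R) from hc a.1 a.2 b.1 b.2).mul_pow p
        rw [hx'.2, hR₀pow _ a.2, one_mul] at h5
        simpa using h5.symm
      exact ⟨(a, ⟨b, hb⟩), Subtype.ext hab⟩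
    calc Nat.card E ≤ Nat.card (R₀ × {b : R₁ // b ^ p = 1}) := Nat.card_le_card_of_surjective f hf
      _ = Nat.card R₀ * Nat.card {b : R₁ // b ^ p = 1} := Nat.card_prod _ _
      _ ≤ p * p := by rw [h0]; exact Nat.mul_le_mul_left p hsub
      _ = p ^ 2 := (sq p).symm
  -- `|E| = p²`
  have hE2 : Nat.card E = p ^ 2 := by
    obtain ⟨j, hj⟩ := IsPGroup.iff_card.mp (hR.to_subgroup E)
    have hj2 : j ≤ 2 := by
      by_contra hcon
      have : p ^ 2 < p ^ j := Nat.pow_lt_pow_right hpp.one_lt (not_le.mp hcon)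
      omega
    have hj1 : 1 ≤ j := by
      by_contra hcon
      have hj0 : j = 0 := by omega
      have h1 : Nat.card R₀ ≤ Nat.card E := Subgroup.card_le_of_le hR₀E
      rw [h0, hj, hj0, pow_zero] at h1
      exact absurd h1 (not_le.mpr hpp.one_lt)
    rcases Nat.lt_or_ge j 2 with hlt | hge
    · exfalso
      have hj1' : j = 1 := by omega
      rw [hj1', pow_one] at hj
      -- a central element of order `p`
      have : Nontrivial R := by
        have : Nontrivial R₀ := by
          rw [← Finite.one_lt_card_iff_nontrivial, h0]; exact hpp.one_lt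
        obtain ⟨a, b, hab⟩ := this
        exact ⟨⟨a.1, b.1, fun h => hab (Subtype.ext h)⟩⟩
      have hcn := IsPGroup.center_nontrivial hR
      obtain ⟨n, hn⟩ := IsPGroup.iff_card.mp (hR.to_subgroup (Subgroup.center R))
      have hn0 : n ≠ 0 := by
        rintro rfl
        rw [pow_zero] at hn
        have := (Finite.one_lt_card_iff_nontrivial (α := Subgroup.center R)).mpr hcn
        omega
      have hpdvd : p ∣ Nat.card (Subgroup.center R) := by
        rw [hn]; exact dvd_pow_self p hn0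
      obtain ⟨z, hz⟩ := exists_prime_orderOf_dvd_card' p hpdvd
      have hzR : orderOf (z : R) = p := by rw [Subgroup.orderOf_coe, hz]
      have hzE : (z : R) ∈ E := by
        rw [hEmem]
        refine ⟨?_, by rw [← hzR]; exact pow_orderOf_eq_one _⟩
        rw [Subgroup.mem_centralizer_iff]
        intro h _
        exact (Subgroup.mem_center_iff.mp z.2 h)
      have hz1 : (⟨(z : R), hzE⟩ : E) ≠ 1 := by
        intro h
        have h2 : (z : R) = 1 := congrArg Subtype.val h
        rw [h2, orderOf_one] at hzR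
        exact hpp.one_lt.ne hzR
      have htop := zpowers_eq_top_of_prime_card hj hz1
      have hEcenter : E ≤ Subgroup.center R := by
        intro x hx
        have h3 : (⟨x, hx⟩ : E) ∈ Subgroup.zpowers (⟨(z : R), hzE⟩ : E) := by
          rw [htop]; exact Subgroup.mem_top _
        obtain ⟨k, hk⟩ := Subgroup.mem_zpowers_iff.mp h3
        have hk' : (z : R) ^ k = x := by
          have := congrArg Subtype.val hk
          simpa using this
        rw [← hk']
        exact Subgroup.zpow_mem _ z.2 k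
      -- now every element of exponent `p` lies in `E`
      unfold Cfsg.PRankLE at hr
      push Not at hr
      obtain ⟨B, hBc, hBp, hBcard⟩ := hr
      have hBE : B ≤ E := by
        intro b hb
        rw [hEmem]
        refine ⟨?_, hBp b hb⟩
        rw [Subgroup.mem_centralizer_iff]
        intro h hh
        exact (Subgroup.mem_center_iff.mp (hEcenter (hR₀E hh)) b).symm
      have h4 : Nat.card B ≤ Nat.card E := Subgroup.card_le_of_le hBE
      rw [hj] at h4
      have h5 : p ≤ p ^ 2 := by nlinarith [hpp.one_lt]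
      omega
    · have : j = 2 := by omega
      rw [hj, this]
  -- apply S1453
  obtain ⟨hET, -, -, hTchar, hTidx⟩ := Cfsg.Agent.S1453.result p hp hR hr E hEe hE2 hEmax
  set T : Subgroup R := Subgroup.centralizer
    ((Subgroup.closure {x : R | x ∈ Subgroup.upperCentralSeries R 2 ∧ x ^ p = 1} : Subgroup R) : Set R)
    with hTdef
  have hETcard : Nat.card (E ⊓ T : Subgroup R) ≤ p := by
    have hdvd : Nat.card (E ⊓ T : Subgroup R) ∣ p ^ 2 := by
      rw [← hE2]; exact Subgroup.card_dvd_of_le inf_le_left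
    obtain ⟨j, hj2, hj⟩ := (Nat.dvd_prime_pow hpp).mp hdvd
    have hjne : j ≠ 2 := by
      rintro rfl
      apply hET
      have h1 : E ⊓ T = E := Subgroup.eq_of_le_of_card_ge inf_le_left (by rw [hj, hE2])
      rw [← h1]; exact inf_le_right
    have hj1 : j ≤ 1 := by omega
    rw [hj]
    calc p ^ j ≤ p ^ 1 := Nat.pow_le_pow_right hpp.pos hj1
      _ = p := pow_one p
  have hTidx' : T.index = p := hTidx
  have : T.Characteristic := hTchar
  -- the critical subgroup
  obtain ⟨K, hKchar, hKfr, hKcomm, hKcent⟩ := Cfsg.Agent.S0093.result hR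
  have hKnormal : K.Normal := Subgroup.normal_of_characteristic K
  have hclass2 : ∀ x ∈ K, ∀ y ∈ K, ∀ k ∈ K, Commute ⁅x, y⁆ k := by
    intro x hx y hy k hk
    have h1 : ⁅x, y⁆ ∈ ⁅K, (⊤ : Subgroup R)⁆ :=
      Subgroup.commutator_mem_commutator hx (Subgroup.mem_top y)
    have h2 := (hKcomm h1).2
    exact (Subgroup.mem_centralizer_iff.mp h2 k hk).symm
  have hKpow : ∀ x ∈ K, ∀ k ∈ K, Commute (x ^ p) k := by
    intro x hx k hk
    have h1 := Cfsg.Agent.Helper2.pow_mem_frattini_of_isPGroup (hR.to_subgroup K) (⟨x, hx⟩ : K)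
    have h2 : K.subtype ((⟨x, hx⟩ : K) ^ p) ∈ (frattini K).map K.subtype :=
      Subgroup.mem_map_of_mem _ h1
    have h3 := hKfr h2
    have h4 : K.subtype ((⟨x, hx⟩ : K) ^ p) = x ^ p := by simp
    rw [h4] at h3
    exact (Subgroup.mem_centralizer_iff.mp h3 k hk).symm
  have hKhom : ∀ x ∈ K, ∀ y ∈ K, (x * y) ^ p = x ^ p * y ^ p := by
    intro x hx y hy
    have hzx : Commute ⁅y, x⁆ x := hclass2 y hy x hx x hx
    have hzy : Commute ⁅y, x⁆ y := hclass2 y hy x hx y hy
    have h1 := Cfsg.Agent.Helper24.mul_pow_of_commutator_commute x y hzx hzy p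
    have h2 : ⁅y, x⁆ ^ p = 1 := by
      rw [← Cfsg.Agent.Helper24.commutator_pow_left_of_commute x y hzy p]
      exact commutatorElement_eq_one_iff_commute.mpr (hKpow y hy x hx)
    have h3 : p.choose 2 = p * ((p - 1) / 2) := by
      rw [Nat.choose_two_right]
      obtain ⟨t, ht⟩ := hodd
      have : p - 1 = 2 * t := by omega
      rw [this, Nat.mul_div_cancel_left _ (by norm_num : 0 < 2), ← mul_assoc, mul_comm p 2,
        mul_assoc, Nat.mul_div_cancel_left _ (by norm_num : 0 < 2)]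
    rw [h1, h3, pow_mul, h2, one_pow, mul_one]
  -- `D = Ω₁(K)`
  let D : Subgroup R :=
    { carrier := {x | x ∈ K ∧ x ^ p = 1}
      one_mem' := ⟨Subgroup.one_mem _, one_pow p⟩
      mul_mem' := by
        rintro x y ⟨hx1, hx2⟩ ⟨hy1, hy2⟩
        exact ⟨Subgroup.mul_mem _ hx1 hy1, by rw [hKhom x hx1 y hy1, hx2, hy2, one_mul]⟩
      inv_mem' := by
        rintro x ⟨hx1, hx2⟩
        exact ⟨Subgroup.inv_mem _ hx1, by rw [inv_pow, hx2, inv_one]⟩ }
  have hDmem : ∀ x : R, x ∈ D ↔ x ∈ K ∧ x ^ p = 1 := fun x => Iff.rfl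
  have hDchar : D.Characteristic := by
    rw [Subgroup.characteristic_iff_le_comap]
    intro φ x hx
    rw [Subgroup.mem_comap]
    have hx' := (hDmem x).mp hx
    change (φ : MulAut R) x ∈ D
    rw [hDmem]
    exact ⟨(narrowAut_char_mem K φ x).mpr hx'.1, by rw [← map_pow, hx'.2, map_one]⟩
  -- the chain
  have hLchar := narrowAutChain_char D T
  have hLanti := narrowAutChain_anti D T
  have hLDT : ∀ n, narrowAutChain D T (n + 1) ≤ D ⊓ T := by
    intro n
    induction n with
    | zero => exact le_rfl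
    | succ n ih => exact (hLanti (n + 1)).trans ih
  have hLcard : ∀ n, Nat.card (narrowAutChain D T n) ≤ p * Nat.card (narrowAutChain D T (n + 1)) := by
    intro n
    cases n with
    | zero =>
      show Nat.card D ≤ p * Nat.card (D ⊓ T : Subgroup R)
      have h1 : Nat.card ((D ⊓ T).subgroupOf D) * ((D ⊓ T).subgroupOf D).index = Nat.card D :=
        Subgroup.card_mul_index _
      have h2 : Nat.card ((D ⊓ T).subgroupOf D) = Nat.card (D ⊓ T : Subgroup R) :=
        Nat.card_congr (Subgroup.subgroupOfEquivOfLe inf_le_left).toEquiv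
      have h3 : ((D ⊓ T).subgroupOf D).index ∣ p := by
        rw [Subgroup.inf_subgroupOf_left, ← hTidx']
        exact Subgroup.relIndex_dvd_index_of_normal T D
      have h4 : ((D ⊓ T).subgroupOf D).index ≤ p := Nat.le_of_dvd hpp.pos h3
      rw [← h1, h2, mul_comm]
      exact Nat.mul_le_mul_right _ h4
    | succ n =>
      show Nat.card (narrowAutChain D T (n + 1)) ≤
        p * Nat.card (⁅narrowAutChain D T (n + 1), (⊤ : Subgroup R)⁆ : Subgroup R)
      apply narrowAut_card_le (narrowAutChain D T (n + 1)) (e : R) p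
      refine le_trans ?_ hETcard
      let g : {x : R // x ∈ narrowAutChain D T (n + 1) ∧ x * (e : R) = (e : R) * x} →
          (E ⊓ T : Subgroup R) := fun x =>
        ⟨x.1, by
          have h1 := hLDT n x.2.1
          have h2 := (hDmem x.1).mp h1.1
          exact ⟨(hEmem x.1).mpr ⟨hecent x.1 x.2.2, h2.2⟩, h1.2⟩⟩
      apply Nat.card_le_card_of_injective g
      intro a b hab
      exact Subtype.ext (congrArg (fun t : (E ⊓ T : Subgroup R) => (t : R)) hab)
  have hLexp : ∀ x ∈ narrowAutChain D T 0, x ^ p = 1 := fun x hx => ((hDmem x).mp hx).2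
  have hLbot : ∃ n, narrowAutChain D T n = ⊥ := by
    have hnil : Group.IsNilpotent R := hR.isNilpotent
    obtain ⟨n, hn⟩ := Subgroup.nilpotent_iff_lowerCentralSeries.mp hnil
    refine ⟨n + 1, ?_⟩
    rw [eq_bot_iff, ← hn]
    exact narrowAutChain_le_lcs D T n
  obtain ⟨𝒞, hnorm, hcomm, hpow, hfix⟩ :=
    narrowAut_chain hR (narrowAutChain D T) hLchar hLanti hLcard hLexp hLbot
  refine ⟨𝒞, hnorm, ?_, hcomm, hpow⟩
  -- `𝒞` is a `p`-group
  rintro ⟨γ, hγ⟩
  have hord : orderOf γ ≠ 0 := (orderOf_pos γ).ne'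
  obtain ⟨k, m, hm, hkm⟩ := Nat.exists_eq_pow_mul_and_not_dvd hord p hpp.ne_one
  refine ⟨k, ?_⟩
  have hcop : m.Coprime p := ((Nat.Prime.coprime_iff_not_dvd hpp).mpr hm).symm
  set δ : MulAut R := γ ^ (p ^ k) with hδdef
  have hδ : δ ∈ 𝒞 := Subgroup.pow_mem _ hγ _
  have hδm : δ ^ m = 1 := by
    rw [hδdef, ← pow_mul, ← hkm]; exact pow_orderOf_eq_one γ
  have hD : ∀ x ∈ D, δ x = x := hfix δ hδ m hcop hδm
  have hKfix : ∀ j : ℕ, ∀ x ∈ K, x ^ (p ^ j) = 1 → δ x = x := by
    intro j
    induction j with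
    | zero =>
      intro x _ hx1
      rw [pow_zero, pow_one] at hx1
      rw [hx1, map_one]
    | succ j ih =>
      intro x hx hx1
      have hy : δ (x ^ p) = x ^ p := by
        apply ih (x ^ p) (Subgroup.pow_mem _ hx _)
        rw [← pow_mul, ← pow_succ']; exact hx1
      have hδx : δ x ∈ K := (narrowAut_char_mem K δ x).mpr hx
      have hc1 : x⁻¹ * δ x ∈ D := by
        rw [hDmem]
        refine ⟨Subgroup.mul_mem _ (Subgroup.inv_mem _ hx) hδx, ?_⟩
        rw [hKhom _ (Subgroup.inv_mem _ hx) _ hδx, inv_pow, ← map_pow, hy, inv_mul_cancel]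
      exact narrowAut_fix_of_coprime hR δ hcop hδm x (hD _ hc1)
  have hKfix' : ∀ x ∈ K, δ x = x := by
    intro x hx
    obtain ⟨j, hj⟩ := hR x
    exact hKfix j x hx hj
  have hall : ∀ x : R, δ x = x := by
    intro x
    have hc1 : x⁻¹ * δ x ∈ Subgroup.centralizer (K : Set R) := by
      rw [Subgroup.mem_centralizer_iff]
      intro k hk
      have h1 : x * k * x⁻¹ ∈ K := hKnormal.conj_mem k hk x
      have h2 := hKfix' _ h1
      rw [map_mul, map_mul, map_inv, hKfix' k hk] at h2
      calc k * (x⁻¹ * δ x) = x⁻¹ * (x * k * x⁻¹) * δ x := by group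
        _ = x⁻¹ * (δ x * k * (δ x)⁻¹) * δ x := by rw [h2]
        _ = x⁻¹ * δ x * k := by group
    exact narrowAut_fix_of_coprime hR δ hcop hδm x (hKfix' _ (hKcent hc1))
  apply Subtype.ext
  show γ ^ (p ^ k) = 1
  ext x
  exact hall x

end Cfsg.Agent.Helper52.NarrowAut
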