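import Mathlib
import Cfsg.Prelude.Def_Local
import Cfsg.Agent.Helper52.Basic

set_option autoImplicit false

/-!
Helper library of helper52 (second file): facts about Sylow 2-subgroups, groups of 2-rank one,
products of commuting subgroups and 2-components, used for the standard-subgroup statements.
-/

namespace Cfsg.Agent.Helper52

open scoped commutatorElement

/-- An element normalizing a Sylow 2-subgroup whose square lies in it lies in it. -/
theorem sylow_mem_of_normalizes {G : Type*} [Group G] [Finite G] (S : Sylow 2 G) (g : G)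
    (hgN : ∀ s ∈ (S : Subgroup G), g * s * g⁻¹ ∈ (S : Subgroup G)) (hg2 : g ^ 2 ∈ (S : Subgroup G)) :
    g ∈ (S : Subgroup G) := by
  have hnorm : g ∈ Subgroup.normalizer ((S : Subgroup G) : Set G) := by
    rw [Subgroup.mem_normalizer_iff]
    intro h
    constructor
    · exact hgN h
    · intro hh
      let c : ↥(S : Subgroup G) → ↥(S : Subgroup G) := fun x => ⟨g * x * g⁻¹, hgN x x.2⟩
      have hinj : Function.Injective c := by
        intro x y hxy
        have h1 : g * (x : G) * g⁻¹ = g * (y : G) * g⁻¹ := congrArg Subtype.val hxy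
        apply Subtype.ext
        have h2 := mul_right_cancel h1
        exact mul_left_cancel h2
      have hsurj : Function.Surjective c := Finite.injective_iff_surjective.mp hinj
      obtain ⟨x, hx⟩ := hsurj ⟨g * h * g⁻¹, hh⟩
      have h1 : g * (x : G) * g⁻¹ = g * h * g⁻¹ := congrArg Subtype.val hx
      have h2 : (x : G) = h := mul_left_cancel (mul_right_cancel h1)
      rw [← h2]; exact x.2
  have hpg : IsPGroup 2 (Subgroup.zpowers g) := by
    obtain ⟨k, hk⟩ := (isPGroup_iff_pow_pow_eq_one.mp S.2) ⟨g ^ 2, hg2⟩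
    have hk' : (g ^ 2) ^ (2 ^ k) = 1 := by
      have := congrArg Subtype.val hk
      simpa using this
    apply IsPGroup.of_card_dvd_pow (n := k + 1)
    rw [Nat.card_zpowers]
    apply orderOf_dvd_of_pow_eq_one
    rw [pow_succ', pow_mul]; exact hk'
  have h3 := hpg.inf_normalizer_sylow S
  have h4 : g ∈ Subgroup.zpowers g ⊓ (S : Subgroup G) := by
    rw [← h3]
    exact ⟨Subgroup.mem_zpowers g, hnorm⟩
  exact h4.2

/-- In a finite group of 2-rank at most one, a 2-subgroup has at most one involution. -/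
theorem unique_inv {K : Type*} [Group K] [Finite K] (hr : Cfsg.PRankLE 2 1 K) (R : Subgroup K)
    (hR : IsPGroup 2 R) (t u : K) (htR : t ∈ R) (huR : u ∈ R) (ht : t * t = 1) (ht1 : t ≠ 1)
    (hu : u * u = 1) (hu1 : u ≠ 1) : u = t := by
  have : Fact (Nat.Prime 2) := ⟨Nat.prime_two⟩
  have hnt : Nontrivial R := ⟨⟨⟨t, htR⟩, 1, fun h => ht1 (congrArg Subtype.val h)⟩⟩
  have hcn : Nontrivial (Subgroup.center R) := hR.center_nontrivial
  have hcp : IsPGroup 2 (Subgroup.center R) := hR.to_subgroup _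
  obtain ⟨n, hn0, hn⟩ := hcp.nontrivial_iff_card.mp hcn
  have hdvd : 2 ∣ Nat.card (Subgroup.center R) := by rw [hn]; exact dvd_pow_self 2 (by omega)
  obtain ⟨z, hz⟩ := exists_prime_orderOf_dvd_card' 2 hdvd
  -- z : center R, of order 2
  have hzc := z.2
  rw [Subgroup.mem_center_iff] at hzc
  set z₀ : K := ((z : R) : K) with hz₀
  have hz₀ord : orderOf z₀ = 2 := by
    rw [hz₀, Subgroup.orderOf_coe, Subgroup.orderOf_coe]; exact hz
  have hz₀2 : z₀ * z₀ = 1 := by rw [← sq, ← hz₀ord]; exact pow_orderOf_eq_one z₀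
  have hz₀1 : z₀ ≠ 1 := by intro h; rw [h, orderOf_one] at hz₀ord; omega
  have hcomm : ∀ x ∈ R, x * z₀ = z₀ * x := by
    intro x hx
    have := hzc ⟨x, hx⟩
    exact congrArg Subtype.val this
  have h1 := rank_one_inv hr z₀ t hz₀2 hz₀1 ht (hcomm t htR)
  have h2 := rank_one_inv hr z₀ u hz₀2 hz₀1 hu (hcomm u huR)
  rcases h1 with h1 | h1
  · exact absurd h1 ht1
  rcases h2 with h2 | h2
  · exact absurd h2 hu1
  rw [h1, h2]

/-- Elements of the join of two subgroups that commute elementwise are products. -/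
theorem mem_sup_comm {G : Type*} [Group G] (P K : Subgroup G)
    (hc : ∀ p ∈ P, ∀ k ∈ K, p * k = k * p) :
    ∀ x ∈ P ⊔ K, ∃ p ∈ P, ∃ k ∈ K, x = p * k := by
  let M : Subgroup G :=
    { carrier := {x | ∃ p ∈ P, ∃ k ∈ K, x = p * k}
      one_mem' := ⟨1, P.one_mem, 1, K.one_mem, by simp⟩
      mul_mem' := by
        rintro _ _ ⟨p, hp, k, hk, rfl⟩ ⟨p', hp', k', hk', rfl⟩
        refine ⟨p * p', P.mul_mem hp hp', k * k', K.mul_mem hk hk', ?_⟩
        calc p * k * (p' * k') = p * (k * p') * k' := by group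
          _ = p * (p' * k) * k' := by rw [hc p' hp' k hk]
          _ = p * p' * (k * k') := by group
      inv_mem' := by
        rintro _ ⟨p, hp, k, hk, rfl⟩
        refine ⟨p⁻¹, P.inv_mem hp, k⁻¹, K.inv_mem hk, ?_⟩
        rw [mul_inv_rev, hc p⁻¹ (P.inv_mem hp) k⁻¹ (K.inv_mem hk)] }
  have hP : P ≤ M := fun p hp => ⟨p, hp, 1, K.one_mem, by simp⟩
  have hK : K ≤ M := fun k hk => ⟨1, P.one_mem, k, hk, by simp⟩
  intro x hx
  exact (sup_le hP hK) hx

/-- Normalizing a decomposition of an involution in `P * C(P)` to a product of elements of square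
one, when the centre of `P` has odd order. -/
theorem inv_decomp {X : Type*} [Group X] [Finite X] (P : Subgroup X)
    (hZ : Odd (Nat.card ↥(Subgroup.center ↥P))) (s p₀ k₀ : X) (hp₀ : p₀ ∈ P)
    (hk₀ : k₀ ∈ Subgroup.centralizer (P : Set X)) (hs : s = p₀ * k₀) (hs2 : s * s = 1) :
    ∃ p ∈ P, ∃ k ∈ Subgroup.centralizer (P : Set X), s = p * k ∧ p * p = 1 ∧ k * k = 1 := by
  have hc : ∀ x ∈ P, ∀ k ∈ Subgroup.centralizer (P : Set X), x * k = k * x := by
    intro x hx k hk
    rw [Subgroup.mem_centralizer_iff] at hk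
    exact hk x hx
  set z₀ : X := p₀ * p₀ with hz₀
  have hz₀P : z₀ ∈ P := P.mul_mem hp₀ hp₀
  have hz₀k : z₀ = (k₀ * k₀)⁻¹ := by
    rw [hs] at hs2
    have h1 : p₀ * p₀ * (k₀ * k₀) = 1 := by
      calc p₀ * p₀ * (k₀ * k₀) = p₀ * (p₀ * k₀) * k₀ := by group
        _ = p₀ * (k₀ * p₀) * k₀ := by rw [hc p₀ hp₀ k₀ hk₀]
        _ = p₀ * k₀ * (p₀ * k₀) := by group
        _ = 1 := hs2
    exact eq_inv_of_mul_eq_one_left h1
  have hz₀K : z₀ ∈ Subgroup.centralizer (P : Set X) := by
    rw [hz₀k]; exact Subgroup.inv_mem _ (Subgroup.mul_mem _ hk₀ hk₀)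
  -- z₀ has odd order
  have hz₀c : (⟨z₀, hz₀P⟩ : P) ∈ Subgroup.center ↥P := by
    rw [Subgroup.mem_center_iff]
    intro x
    apply Subtype.ext
    exact hc x x.2 z₀ hz₀K
  have hodd : Odd (orderOf z₀) := by
    have h1 : orderOf z₀ ∣ Nat.card ↥(Subgroup.center ↥P) := by
      have := orderOf_dvd_natCard (⟨⟨z₀, hz₀P⟩, hz₀c⟩ : Subgroup.center ↥P)
      rwa [Subgroup.orderOf_mk, Subgroup.orderOf_mk] at this
    exact Odd.of_dvd_nat hZ h1
  obtain ⟨r, hr⟩ := hodd
  set z : X := z₀ ^ (r + 1) with hz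
  have hzP : z ∈ P := P.pow_mem hz₀P _
  have hzK : z ∈ Subgroup.centralizer (P : Set X) := Subgroup.pow_mem _ hz₀K _
  have hzz : z * z = z₀ := by
    rw [hz, ← pow_add]
    have : r + 1 + (r + 1) = orderOf z₀ + 1 := by omega
    rw [this, pow_succ, pow_orderOf_eq_one, one_mul]
  refine ⟨p₀ * z⁻¹, P.mul_mem hp₀ (P.inv_mem hzP), k₀ * z,
    Subgroup.mul_mem _ hk₀ hzK, ?_, ?_, ?_⟩
  · rw [hs]
    calc p₀ * k₀ = p₀ * (z⁻¹ * z) * k₀ := by group
      _ = p₀ * z⁻¹ * (z * k₀) := by group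
      _ = p₀ * z⁻¹ * (k₀ * z) := by rw [hc z hzP k₀ hk₀]
  · have h1 : z⁻¹ * p₀ = p₀ * z⁻¹ := (hc p₀ hp₀ z⁻¹ (Subgroup.inv_mem _ hzK)).symm
    calc p₀ * z⁻¹ * (p₀ * z⁻¹) = p₀ * (z⁻¹ * p₀) * z⁻¹ := by group
      _ = p₀ * (p₀ * z⁻¹) * z⁻¹ := by rw [h1]
      _ = (p₀ * p₀) * (z * z)⁻¹ := by group
      _ = 1 := by rw [hzz, ← hz₀, mul_inv_cancel]
  · calc k₀ * z * (k₀ * z) = k₀ * (z * k₀) * z := by group
      _ = k₀ * (k₀ * z) * z := by rw [hc z hzP k₀ hk₀]
      _ = (k₀ * k₀) * (z * z) := by group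
      _ = 1 := by rw [hzz, hz₀k, mul_inv_cancel]


/-- A 2-component `L` of a finite group `X` containing a perfect subgroup `P` which centralizes
`O(X)` and is not contained in `O(X)` is quasisimple. -/
theorem pcomp_quasisimple {X : Type*} [Group X] [Finite X] (L : Subgroup X)
    (hL : Cfsg.IsPComponent 2 L) (P : Subgroup X) (hPL : P ≤ L) (hPperf : ⁅P, P⁆ = P)
    (hPW : ¬ P ≤ Cfsg.oddCore X)
    (hcent : P ≤ Subgroup.centralizer (Cfsg.oddCore X : Set X)) : Cfsg.IsQuasisimple ↥L := by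
  obtain ⟨hLsub, ⟨hLbsub, hLbq⟩, hLmin⟩ := hL
  have hWn : (Cfsg.pPrimeCore 2 X).Normal := inferInstance
  set W : Subgroup X := Cfsg.pPrimeCore 2 X with hW
  set f : X →* X ⧸ W := QuotientGroup.mk' W with hf
  have hLbq' := hLbq
  obtain ⟨hLbperf, hLbsimple⟩ := hLbq
  -- L is perfect
  have hLperf : ⁅L, L⁆ = L := by
    apply hLmin
    · have h1 : (commutator ↥L).map L.subtype = ⁅L, L⁆ := Subgroup.map_subtype_commutator L
      rw [← h1]
      have h2 : (commutator ↥L).Normal := by rw [commutator_def]; infer_instance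
      exact h2.isSubnormal.trans' hLsub
    · rw [← Subgroup.map_subtype_commutator L]
      exact Subgroup.map_subtype_le _
    · rw [Subgroup.map_commutator]
      exact Subgroup.isPerfect_iff.mp hLbperf
  have hLperf' : Group.IsPerfect ↥L := Subgroup.isPerfect_iff.mpr hLperf
  -- M₀ = C_L(L ∩ W)
  set M₀ : Subgroup X := L ⊓ Subgroup.centralizer ((L ⊓ W : Subgroup X) : Set X) with hM₀
  have hPM : P ≤ M₀ := by
    apply le_inf hPL
    apply hcent.trans
    apply Subgroup.centralizer_le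
    intro x hx
    rw [SetLike.mem_coe, Subgroup.mem_inf] at hx
    exact hx.2
  have hM₀L : M₀ ≤ L := inf_le_left
  have hconj : ∀ m ∈ M₀, ∀ l ∈ L, l * m * l⁻¹ ∈ M₀ := by
    intro m hm l hl
    rw [hM₀, Subgroup.mem_inf] at hm ⊢
    obtain ⟨hmL, hm2⟩ := hm
    refine ⟨L.mul_mem (L.mul_mem hl hmL) (L.inv_mem hl), ?_⟩
    rw [Subgroup.mem_centralizer_iff] at hm2 ⊢
    intro y hy
    rw [SetLike.mem_coe, Subgroup.mem_inf] at hy
    have hy' : l⁻¹ * y * l ∈ ((L ⊓ W : Subgroup X) : Set X) := by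
      rw [SetLike.mem_coe, Subgroup.mem_inf]
      refine ⟨L.mul_mem (L.mul_mem (L.inv_mem hl) hy.1) hl, ?_⟩
      have := hWn.conj_mem y hy.2 l⁻¹
      rwa [inv_inv] at this
    have h1 := hm2 _ hy'
    calc y * (l * m * l⁻¹) = l * (l⁻¹ * y * l * m) * l⁻¹ := by group
      _ = l * (m * (l⁻¹ * y * l)) * l⁻¹ := by rw [h1]
      _ = l * m * l⁻¹ * y := by group
  have hM₀n : (M₀.subgroupOf L).Normal := by
    constructor
    intro x hx l
    rw [Subgroup.mem_subgroupOf] at hx ⊢
    exact hconj _ hx _ l.2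
  have hM₀sub : M₀.IsSubnormal := Subgroup.IsSubnormal.trans hM₀L hM₀n.isSubnormal hLsub
  have hMbn : ((M₀.map f).subgroupOf (L.map f)).Normal := by
    constructor
    intro x hx z
    rw [Subgroup.mem_subgroupOf] at hx ⊢
    obtain ⟨m, hm, hmx⟩ := hx
    obtain ⟨l, hl, hlz⟩ := z.2
    refine ⟨l * m * l⁻¹, hconj m hm l hl, ?_⟩
    simp only [map_mul, map_inv, hmx, hlz, Subgroup.coe_mul, Subgroup.coe_inv]
  rcases quasisimple_normal hLbq' ((M₀.map f).subgroupOf (L.map f)) with h | h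
  · exfalso
    apply hPW
    rw [← hPperf, Subgroup.commutator_le]
    intro x hx y hy
    have hfx : f x ∈ M₀.map f := Subgroup.mem_map_of_mem f (hPM hx)
    have hfxL : f x ∈ L.map f := Subgroup.mem_map_of_mem f (hPL hx)
    have hfyL : f y ∈ L.map f := Subgroup.mem_map_of_mem f (hPL hy)
    have h1 : (⟨f x, hfxL⟩ : L.map f) ∈ Subgroup.center ↥(L.map f) :=
      h (Subgroup.mem_subgroupOf.mpr hfx)
    rw [Subgroup.mem_center_iff] at h1
    have h2 : f y * f x = f x * f y := congrArg Subtype.val (h1 ⟨f y, hfyL⟩)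
    have h3 : f ⁅x, y⁆ = 1 := by
      rw [map_commutatorElement, commutatorElement_def, ← h2]; group
    have h4 : ⁅x, y⁆ ∈ f.ker := h3
    rw [hf, QuotientGroup.ker_mk'] at h4
    exact h4
  · have h1 : M₀.map f = L.map f := by
      apply le_antisymm (Subgroup.map_mono hM₀L)
      intro z hz
      have h2 : (⟨z, hz⟩ : L.map f) ∈ (M₀.map f).subgroupOf (L.map f) := by rw [h]; trivial
      exact Subgroup.mem_subgroupOf.mp h2
    have h2 : M₀ = L := hLmin M₀ hM₀sub hM₀L h1
    have hcentral : ∀ y ∈ L, y ∈ W → ∀ x ∈ L, y * x = x * y := by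
      intro y hyL hyW x hxL
      have hx : x ∈ M₀ := by rw [h2]; exact hxL
      rw [hM₀, Subgroup.mem_inf] at hx
      have hx2 := hx.2
      rw [Subgroup.mem_centralizer_iff] at hx2
      exact hx2 y (Subgroup.mem_inf.mpr ⟨hyL, hyW⟩)
    refine ⟨hLperf', ?_⟩
    -- the surjection L → L̄ → L̄ / Z(L̄)
    set ψ : ↥L →* ↥(L.map f) := f.subgroupMap L with hψ
    have hψsurj : Function.Surjective ψ := f.subgroupMap_surjective L
    set φ : ↥L →* ↥(L.map f) ⧸ Subgroup.center ↥(L.map f) :=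
      (QuotientGroup.mk' (Subgroup.center ↥(L.map f))).comp ψ with hφ
    have hφsurj : Function.Surjective φ :=
      (QuotientGroup.mk'_surjective _).comp hψsurj
    have hker : φ.ker = Subgroup.center ↥L := by
      ext x
      rw [MonoidHom.mem_ker, hφ, MonoidHom.comp_apply, QuotientGroup.mk'_apply,
        QuotientGroup.eq_one_iff]
      constructor
      · intro hx
        rw [Subgroup.mem_center_iff] at hx
        -- conjugation by x is a central automorphism of L
        have hcen : ∀ l : ↥L, l⁻¹ * (MulAut.conj x).toMonoidHom l ∈ Subgroup.center ↥L := by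
          intro l
          have h3 : ψ (l⁻¹ * (x * l * x⁻¹)) = 1 := by
            rw [map_mul, map_mul, map_mul, map_inv, map_inv, ← hx (ψ l)]
            group
          have h4 : ((l⁻¹ * (x * l * x⁻¹) : ↥L) : X) ∈ W := by
            have h5 := congrArg Subtype.val h3
            rw [hψ] at h5
            simp only [MonoidHom.subgroupMap_apply_coe, Subgroup.coe_one] at h5
            have h6 : ((l⁻¹ * (x * l * x⁻¹) : ↥L) : X) ∈ f.ker := h5
            rw [hf, QuotientGroup.ker_mk'] at h6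
            exact h6
          rw [Subgroup.mem_center_iff]
          intro y
          apply Subtype.ext
          have := hcentral _ (l⁻¹ * (x * l * x⁻¹) : ↥L).2 h4 y y.2
          simp only [MulEquiv.coe_toMonoidHom, MulAut.conj_apply, Subgroup.coe_mul]
          exact this.symm
        have hid := perfect_central_hom hLperf' (MulAut.conj x).toMonoidHom hcen
        rw [Subgroup.mem_center_iff]
        intro l
        have := hid l
        simp only [MulEquiv.coe_toMonoidHom, MulAut.conj_apply] at this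
        calc l * x = (x * l * x⁻¹) * x := by rw [this]
          _ = x * l := by group
      · intro hx
        rw [Subgroup.mem_center_iff] at hx ⊢
        intro z
        obtain ⟨l, rfl⟩ := hψsurj z
        rw [← map_mul, ← map_mul, hx l]
    have e1 : ↥L ⧸ φ.ker ≃* ↥(L.map f) ⧸ Subgroup.center ↥(L.map f) :=
      QuotientGroup.quotientKerEquivOfSurjective φ hφsurj
    have e2 : ↥L ⧸ Subgroup.center ↥L ≃* ↥L ⧸ φ.ker :=
      QuotientGroup.quotientMulEquivOfEq hker.symm
    exact (e2.trans e1).isSimpleGroup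

end Cfsg.Agent.Helper52
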